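import Cfsg.Statements.S0671
import Cfsg.Agent.H1.PermModule

set_option autoImplicit false
open Cfsg

namespace Cfsg.Agent.S0671

open H1.PermModule

/-- If the heart of the permutation module in characteristic `p` of a transitive action of degree `p ^ f` has no trivial composition factor, the action is doubly transitive. The hypothesis is phrased without composition series: no invariant subspaces `W < W'` between the constants and the sum-zero functions with trivial action on the quotient. -/
theorem result {G : Type*} [Group G] [Finite G] {K : Type*} [Field K] {p f : ℕ} [Fact p.Prime] [CharP K p] {Ω : Type*} [Fintype Ω] [MulAction G Ω] [MulAction.IsPretransitive G Ω] (hf : 1 ≤ f) (hcard : Fintype.card Ω = p ^ f) (h : ∀ W W' : Subrepresentation (Cfsg.permRep K G Ω), (Cfsg.permConstants K G Ω).toSubmodule ≤ W.toSubmodule → W.toSubmodule < W'.toSubmodule → W'.toSubmodule ≤ (Cfsg.permSumZero K G Ω).toSubmodule → ∃ g : G, ∃ v ∈ W'.toSubmodule, Cfsg.permRep K G Ω g v - v ∉ W.toSubmodule) : MulAction.IsMultiplyPretransitive G Ω 2 := by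
  classical
  rw [MulAction.is_two_pretransitive_iff]
  intro a b c d hab hcd
  let O : Ω → Ω → Prop := fun x y => ∃ g : G, g • a = x ∧ g • b = y
  have hO : ∀ (g : G) x y, O (g • x) (g • y) ↔ O x y := by
    intro g x y
    constructor
    · rintro ⟨k, h1, h2⟩
      exact ⟨g⁻¹ * k, by rw [mul_smul, h1, inv_smul_smul], by rw [mul_smul, h2, inv_smul_smul]⟩
    · rintro ⟨k, h1, h2⟩
      exact ⟨g * k, by rw [mul_smul, h1], by rw [mul_smul, h2]⟩
  let A : Ω → Ω → K := fun x y => if O x y then 1 else 0
  have hA : ∀ (g : G) x y, A (g • x) (g • y) = A x y := by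
    intro g x y
    simp only [A, hO]
  let k : K := ∑ y, A a y
  have hk : ∀ x, ∑ y, A x y = k := by
    intro x
    obtain ⟨g, rfl⟩ := MulAction.exists_smul_eq G a x
    exact (Fintype.sum_equiv (MulAction.toPerm g) _ _ fun y => (hA g a y).symm).symm
  let B : (Ω → K) →ₗ[K] (Ω → K) :=
    { toFun := fun v x => ∑ y, A x y * v y - k * v x
      map_add' := by
        intro u v
        funext x
        simp only [Pi.add_apply, mul_add, Finset.sum_add_distrib]
        ring
      map_smul' := by
        intro r v
        funext x
        simp only [Pi.smul_apply, smul_eq_mul, RingHom.id_apply, mul_sub, Finset.mul_sum]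
        congr 1
        · exact Finset.sum_congr rfl fun y _ => by ring
        · ring }
  have hBapp : ∀ v x, B v x = ∑ y, A x y * v y - k * v x := fun _ _ => rfl
  have hB : ∀ (g : G) v, B (permRep K G Ω g v) = permRep K G Ω g (B v) := by
    intro g v
    funext x
    simp only [hBapp, permRep_apply]
    congr 1
    exact Fintype.sum_equiv (MulAction.toPerm g⁻¹) _ _ fun y => by
      simp only [MulAction.toPerm_apply, hA]
  have hBsingle : ∀ x y, x ≠ y → B (Pi.single y 1) x = A x y := by
    intro x y hxy
    simp [hBapp, Pi.single_apply, hxy]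
  have hAab : A a b = 1 := if_pos ⟨1, one_smul _ _, one_smul _ _⟩
  let W : Subrepresentation (permRep K G Ω) :=
    ⟨LinearMap.ker B, fun g v hv => by
      rw [LinearMap.mem_ker] at hv ⊢
      rw [hB, hv, map_zero]⟩
  let W' : Subrepresentation (permRep K G Ω) :=
    ⟨(permConstants K G Ω).toSubmodule.comap B, fun g v hv => by
      rw [Submodule.mem_comap] at hv ⊢
      rw [hB]
      exact (permConstants K G Ω).apply_mem_toSubmodule g hv⟩
  have hCW : (permConstants K G Ω).toSubmodule ≤ W.toSubmodule := by
    intro v hv
    obtain ⟨e, he⟩ := (mem_permConstants v).1 hv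
    change B v = 0
    funext x
    simp [hBapp, he, ← Finset.sum_mul, hk]
  have hrange : (fun _ => (1 : K)) ∈ LinearMap.range B := by
    apply const_mem_of_ne_bot (G := G) hcard
    · rintro g _ ⟨v, rfl⟩
      exact ⟨_, hB g v⟩
    · intro h0
      have h1 : B (Pi.single b 1) = 0 := by
        rw [← Submodule.mem_bot K, ← h0]
        exact ⟨_, rfl⟩
      have h2 := hBsingle a b hab
      rw [h1, hAab] at h2
      exact zero_ne_one h2
  have hWW' : W.toSubmodule < W'.toSubmodule := by
    obtain ⟨u, hu⟩ := hrange
    refine lt_of_le_of_ne (fun v hv => ?_) (fun heq => ?_)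
    · change B v ∈ (permConstants K G Ω).toSubmodule
      have : B v = 0 := hv
      rw [this]
      exact Submodule.zero_mem _
    · have h1 : u ∈ W'.toSubmodule := by
        change B u ∈ (permConstants K G Ω).toSubmodule
        rw [hu, mem_permConstants]
        exact ⟨1, fun _ => rfl⟩
      rw [← heq] at h1
      have h2 : B u = 0 := h1
      rw [hu] at h2
      exact one_ne_zero (congrFun h2 a)
  have htop : W'.toSubmodule = ⊤ := by
    by_contra hne
    obtain ⟨g, v, hv, hgv⟩ := h W W' hCW hWW' (fun v hv =>
      sum_eq_zero_of_ne_top hcard W'.toSubmodule (fun g v hv => W'.apply_mem_toSubmodule g hv)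
        hne v hv)
    apply hgv
    change B _ = 0
    obtain ⟨e, he⟩ := (mem_permConstants (G := G) (B v)).1 hv
    rw [map_sub, hB]
    funext x
    simp [he]
  have hb : Pi.single b 1 ∈ W'.toSubmodule := htop ▸ Submodule.mem_top
  obtain ⟨e, he⟩ := (mem_permConstants (G := G) (B _)).1 hb
  have he1 : e = 1 := by rw [← he a, hBsingle a b hab, hAab]
  obtain ⟨g, rfl⟩ := MulAction.exists_smul_eq G b d
  have h1 := hBsingle c (g • b) hcd
  rw [← permRep_single, hB, permRep_apply, he, he1] at h1
  by_contra hcon
  have : A c (g • b) = 0 := if_neg hcon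
  rw [this] at h1
  exact one_ne_zero h1

end Cfsg.Agent.S0671
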