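import Cfsg.Statements.S0673
import Mathlib

set_option autoImplicit false
open Cfsg

namespace Cfsg.Agent.S0673

open Polynomial

theorem degree_sub_taylor {K : Type*} [Field K] (P : K[X]) (n : ℕ) (hP : P.degree = (n + 1 : ℕ))
    (hn : ((n + 1 : ℕ) : K) ≠ 0) : (P - taylor (-1) P).degree = n := by
  have hP0 : P ≠ 0 := by
    intro h
    rw [h, degree_zero] at hP
    exact WithBot.bot_ne_coe hP
  have hnat : P.natDegree = n + 1 := natDegree_eq_of_degree_eq_some hP
  have h1 : (P - taylor (-1) P).degree < (n + 1 : ℕ) := by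
    rw [← hP]
    exact degree_sub_lt_left (degree_taylor _ _).symm hP0 (leadingCoeff_taylor _ _).symm
  have h2 : (P - taylor (-1) P).coeff n ≠ 0 := by
    have h3 : (hasseDeriv n P).natDegree ≤ 1 := (natDegree_hasseDeriv_le P n).trans (by omega)
    rw [coeff_sub, taylor_coeff, eq_X_add_C_of_natDegree_le_one h3, hasseDeriv_coeff,
      hasseDeriv_coeff]
    have h4 : P.coeff (1 + n) ≠ 0 := by
      rw [add_comm, ← hnat]
      exact leadingCoeff_ne_zero.2 hP0
    have h5 : (1 + n).choose n = n + 1 := by rw [add_comm, Nat.choose_succ_self_right]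
    simpa [h5, h4] using hn
  apply le_antisymm
  · rw [Nat.cast_succ] at h1
    exact Order.le_of_lt_succ h1
  · exact le_degree_of_ne_zero h2

theorem cast_injective {p : ℕ} [Fact p.Prime] {K : Type*} [Field K] [CharP K p] :
    Function.Injective (fun j : ZMod p => (ZMod.cast j : K)) :=
  (ZMod.castHom (dvd_refl p) K).injective

/-- evaluation of polynomials at the points of the prime field -/
noncomputable def ev (p : ℕ) (K : Type*) [Field K] : K[X] →ₗ[K] (ZMod p → K) where
  toFun P j := P.eval (ZMod.cast j : K)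
  map_add' P Q := by funext j; simp
  map_smul' c P := by funext j; simp

theorem ev_apply (p : ℕ) (K : Type*) [Field K] (P : K[X]) (j : ZMod p) :
    ev p K P j = P.eval (ZMod.cast j : K) := rfl

theorem eq_of_ev_eq {p : ℕ} [Fact p.Prime] {K : Type*} [Field K] [CharP K p] {P Q : K[X]}
    (hP : P.degree < p) (hQ : Q.degree < p) (h : ev p K P = ev p K Q) : P = Q := by
  refine eq_of_degrees_lt_of_eval_index_eq (Finset.univ : Finset (ZMod p))
    (cast_injective (p := p) (K := K)).injOn ?_ ?_ fun j _ => congrFun h j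
  · simpa using hP
  · simpa using hQ

theorem exists_ev_eq {p : ℕ} [Fact p.Prime] {K : Type*} [Field K] [CharP K p] (f : ZMod p → K) :
    ∃ P : K[X], P.degree < p ∧ ev p K P = f := by
  classical
  refine ⟨Lagrange.interpolate Finset.univ (fun j : ZMod p => (ZMod.cast j : K)) f, ?_, ?_⟩
  · simpa using Lagrange.degree_interpolate_lt (s := Finset.univ) f
      (cast_injective (p := p) (K := K)).injOn
  · funext j
    exact Lagrange.eval_interpolate_at_node f (cast_injective (p := p) (K := K)).injOn
      (Finset.mem_univ j)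

theorem finrank_map_degreeLT {p : ℕ} [Fact p.Prime] {K : Type*} [Field K] [CharP K p] {r : ℕ}
    (hr : r ≤ p) : Module.finrank K ((degreeLT K r).map (ev p K)) = r := by
  have hinj : Function.Injective ((ev p K).domRestrict (degreeLT K r)) := by
    intro P Q h
    apply Subtype.ext
    exact eq_of_ev_eq ((mem_degreeLT.1 P.2).trans_le (by exact_mod_cast hr))
      ((mem_degreeLT.1 Q.2).trans_le (by exact_mod_cast hr)) h
  rw [← LinearMap.range_domRestrict, LinearMap.finrank_range_of_inj hinj,
    (degreeLTEquiv K r).finrank_eq]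
  simp

/-- In characteristic `p`, the translation-invariant subspaces of the space of functions on `ZMod p` are exactly the spaces of polynomial functions of degree less than `r`, one for each `r ≤ p`, of dimension `r`. -/
theorem result {p : ℕ} [Fact p.Prime] {K : Type*} [Field K] [CharP K p] (W : Submodule K (ZMod p → K)) (hW : ∀ f ∈ W, (fun j => f (j - 1)) ∈ W) : ∃ r : ℕ, r ≤ p ∧ Module.finrank K W = r ∧ ∀ f : ZMod p → K, f ∈ W ↔ ∃ P : Polynomial K, P.degree < r ∧ ∀ j : ZMod p, f j = P.eval (ZMod.cast j : K) := by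
  classical
  have hshift : ∀ P : K[X], ev p K P ∈ W → ev p K (P - taylor (-1) P) ∈ W := by
    intro P hP
    rw [map_sub]
    refine W.sub_mem hP ?_
    convert hW _ hP using 1
    funext j
    rw [ev_apply, ev_apply, taylor_eval, ZMod.cast_sub (dvd_refl p), ZMod.cast_one (dvd_refl p),
      sub_eq_add_neg]
  -- descending through the degrees
  have hdown : ∀ n : ℕ, n < p → (∃ P : K[X], P.degree = n ∧ ev p K P ∈ W) →
      ∀ Q : K[X], Q.degree < (n + 1 : ℕ) → ev p K Q ∈ W := by
    intro n
    induction n with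
    | zero =>
      rintro _ ⟨P, hP, hPW⟩ Q hQ
      have hP0 : P.coeff 0 ≠ 0 := coeff_ne_zero_of_eq_degree hP
      have h1 : Q = (Q.coeff 0 * (P.coeff 0)⁻¹) • P := by
        rw [eq_C_of_degree_le_zero hP.le, eq_C_of_degree_le_zero (p := Q)
          (Order.le_of_lt_succ hQ)]
        simp [smul_C, hP0]
      rw [h1, map_smul]
      exact W.smul_mem _ hPW
    | succ n ih =>
      rintro hn ⟨P, hP, hPW⟩ Q hQ
      have hP0 : P.coeff (n + 1) ≠ 0 := coeff_ne_zero_of_eq_degree hP
      have hne : ((n + 1 : ℕ) : K) ≠ 0 := by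
        rw [Ne, CharP.cast_eq_zero_iff K p]
        exact Nat.not_dvd_of_pos_of_lt (Nat.succ_pos n) hn
      have h1 := ih (by omega) ⟨_, degree_sub_taylor P n hP hne, hshift P hPW⟩
        (Q - (Q.coeff (n + 1) * (P.coeff (n + 1))⁻¹) • P) (by
          rw [degree_lt_iff_coeff_zero]
          intro m hm
          rcases hm.eq_or_lt with rfl | hm
          · simp [hP0]
          · have h2 : Q.coeff m = 0 := (degree_lt_iff_coeff_zero _ _).1 hQ m hm
            have h3 : P.coeff m = 0 := coeff_eq_zero_of_degree_lt (by rw [hP]; exact_mod_cast hm)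
            simp [h2, h3])
      rw [map_sub, map_smul] at h1
      have := W.add_mem h1 (W.smul_mem (Q.coeff (n + 1) * (P.coeff (n + 1))⁻¹) hPW)
      rwa [sub_add_cancel] at this
  have hex : ∃ r : ℕ, ∀ P : K[X], P.degree < p → ev p K P ∈ W → P.degree < r :=
    ⟨p, fun P hP _ => hP⟩
  have hrp : Nat.find hex ≤ p := Nat.find_min' hex fun P hP _ => hP
  have hWeq : W = (degreeLT K (Nat.find hex)).map (ev p K) := by
    apply le_antisymm
    · intro f hf
      obtain ⟨P, hP, rfl⟩ := exists_ev_eq f
      exact ⟨P, mem_degreeLT.2 (Nat.find_spec hex P hP hf), rfl⟩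
    · rintro _ ⟨Q, hQ, rfl⟩
      have hQ' := mem_degreeLT.1 hQ
      rcases hn : Nat.find hex with _ | n
      · rw [hn] at hQ'
        have : Q = 0 := by simpa using hQ'
        rw [this, map_zero]
        exact W.zero_mem
      · have h1 := Nat.find_min hex (m := n) (by omega)
        push Not at h1
        obtain ⟨P, hP, hPW, hPn⟩ := h1
        have h2 := Nat.find_spec hex P hP hPW
        rw [hn] at h2 hQ'
        refine hdown n (by omega) ⟨P, le_antisymm ?_ hPn, hPW⟩ Q hQ'
        rw [Nat.cast_succ] at h2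
        exact Order.le_of_lt_succ h2
  refine ⟨Nat.find hex, hrp, ?_, fun f => ?_⟩
  · conv_lhs => rw [hWeq]
    exact finrank_map_degreeLT hrp
  · conv_lhs => rw [hWeq]
    constructor
    · rintro ⟨P, hP, rfl⟩
      exact ⟨P, mem_degreeLT.1 hP, fun j => rfl⟩
    · rintro ⟨P, hP, h⟩
      exact ⟨P, mem_degreeLT.2 hP, funext fun j => (h j).symm⟩

end Cfsg.Agent.S0673
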