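import Cfsg.Statements.S0672
import Cfsg.Agent.H1.PermModule

set_option autoImplicit false
open Cfsg

namespace Cfsg.Agent.S0672

open H1.PermModule
open scoped Pointwise

theorem pair_eq_pair {Ω : Type*} [DecidableEq Ω] {a b c d : Ω} (hab : a ≠ b)
    (h : ({a, b} : Finset Ω) = {c, d}) : (a = c ∧ b = d) ∨ (a = d ∧ b = c) := by
  have h1 : a ∈ ({c, d} : Finset Ω) := h ▸ by simp
  have h2 : b ∈ ({c, d} : Finset Ω) := h ▸ by simp
  simp only [Finset.mem_insert, Finset.mem_singleton] at h1 h2
  rcases h1 with rfl | rfl <;> rcases h2 with rfl | rfl <;> simp_all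

/-- Let a finite group act faithfully and doubly transitively with point stabilisers of even order, and let `K` have characteristic `p` dividing the degree. If the heart of the permutation module admits no non-zero equivariant map to the permutation module on unordered pairs (phrased: every intertwining map from the sum-zero functions vanishing on the constants is zero), the action is triply transitive. -/
theorem result {G : Type*} [Group G] [Finite G] {K : Type*} [Field K] {p : ℕ} [Fact p.Prime] [CharP K p] {Ω : Type*} [Fintype Ω] [DecidableEq Ω] [MulAction G Ω] [FaithfulSMul G Ω] (h2 : MulAction.IsMultiplyPretransitive G Ω 2) (hp : p ∣ Fintype.card Ω) (heven : ∀ a : Ω, Even (Nat.card (MulAction.stabilizer G a))) (h : ∀ f : Representation.IntertwiningMap (Cfsg.permSumZero K G Ω).toRepresentation (Cfsg.permRep K G (Set.powersetCard Ω 2)), (∀ v : (Cfsg.permSumZero K G Ω).toSubmodule, (v : Ω → K) ∈ (Cfsg.permConstants K G Ω).toSubmodule → f v = 0) → f = 0) : MulAction.IsMultiplyPretransitive G Ω 3 := by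
  classical
  -- invariant matrices with zero column sums have constant columns
  have key : ∀ M : Ω → Set.powersetCard Ω 2 → K, (∀ (g : G) x s, M (g • x) (g • s) = M x s) →
      (∀ s, ∑ x, M x s = 0) → ∀ x y s, M x s = M y s := by
    intro M hM hM0 x y s
    let T : (permSumZero K G Ω).toSubmodule →ₗ[K] (Set.powersetCard Ω 2 → K) :=
      { toFun := fun v s => ∑ x, M x s * (v : Ω → K) x
        map_add' := by
          intro u v
          funext s
          simp [mul_add, Finset.sum_add_distrib]
        map_smul' := by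
          intro r v
          funext s
          simp only [SetLike.val_smul, Pi.smul_apply, smul_eq_mul, RingHom.id_apply,
            Finset.mul_sum]
          exact Finset.sum_congr rfl fun y _ => by ring }
    let f : Representation.IntertwiningMap (Cfsg.permSumZero K G Ω).toRepresentation
        (Cfsg.permRep K G (Set.powersetCard Ω 2)) :=
      ⟨T, fun g => by
        apply LinearMap.ext
        intro v
        funext s
        change ∑ x, M x s * (v : Ω → K) (g⁻¹ • x) = ∑ x, M x (g⁻¹ • s) * (v : Ω → K) x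
        exact Fintype.sum_equiv (MulAction.toPerm g⁻¹) _ _ fun y => by
          simp only [MulAction.toPerm_apply, hM]⟩
    have hf : f = 0 := by
      apply h
      intro v hv
      obtain ⟨c, hc⟩ := (mem_permConstants _).1 hv
      funext s
      change ∑ x, M x s * (v : Ω → K) x = 0
      simp [hc, ← Finset.sum_mul, hM0]
    have hv : (Pi.single x 1 - Pi.single y 1 : Ω → K) ∈ (permSumZero K G Ω).toSubmodule := by
      rw [mem_permSumZero]
      simp [Finset.sum_sub_distrib]
    have h1 : f ⟨_, hv⟩ s = 0 := by rw [hf]; rfl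
    change ∑ z, M z s * (Pi.single x 1 - Pi.single y 1 : Ω → K) z = 0 at h1
    simpa [mul_sub, Finset.sum_sub_distrib, Pi.single_apply, sub_eq_zero] using h1
  have htr : MulAction.IsPretransitive G (Set.powersetCard Ω 2) :=
    Set.powersetCard.isPretransitive_of_isMultiplyPretransitive G h2
  -- transitivity on the non-incident point-pair pairs
  have step1 : ∀ (x₀ x₁ : Ω) (s₀ s₁ : Set.powersetCard Ω 2), x₀ ∉ (s₀ : Finset Ω) →
      x₁ ∉ (s₁ : Finset Ω) → ∃ g : G, g • x₀ = x₁ ∧ g • s₀ = s₁ := by
    intro x₀ x₁ s₀ s₁ h₀ h₁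
    by_contra hcon
    let O : Ω → Set.powersetCard Ω 2 → Prop := fun x s => ∃ g : G, g • x₀ = x ∧ g • s₀ = s
    have hO : ∀ (g : G) x y, O (g • x) (g • y) ↔ O x y := by
      intro g x y
      constructor
      · rintro ⟨k, h1, h2⟩
        exact ⟨g⁻¹ * k, by rw [mul_smul, h1, inv_smul_smul], by rw [mul_smul, h2, inv_smul_smul]⟩
      · rintro ⟨k, h1, h2⟩
        exact ⟨g * k, by rw [mul_smul, h1], by rw [mul_smul, h2]⟩
    let A : Ω → Set.powersetCard Ω 2 → K := fun x s => if O x s then 1 else 0
    have hA : ∀ (g : G) x s, A (g • x) (g • s) = A x s := by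
      intro g x s
      simp only [A, hO]
    let I : Ω → Set.powersetCard Ω 2 → K := fun x s => if x ∈ (s : Finset Ω) then 1 else 0
    have hI : ∀ (g : G) x s, I (g • x) (g • s) = I x s := by
      intro g x s
      simp [I]
    have hIsum : ∀ s, ∑ x, I x s = 2 := by
      intro s
      simp [I]
    let k : K := ∑ x, A x s₀
    have hk : ∀ s, ∑ x, A x s = k := by
      intro s
      obtain ⟨g, rfl⟩ := MulAction.exists_smul_eq G s₀ s
      exact (Fintype.sum_equiv (MulAction.toPerm g) _ _ fun y => (hA g y s₀).symm).symm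
    have hA1 : A x₁ s₁ = 0 := if_neg hcon
    have hI1 : I x₁ s₁ = 0 := if_neg h₁
    have htwo : (2 : K) = 0 := by
      obtain ⟨g, hg⟩ := MulAction.exists_smul_eq G s₀ s₁
      have := key (fun x s => 2 * A x s - k * I x s) (fun g x s => by simp only [hA, hI])
        (fun s => by
          simp only [Finset.sum_sub_distrib, ← Finset.mul_sum, hk, hIsum]; ring) (g • x₀) x₁ s₁
      have h3 : A (g • x₀) s₁ = 1 := if_pos ⟨g, rfl, hg⟩
      have h4 : I (g • x₀) s₁ = 0 := by rw [← hg, hI]; exact if_neg h₀
      simpa [h3, h4, hA1, hI1] using this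
    obtain ⟨y, hy⟩ : (s₁ : Finset Ω).Nonempty := by
      rw [← Finset.card_pos, Set.powersetCard.card_eq s₁]; norm_num
    have := key I hI (fun s => by rw [hIsum, htwo]) y x₁ s₁
    rw [hI1, show I y s₁ = 1 from if_pos hy] at this
    exact one_ne_zero this
  have step2 : ∀ a b c a' b' c' : Ω, a ≠ b → a ≠ c → b ≠ c → a' ≠ b' → a' ≠ c' → b' ≠ c' →
      ∃ g : G, g • a = a' ∧ ((g • b = b' ∧ g • c = c') ∨ (g • b = c' ∧ g • c = b')) := by
    intro a b c a' b' c' hab hac hbc hab' hac' hbc'
    obtain ⟨g, hg1, hg2⟩ := step1 a a' ⟨{b, c}, Finset.card_pair hbc⟩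
      ⟨{b', c'}, Finset.card_pair hbc'⟩ (by simp [hab, hac]) (by simp [hab', hac'])
    refine ⟨g, hg1, pair_eq_pair (by simpa using hbc) ?_⟩
    have := congrArg Subtype.val hg2
    simpa [Finset.smul_finset_insert] using this
  rw [H1.Basic.is_three_pretransitive_iff]
  intro a b c a' b' c' hab hac hbc hab' hac' hbc'
  obtain ⟨g, hg1, hg2 | hg2⟩ := step2 a b c a' b' c' hab hac hbc hab' hac' hbc'
  · exact ⟨g, hg1, hg2⟩
  have : Fact (Nat.Prime 2) := ⟨Nat.prime_two⟩
  obtain ⟨t, ht⟩ := exists_prime_orderOf_dvd_card' 2 (heven a).two_dvd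
  have hta : (t : G) • a = a := t.2
  have ht2 : (t : G) * t = 1 := by
    have := pow_orderOf_eq_one t
    rw [ht, sq] at this
    exact congrArg Subtype.val this
  obtain ⟨y, hy⟩ : ∃ y : Ω, (t : G) • y ≠ y := by
    by_contra hcon
    push Not at hcon
    have h1 : (t : G) = 1 := FaithfulSMul.eq_of_smul_eq_smul (α := Ω) fun x => by
      rw [hcon, one_smul]
    have h3 : t = 1 := Subtype.ext h1
    rw [h3, orderOf_one] at ht
    norm_num at ht
  have hay : a ≠ y := fun h => hy (h ▸ hta)
  have haz : a ≠ (t : G) • y := fun h => hay (by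
    have := congrArg ((t : G) • ·) h
    simpa [hta, ← mul_smul, ht2] using this)
  have htt : (t : G) • (t : G) • y = y := by rw [← mul_smul, ht2, one_smul]
  obtain ⟨k, hk1, hk2⟩ := step2 a y ((t : G) • y) a' b' c' hay haz hy.symm hab' hac' hbc'
  refine ⟨k * t * k⁻¹ * g, ?_, ?_, ?_⟩
  · rw [mul_smul, hg1, ← hk1, mul_smul, inv_smul_smul, mul_smul, hta]
  · rw [mul_smul, hg2.1]
    rcases hk2 with hk2 | hk2
    · rw [← hk2.2, mul_smul, inv_smul_smul, mul_smul, htt, hk2.1]
    · rw [← hk2.1, mul_smul, inv_smul_smul, mul_smul, hk2.2]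
  · rw [mul_smul, hg2.2]
    rcases hk2 with hk2 | hk2
    · rw [← hk2.1, mul_smul, inv_smul_smul, mul_smul, hk2.2]
    · rw [← hk2.2, mul_smul, inv_smul_smul, mul_smul, htt, hk2.1]

end Cfsg.Agent.S0672
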