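import Cfsg.Statements.S0678
import Cfsg.Agent.H1.EvenPrime

set_option autoImplicit false
open Cfsg

namespace Cfsg.Agent.S0678

open MulAction H1.Coord H1.Heart H1.EvenPrime

/-- A non-solvable transitive permutation group on 7 points that does not contain the alternating group is a simple group of order 168. -/
theorem result {α : Type*} [Fintype α] [DecidableEq α] (hα : Fintype.card α = 7) (G : Subgroup (Equiv.Perm α)) [MulAction.IsPretransitive G α] (hG : ¬ Group.IsSolvable G) (hA : ¬ alternatingGroup α ≤ G) : Nat.card G = 168 ∧ IsSimpleGroup G := by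
  have : Fact (Nat.Prime 7) := ⟨by norm_num⟩
  have hα' : Nat.card α = 7 := by rw [Nat.card_eq_fintype_card, hα]
  have : Nontrivial α := Fintype.one_lt_card_iff_nontrivial.1 (by omega)
  have hAlt : Nat.card (alternatingGroup α) = 2520 := by
    rw [nat_card_alternatingGroup, hα']; rfl
  -- the even part has order 168
  have hK : Nat.card (evenPart G α) = 168 := by
    have htr : IsPretransitive (evenPart G α) α := isPretransitive_evenPart (by rw [hα']; decide)
    have hns := not_solvable_evenPart (α := α) hG
    have htwo := (solvable_or_two_transitive (G := evenPart G α) hα').resolve_left hns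
    have h42 := descFactorial_dvd_card htwo (by omega)
    rw [hα'] at h42
    have hdvd := card_evenPart_dvd (G := G) (α := α)
    have hne : Nat.card (evenPart G α) ≠ 2520 := fun h =>
      hA (alternatingGroup_le_of_card G (h.trans hAlt.symm))
    rw [hAlt] at hdvd
    obtain ⟨P⟩ : Nonempty (Sylow 7 (evenPart G α)) := inferInstance
    obtain ⟨m, n, hm, hn, hN, hc⟩ := card_eq_mul_mul hα' (Dvd.dvd.trans (by norm_num) h42) P
    have hodd := odd_card_normalizer hα' (by norm_num) (fun g => g.2) P
    have hm1 : m ≠ 1 := by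
      rintro rfl
      have := card_eq_of_card_normalizer hα' P hN
      rw [this] at h42
      norm_num at h42
    rw [hN] at hodd
    have hm3 : m = 3 := by
      have hm' : m ≤ 6 := Nat.le_of_dvd (by norm_num) hm
      interval_cases m <;> simp_all [Nat.odd_iff]
    subst hm3
    rw [hc] at h42 hdvd hne ⊢
    have h1 : n ∣ 120 := Nat.dvd_of_mul_dvd_mul_left (k := 21) (by norm_num) hdvd
    have h2 : 2 ∣ n := Nat.dvd_of_mul_dvd_mul_left (k := 21) (by norm_num) h42
    have h3 : n ∈ Nat.divisors 120 := Nat.mem_divisors.2 ⟨h1, by norm_num⟩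
    unfold Nat.ModEq at hn
    have h4 : Nat.divisors 120 = {1, 2, 3, 4, 5, 6, 8, 10, 12, 15, 20, 24, 30, 40, 60, 120} := by
      decide +kernel
    rw [h4] at h3
    simp only [Finset.mem_insert, Finset.mem_singleton] at h3
    omega
  obtain ⟨P⟩ : Nonempty (Sylow 7 G) := inferInstance
  have hmul := (evenPart G α).card_mul_index
  obtain ⟨m, n, hm, hn, hN, hc⟩ := card_eq_mul_mul hα' (by
    rw [← hmul, hK]; exact Dvd.dvd.mul_right (by norm_num) _) P
  have hm' : m ≤ 6 := Nat.le_of_dvd (by norm_num) hm
  unfold Nat.ModEq at hn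
  have hcard : Nat.card G = 168 := by
    rcases index_evenPart (G := G) (α := α) with h | h
    · rw [← hmul, hK, h]
    · exfalso
      rw [hK, h] at hmul
      have hm6 : m = 6 := by
        rw [← hmul] at hc
        interval_cases m <;> omega
      have h3 := H1.Three.three_transitive_of_even hα' hG P (by rw [hN, hm6]; decide)
      have h210 := descFactorial_dvd_card h3 (by omega)
      rw [hα', ← hmul] at h210
      revert h210
      decide
  refine ⟨hcard, ?_⟩
  have hS : Nat.card (Sylow 7 G) = 8 := by
    have h1 := card_eq_mul_card_sylow P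
    have h2 := card_sylow_modEq_one 7 G
    unfold Nat.ModEq at h2
    rw [hN, hcard] at h1
    interval_cases m <;> omega
  have : Nontrivial G := Finite.one_lt_card_iff_nontrivial.1 (by omega)
  refine ⟨fun N hNn => ?_⟩
  by_cases hbot : N = ⊥
  · exact Or.inl hbot
  right
  obtain ⟨htr, h7, hle⟩ := normal_facts hα' N hbot
  obtain ⟨Q⟩ : Nonempty (Sylow 7 N) := inferInstance
  obtain ⟨m', hm1, hN'⟩ := card_normalizer_sylow hα' h7 Q
  have h1 := card_eq_mul_card_sylow Q
  have h2 := card_sylow_modEq_one 7 N
  have h3 := Subgroup.card_subgroup_dvd_card N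
  unfold Nat.ModEq at h2
  rw [hN'] at h1
  rw [hS] at hle
  rw [hcard] at h3
  have hm2 : m' ≠ 1 := by
    rintro rfl
    have := card_eq_of_card_normalizer hα' Q hN'
    omega
  have h4 : m' * Nat.card (Sylow 7 N) ∣ 24 :=
    Nat.dvd_of_mul_dvd_mul_left (k := 7) (by norm_num) (by rw [← mul_assoc, ← h1]; exact h3)
  have h5 : Nat.card (Sylow 7 N) ∣ 24 := Dvd.dvd.trans (dvd_mul_left _ _) h4
  have h6 : Nat.card (Sylow 7 N) = 8 := by
    have := Nat.le_of_dvd (by norm_num) h5
    interval_cases Nat.card (Sylow 7 N) <;> omega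
  rw [h6] at h4 h1
  have hm3 : m' ≤ 6 := Nat.le_of_dvd (by norm_num) hm1
  apply Subgroup.eq_top_of_card_eq
  interval_cases m' <;> omega

end Cfsg.Agent.S0678
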