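import Cfsg.Statements.S5712
import Cfsg.Agent.H1.Sp2F

set_option autoImplicit false
open Cfsg

namespace Cfsg.Agent.S5712

open Cfsg.Agent.H7 Cfsg.Agent.H1.Sp2

/-- Let F be a finite field of characteristic two, n ≥ 2, V = F^{2n} with the non-degenerate alternating form f(u, v) = Σ (u_i v_{n+i} + u_{n+i} v_i), and G the group of invertible matrices preserving f. Let a ≠ 0 be a vector, H its stabilizer in G, and X a subgroup of O₂(H) of order |F|^{2n−2} no element of which is a transvection (no element g has g − 1 of rank one). If L is a subgroup of G containing X that acts irreducibly on V (no proper non-zero L-invariant subspace), then L = G, or, for some quadratic form Q on V whose polar form is f, L is the isometry group of Q or its subgroup of the isometries g for which g − 1 has even rank, or |F| = 2, n = 2 and L is isomorphic to the alternating group of degree 6 or to the symmetric group of degree 5. -/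
theorem result {F : Type*} [Field F] [Fintype F] [CharP F 2] {n : ℕ} (hn : 2 ≤ n) (a : (Fin n ⊕ Fin n → F)) (ha : a ≠ 0)
    (X : Subgroup (GL (Fin n ⊕ Fin n) F)) (hXG : X ≤ Cfsg.preserving (Units.coeHom (Matrix (Fin n ⊕ Fin n) (Fin n ⊕ Fin n) F)) (fun u v : (Fin n ⊕ Fin n → F) => ∑ i : Fin n, (u (Sum.inl i) * v (Sum.inr i) + u (Sum.inr i) * v (Sum.inl i))))
    (hXO : ∀ H : Subgroup (GL (Fin n ⊕ Fin n) F),
      (∀ g : GL (Fin n ⊕ Fin n) F, g ∈ H ↔ (g ∈ Cfsg.preserving (Units.coeHom (Matrix (Fin n ⊕ Fin n) (Fin n ⊕ Fin n) F)) (fun u v : (Fin n ⊕ Fin n → F) => ∑ i : Fin n, (u (Sum.inl i) * v (Sum.inr i) + u (Sum.inr i) * v (Sum.inl i))) ∧ Matrix.mulVec (g : Matrix (Fin n ⊕ Fin n) (Fin n ⊕ Fin n) F) a = a)) →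
      X ≤ (Cfsg.pCore 2 ↥H).map H.subtype)
    (hcard : Nat.card ↥X = Fintype.card F ^ (2 * n - 2))
    (hntv : ∀ x ∈ X, ((x : Matrix (Fin n ⊕ Fin n) (Fin n ⊕ Fin n) F) - 1).rank ≠ 1)
    (L : Subgroup (GL (Fin n ⊕ Fin n) F)) (hXL : X ≤ L) (hLG : L ≤ Cfsg.preserving (Units.coeHom (Matrix (Fin n ⊕ Fin n) (Fin n ⊕ Fin n) F)) (fun u v : (Fin n ⊕ Fin n → F) => ∑ i : Fin n, (u (Sum.inl i) * v (Sum.inr i) + u (Sum.inr i) * v (Sum.inl i))))
    (hirr : ∀ W : Submodule F (Fin n ⊕ Fin n → F), (∀ g ∈ L, ∀ w ∈ W, Matrix.mulVec (g : Matrix (Fin n ⊕ Fin n) (Fin n ⊕ Fin n) F) w ∈ W) → W = ⊥ ∨ W = ⊤) :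
    L = Cfsg.preserving (Units.coeHom (Matrix (Fin n ⊕ Fin n) (Fin n ⊕ Fin n) F)) (fun u v : (Fin n ⊕ Fin n → F) => ∑ i : Fin n, (u (Sum.inl i) * v (Sum.inr i) + u (Sum.inr i) * v (Sum.inl i))) ∨
    (∃ Q : QuadraticForm F (Fin n ⊕ Fin n → F), (∀ u v, QuadraticMap.polar ⇑Q u v = (fun u v : (Fin n ⊕ Fin n → F) => ∑ i : Fin n, (u (Sum.inl i) * v (Sum.inr i) + u (Sum.inr i) * v (Sum.inl i))) u v) ∧
      (L = Cfsg.isometryGroup F ⇑Q ∨
        ∀ g : GL (Fin n ⊕ Fin n) F, g ∈ L ↔ (g ∈ Cfsg.isometryGroup F ⇑Q ∧ Even ((g : Matrix (Fin n ⊕ Fin n) (Fin n ⊕ Fin n) F) - 1).rank))) ∨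
    (Fintype.card F = 2 ∧ n = 2 ∧ (Nonempty (↥L ≃* ↥(alternatingGroup (Fin 6))) ∨ Nonempty (↥L ≃* Equiv.Perm (Fin 5)))) := by
  classical
  let B : (Fin n ⊕ Fin n → F) →ₗ[F] (Fin n ⊕ Fin n → F) →ₗ[F] F :=
    LinearMap.mk₂ F (fun u v : (Fin n ⊕ Fin n → F) =>
      ∑ i : Fin n, (u (Sum.inl i) * v (Sum.inr i) + u (Sum.inr i) * v (Sum.inl i)))
      (fun x y v => by
        simp only [Pi.add_apply, add_mul, Finset.sum_add_distrib]; ring)
      (fun c x v => by
        simp only [Pi.smul_apply, smul_eq_mul, Finset.mul_sum]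
        exact Finset.sum_congr rfl fun i _ => by ring)
      (fun x y v => by
        simp only [Pi.add_apply, mul_add, Finset.sum_add_distrib]; ring)
      (fun c x v => by
        simp only [Pi.smul_apply, smul_eq_mul, Finset.mul_sum]
        exact Finset.sum_congr rfl fun i _ => by ring)
  have hB : ∀ u v, B u v =
      ∑ i : Fin n, (u (Sum.inl i) * v (Sum.inr i) + u (Sum.inr i) * v (Sum.inl i)) :=
    fun _ _ => rfl
  have t2 : (2 : F) = 0 := CharTwo.two_eq_zero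
  have h : Ctx B :=
    { two := t2
      alt := fun x => by
        rw [hB]
        exact Finset.sum_eq_zero fun i _ => by linear_combination (x (.inl i) * x (.inr i)) * t2
      nd := fun y hy => by
        ext (i | i)
        · simpa [hB, Pi.single_apply] using hy (Pi.single (.inr i) 1)
        · simpa [hB, Pi.single_apply] using hy (Pi.single (.inl i) 1) }
  set G := Cfsg.preserving (Units.coeHom (Matrix (Fin n ⊕ Fin n) (Fin n ⊕ Fin n) F))
    (fun u v : (Fin n ⊕ Fin n → F) =>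
      ∑ i : Fin n, (u (Sum.inl i) * v (Sum.inr i) + u (Sum.inr i) * v (Sum.inl i))) with hG
  have hGI : ∀ g, g ∈ G ↔ toLE g ∈ (sp h).Iso := fun g => by rw [mem_sp_Iso]; rfl
  have hdim : Module.finrank F (Fin n ⊕ Fin n → F) = 2 * n := finrank_sum_fun n
  let H : Subgroup (GL (Fin n ⊕ Fin n) F) :=
    G ⊓ (MulAction.stabilizer ((Fin n ⊕ Fin n → F) ≃ₗ[F] (Fin n ⊕ Fin n → F)) a).comap
      toLE.toMonoidHom
  have hXH := hXO H fun g => Iff.rfl
  let U : Subgroup H :=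
    { carrier := {g | ∀ w, B w a = 0 → toLE g.1 w - w ∈ F ∙ a}
      one_mem' := fun w _ => by simp
      mul_mem' := fun {x y} hx hy w hw => by
        have h1 := hy w hw
        have h2 := hx (toLE y.1 w) (by
          obtain ⟨t, ht⟩ := Submodule.mem_span_singleton.1 h1
          rw [eq_sub_iff_add_eq.1 ht |>.symm]
          simp [hw, h.alt])
        have := Submodule.add_mem _ h2 h1
        rwa [sub_add_sub_cancel, ← LinearEquiv.mul_apply, ← map_mul] at this
      inv_mem' := fun {x} hx w hw => by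
        have h0 : toLE x.1 a = a := x.2.2
        have h1 := hx ((toLE x.1)⁻¹ w) (by
          rw [← (mem_sp_Iso h).1 ((hGI _).1 x.2.1), h0]
          rwa [show toLE x.1 ((toLE x.1)⁻¹ w) = w from (toLE x.1).apply_symm_apply w])
        rw [show toLE x.1 ((toLE x.1)⁻¹ w) = w from (toLE x.1).apply_symm_apply w] at h1
        have := Submodule.neg_mem _ h1
        rwa [neg_sub, ← map_inv] at this }
  have hU : Cfsg.pCore 2 H ≤ U := by
    refine sSup_le fun N hN g hg w hw => ?_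
    refine sub_mem_of_normal h (N := (N.map H.subtype).map toLE.toMonoidHom) ?_ ?_ ?_
      ⟨g, ⟨g, hg, rfl⟩, rfl⟩ hw
    · rintro _ ⟨_, ⟨x, -, rfl⟩, rfl⟩
      exact (hGI _).1 x.2.1
    · rintro _ ⟨_, ⟨x, hx, rfl⟩, rfl⟩
      obtain ⟨k, hk⟩ := hN.2 ⟨x, hx⟩
      refine ⟨k, ?_⟩
      have h1 : x ^ 2 ^ k = 1 := congrArg Subtype.val hk
      rw [← map_pow, ← map_pow, h1, map_one, map_one]
    · rintro _ ⟨_, ⟨x, hx, rfl⟩, rfl⟩ w hw
      have h1 : toLE.symm (T h w) ∈ H := ⟨(hGI _).2 (by simpa using T_mem h w), by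
        change toLE (toLE.symm (T h w)) a = a
        rw [MulEquiv.apply_symm_apply, T_apply, h.symm, hw]; simp⟩
      refine ⟨_, ⟨_, hN.1.conj_mem x hx ⟨_, h1⟩, rfl⟩, ?_⟩
      simp
  have hS : S B (X.map toLE.toMonoidHom) a := by
    refine S_of_card h ha ?_ ?_ ?_ ?_ ?_
    · rintro _ ⟨g, hg, rfl⟩
      exact (hGI g).1 (hXG hg)
    · rintro _ ⟨g, hg, rfl⟩
      obtain ⟨x, -, rfl⟩ := hXH hg
      exact x.2.2
    · rintro _ ⟨g, hg, rfl⟩
      obtain ⟨x, hx, rfl⟩ := hXH hg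
      exact hU hx
    · rintro _ ⟨g, hg, rfl⟩
      rw [MulEquiv.coe_toMonoidHom, rk_toLE]
      exact hntv g hg
    · rw [Subgroup.card_map_of_injective toLE.injective, hcard, hdim, Nat.card_eq_fintype_card]
  have hmem : ∀ g, toLE g ∈ L.map toLE.toMonoidHom ↔ g ∈ L := fun g =>
    Subgroup.mem_map_iff_mem (f := toLE.toMonoidHom) toLE.injective
  have e : L ≃* L.map toLE.toMonoidHom := L.equivMapOfInjective _ toLE.injective
  rcases main h (L := L.map toLE.toMonoidHom) (by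
      rintro _ ⟨g, hg, rfl⟩
      exact (hGI g).1 (hLG hg))
    (fun W hW => hirr W fun g hg w hw => hW _ ⟨g, hg, rfl⟩ w hw) (by omega)
    (hS.mono (Subgroup.map_mono hXL)) with h1 | ⟨Q, hQ, h1⟩ | ⟨h1, h2, h3⟩
  · left
    ext g
    rw [hGI, ← h1, hmem]
  · refine Or.inr (Or.inl ⟨Q, hQ, h1.imp (fun h1 => ?_) fun h1 g => ?_⟩)
    · ext g
      rw [← hmem, h1, H8.mem_isometryGroup]; rfl
    · rw [← hmem, h1, H8.mem_isometryGroup, rk_toLE]; rfl
  · refine Or.inr (Or.inr ⟨by rwa [← Nat.card_eq_fintype_card], by omega, ?_⟩)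
    exact h3.imp (fun ⟨f⟩ => ⟨e.trans f⟩) fun ⟨f⟩ => ⟨e.trans f⟩

end Cfsg.Agent.S5712
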