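import Cfsg.Statements.S5713
import Cfsg.Agent.H3.Babai

set_option autoImplicit false
open Cfsg

namespace Cfsg.Agent.S5713

/-- A classification-free minimal-degree bound. Let G be a finite group acting faithfully and primitively on a finite set Ω with n elements, and suppose that the image of G in the symmetric group on Ω does not contain the alternating group on Ω. Then every non-identity element of G moves at least (√n − 1)/2 points of Ω, that is, it fixes at most n − (√n − 1)/2 points. -/
theorem result {G Ω : Type*} [Group G] [Finite G] [MulAction G Ω] [FaithfulSMul G Ω] [Fintype Ω] [DecidableEq Ω]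
    (hprim : MulAction.IsPreprimitive G Ω)
    (hA : ¬ alternatingGroup Ω ≤ (MulAction.toPermHom G Ω).range)
    (g : G) (hg : g ≠ 1) :
    (Real.sqrt (Fintype.card Ω) - 1) / 2 ≤ (Fintype.card Ω : ℝ) - Nat.card (MulAction.fixedBy Ω g) := by
  classical
  have h1 := Cfsg.Agent.H3.Babai.card_le hA hg
  have h2 := Finset.card_filter_add_card_filter_not (s := (Finset.univ : Finset Ω))
    (fun z => g • z = z)
  have h3 : Nat.card (MulAction.fixedBy Ω g) = (Finset.univ.filter fun z : Ω => g • z = z).card := by
    rw [Nat.card_eq_fintype_card, Fintype.card_subtype]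
    rfl
  rw [Finset.card_univ, ← h3] at h2
  have h4 : (Fintype.card Ω : ℝ) - Nat.card (MulAction.fixedBy Ω g) =
      ((Finset.univ.filter fun z : Ω => g • z ≠ z).card : ℝ) := by
    rw [← h2]; push_cast; ring
  rw [h4, div_le_iff₀ (by norm_num), sub_le_iff_le_add]
  refine Real.sqrt_le_iff.2 ⟨by positivity, ?_⟩
  rw [mul_comm]
  exact_mod_cast h1

end Cfsg.Agent.S5713
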