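import Cfsg.Statements.S5729
import Mathlib

set_option autoImplicit false
open Cfsg

namespace Cfsg.Agent.S5729

/-- Let a finite group G act faithfully and transitively on a set with n ≥ 3 points. Then either G is a Frobenius permutation group (Frobenius as a permutation group: transitive, some non-identity element fixes a point, and no non-identity element fixes two points) of order n(n − 1) and exactly |G|/n of its elements are derangements (fix no point), or the number of derangements is greater than |G|/n. -/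
theorem result {G Ω : Type*} [Group G] [Finite G] [MulAction G Ω] [FaithfulSMul G Ω] [Fintype Ω] (htr : MulAction.IsPretransitive G Ω) (hn : 3 ≤ Fintype.card Ω) :
    ((MulAction.IsPretransitive G Ω ∧ (∃ g : G, g ≠ 1 ∧ ∃ ω : Ω, g • ω = ω) ∧ ∀ g : G, g ≠ 1 → Nat.card (MulAction.fixedBy Ω g) ≤ 1) ∧ Nat.card G = Fintype.card Ω * (Fintype.card Ω - 1) ∧ Fintype.card Ω * Nat.card {g : G // ∀ ω : Ω, g • ω ≠ ω} = Nat.card G) ∨
    Nat.card G < Fintype.card Ω * Nat.card {g : G // ∀ ω : Ω, g • ω ≠ ω} := by
  classical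
  haveI := Fintype.ofFinite G
  set n := Fintype.card Ω with hn'
  haveI : Nontrivial Ω := Fintype.one_lt_card_iff_nontrivial.mp (by omega)
  let f : G → ℕ := fun g => Fintype.card (MulAction.fixedBy Ω g)
  have hf : ∀ g, f g = Nat.card (MulAction.fixedBy Ω g) := fun g => Nat.card_eq_fintype_card.symm
  have hfle : ∀ g, f g ≤ n := fun g => Fintype.card_subtype_le _
  have hf1 : f 1 = n := by simp [f, hn']
  have hfn : ∀ g, f g = n → g = 1 := by
    intro g hg
    have h1 : MulAction.fixedBy Ω g = Set.univ := by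
      apply Set.eq_of_subset_of_ncard_le (Set.subset_univ _) _ (Set.toFinite _)
      rw [Set.ncard_univ, Nat.card_eq_fintype_card, ← hn', ← hg, hf]
      rfl
    apply FaithfulSMul.eq_of_smul_eq_smul (α := Ω)
    intro w
    have : w ∈ MulAction.fixedBy Ω g := by rw [h1]; trivial
    rw [one_smul]; exact this
  have hf0 : ∀ g, f g = 0 ↔ ∀ ω : Ω, g • ω ≠ ω := by
    intro g
    simp only [f]
    rw [Fintype.card_eq_zero_iff]
    exact ⟨fun h ω hω => h.false ⟨ω, hω⟩, fun h => ⟨fun x => h x.1 x.2⟩⟩
  -- first moment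
  have hB1 : ∑ g, f g = Fintype.card G := by
    have hB := MulAction.sum_card_fixedBy_eq_card_orbits_mul_card_group G Ω
    have h1 : Fintype.card (Quotient (MulAction.orbitRel G Ω)) = 1 := by
      rw [Fintype.card_eq_one_iff_nonempty_unique]
      haveI : Subsingleton (Quotient (MulAction.orbitRel G Ω)) :=
        (MulAction.pretransitive_iff_subsingleton_quotient G Ω).mp inferInstance
      exact ⟨uniqueOfSubsingleton (Quotient.mk _ (Classical.arbitrary Ω))⟩
    rw [h1, one_mul] at hB
    exact hB
  -- second moment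
  have hB2 : 2 * Fintype.card G ≤ ∑ g, f g * f g := by
    have hB := MulAction.sum_card_fixedBy_eq_card_orbits_mul_card_group G (Ω × Ω)
    have h1 : 2 ≤ Fintype.card (Quotient (MulAction.orbitRel G (Ω × Ω))) := by
      obtain ⟨a, b, hab⟩ := exists_pair_ne Ω
      apply Fintype.one_lt_card_iff_nontrivial.mpr
      refine ⟨⟨Quotient.mk _ (a, b), Quotient.mk _ (a, a), fun h => ?_⟩⟩
      obtain ⟨g, hg⟩ := Quotient.exact h
      have h1 : g • a = a := congrArg Prod.fst hg
      have h2 : g • a = b := congrArg Prod.snd hg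
      exact hab (h1.symm.trans h2)
    have h2 : ∀ g : G, Fintype.card (MulAction.fixedBy (Ω × Ω) g) = f g * f g := by
      intro g
      simp only [f]
      rw [← Fintype.card_prod]
      refine Fintype.card_congr
        ⟨fun x => (⟨x.1.1, congrArg Prod.fst x.2⟩, ⟨x.1.2, congrArg Prod.snd x.2⟩),
         fun y => ⟨(y.1.1, y.2.1), Prod.ext y.1.2 y.2.2⟩, fun x => rfl, fun y => rfl⟩
    rw [Finset.sum_congr rfl (fun g _ => h2 g)] at hB
    rw [hB]
    exact Nat.mul_le_mul_right _ h1
  set D := Nat.card {g : G // ∀ ω : Ω, g • ω ≠ ω} with hD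
  have hDsum : (D : ℤ) = ∑ g : G, if f g = 0 then 1 else 0 := by
    rw [hD, Nat.card_eq_fintype_card, Fintype.card_subtype, Finset.sum_boole]
    congr 2
    ext g
    simp [hf0]
  -- the non-negative defects
  let e : G → ℤ := fun g => (n : ℤ) * (if f g = 0 then 1 else 0) - ((f g : ℤ) - 1) * ((f g : ℤ) - n)
  have he : ∀ g, 0 ≤ e g := by
    intro g
    simp only [e]
    split_ifs with h
    · rw [h]; simp
    · have h1 : (1 : ℤ) ≤ f g := by exact_mod_cast Nat.one_le_iff_ne_zero.mpr h
      have h2 : (f g : ℤ) ≤ n := by exact_mod_cast hfle g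
      nlinarith
  have hB1' : ∑ g, (f g : ℤ) = Fintype.card G := by exact_mod_cast hB1
  have hB2' : 2 * (Fintype.card G : ℤ) ≤ ∑ g, (f g : ℤ) * f g := by exact_mod_cast hB2
  have hesum : ∑ g, e g = n * D - (∑ g, (f g : ℤ) * f g - Fintype.card G) := by
    have : ∀ g, e g = (n : ℤ) * (if f g = 0 then 1 else 0) - ((f g : ℤ) * f g - (n + 1) * f g + n) := by
      intro g; simp only [e]; ring
    rw [Finset.sum_congr rfl (fun g _ => this g), Finset.sum_sub_distrib, ← Finset.mul_sum, ← hDsum,
      Finset.sum_add_distrib, Finset.sum_sub_distrib, ← Finset.mul_sum, hB1']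
    simp only [Finset.sum_const, Finset.card_univ, nsmul_eq_mul]
    ring
  have hpos : 0 ≤ ∑ g, e g := Finset.sum_nonneg (fun g _ => he g)
  rw [Nat.card_eq_fintype_card]
  by_cases hlt : Fintype.card G < n * D
  · right; exact hlt
  left
  have hle : (n : ℤ) * D ≤ Fintype.card G := by exact_mod_cast not_lt.mp hlt
  have heq : (n : ℤ) * D = Fintype.card G := by linarith
  have hsq : ∑ g, (f g : ℤ) * f g = 2 * Fintype.card G := by linarith
  have hzero : ∑ g, e g = 0 := by linarith
  rw [Finset.sum_eq_zero_iff_of_nonneg (fun g _ => he g)] at hzero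
  have hsmall : ∀ g : G, g ≠ 1 → f g ≤ 1 := by
    intro g hg
    by_contra hcon
    have h0 := hzero g (Finset.mem_univ g)
    simp only [e] at h0
    rw [if_neg (by omega)] at h0
    have h1 : (1 : ℤ) < f g := by exact_mod_cast not_le.mp hcon
    have h2 : (f g : ℤ) < n := by exact_mod_cast lt_of_le_of_ne (hfle g) (fun h => hg (hfn g h))
    nlinarith
  have hcard : (Fintype.card G : ℤ) = n * (n - 1) := by
    have h1 : ∑ g, ((f g : ℤ) * f g - f g) = (n : ℤ) * n - n := by
      rw [Finset.sum_eq_single 1, hf1]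
      · intro g _ hg
        have := hsmall g hg
        have : f g = 0 ∨ f g = 1 := by omega
        rcases this with h | h <;> simp [h]
      · simp
    rw [Finset.sum_sub_distrib, hsq, hB1'] at h1
    linarith
  have hcard' : Fintype.card G = n * (n - 1) := by
    have : ((n - 1 : ℕ) : ℤ) = n - 1 := by omega
    have h2 : (Fintype.card G : ℤ) = ((n * (n - 1) : ℕ) : ℤ) := by
      rw [Nat.cast_mul, this, hcard]
    exact_mod_cast h2
  refine ⟨⟨htr, ?_, fun g hg => hf g ▸ hsmall g hg⟩, hcard', by exact_mod_cast heq⟩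
  by_contra hcon
  push Not at hcon
  have h1 : ∑ g, f g = n := by
    rw [Finset.sum_eq_single 1, hf1]
    · intro g _ hg
      exact (hf0 g).mpr (hcon g hg)
    · simp
  rw [hB1, hcard'] at h1
  have : n * 2 ≤ n * (n - 1) := Nat.mul_le_mul_left _ (by omega)
  omega

end Cfsg.Agent.S5729
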