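import Cfsg.Statements.S5730
import Cfsg.Agent.H3.Derange

set_option autoImplicit false
open Cfsg

namespace Cfsg.Agent.S5730

/-- Let a finite group G act faithfully and transitively on a set with n ≥ 7 points. Then either G is a Frobenius permutation group (Frobenius as a permutation group: transitive, some non-identity element fixes a point, and no non-identity element fixes two points) of order n(n − 1)/a with a ∈ {1, 2}, in which case exactly a|G|/n of its elements are derangements, or the number of derangements is at least 2|G|/n. (Equality does occur: PSL₃(2) acting on the 7 points of the Fano plane has exactly 2|G|/7 derangements.) -/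
theorem result {G Ω : Type*} [Group G] [Finite G] [MulAction G Ω] [FaithfulSMul G Ω] [Fintype Ω] (htr : MulAction.IsPretransitive G Ω) (hn : 7 ≤ Fintype.card Ω) :
    (∃ a : ℕ, (a = 1 ∨ a = 2) ∧ (MulAction.IsPretransitive G Ω ∧ (∃ g : G, g ≠ 1 ∧ ∃ ω : Ω, g • ω = ω) ∧ ∀ g : G, g ≠ 1 → Nat.card (MulAction.fixedBy Ω g) ≤ 1) ∧ a * Nat.card G = Fintype.card Ω * (Fintype.card Ω - 1) ∧ Fintype.card Ω * Nat.card {g : G // ∀ ω : Ω, g • ω ≠ ω} = a * Nat.card G) ∨
    2 * Nat.card G ≤ Fintype.card Ω * Nat.card {g : G // ∀ ω : Ω, g • ω ≠ ω} := by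
  open Cfsg.Agent.H3.Moments in
  classical
  have := Fintype.ofFinite G
  rw [card_der]
  obtain ⟨a, b, hab⟩ : ∃ a b : Ω, a ≠ b := Fintype.one_lt_card_iff.mp (by omega)
  by_cases h2 : ∀ a b c d : Ω, a ≠ b → c ≠ d → ∃ g : G, g • a = c ∧ g • b = d
  swap
  · right
    push Not at h2
    obtain ⟨a, b, c, d, hab, hcd, h⟩ := h2
    exact two_mul_le_of_not_two hab hcd fun ⟨g, h1, h3⟩ => h g h1 h3
  by_cases ht : ∃ t : G, t ≠ 1 ∧ t • a = a ∧ t • b = b
  · obtain ⟨t, ht, hta, htb⟩ := ht
    exact Or.inr (Cfsg.Agent.H3.Derange.main h2 hn hab ht hta htb)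
  left
  have hs : MulAction.stabilizer G (a, b) = ⊥ := eq_bot_iff.mpr fun g hg => by
    by_contra h
    exact ht ⟨g, h, mem_st.mp hg⟩
  have hfx : ∀ g : G, g ≠ 1 → fx Ω g ≤ 1 := fun g hg => by
    refine Finset.card_le_one.mpr fun x hx y hy => ?_
    by_contra hxy
    have h1 := card_st_eq h2 hab hxy
    rw [hs, Subgroup.card_bot, Subgroup.card_eq_one] at h1
    exact hg (Subgroup.mem_bot.mp (h1 ▸ mem_st.mpr
      ⟨(Finset.mem_filter.mp hx).2, (Finset.mem_filter.mp hy).2⟩))
  refine ⟨1, Or.inl rfl, ⟨htr, ?_, fun g hg => by rw [card_fixedBy]; exact hfx g hg⟩, ?_, ?_⟩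
  · obtain ⟨c, hc⟩ : ∃ c, c ∈ ({a, b} : Finset Ω)ᶜ := by
      refine Finset.card_pos.mp ?_
      rw [Finset.card_compl, Finset.card_pair hab]
      omega
    simp only [Finset.mem_compl, Finset.mem_insert, Finset.mem_singleton, not_or] at hc
    obtain ⟨g, h1, h3⟩ := h2 a b a c hab (Ne.symm hc.1)
    exact ⟨g, fun e => hc.2 (by rw [← h3, e, one_smul]), a, h1⟩
  · have h1 := card_eq h2 hab
    rw [hs, Subgroup.card_bot] at h1
    zify [show 1 ≤ Fintype.card Ω by omega]
    rw [h1]; push_cast; ring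
  · rw [sharp h2 hab hfx, one_mul]

end Cfsg.Agent.S5730
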