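import Cfsg.Statements.S5736
import Cfsg.Agent.H9.Psl2Bin

set_option autoImplicit false
open Cfsg

namespace Cfsg.Agent.S5736

/-- Let F be a finite field with q ≥ 4 elements, q ≠ 5, let G = PSL₂(F) and let H be a proper subgroup of G. Then the action of G on the cosets of H is binary if and only if H is trivial, or q is a power of 2 and H is a Sylow 2-subgroup, or q = 2^a with a odd and H has order 3. Here an action is binary (relational complexity 2) when, for every n ≥ 2 and all n-tuples I, J of points, if for every pair of positions some group element carries the corresponding pair of entries of I to those of J, then a single group element carries I to J. -/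
theorem result {F : Type*} [Field F] [Fintype F] (h4 : 4 ≤ Fintype.card F) (h5 : Fintype.card F ≠ 5)
    (H : Subgroup (Matrix.ProjectiveSpecialLinearGroup (Fin 2) F)) (hH : H ≠ ⊤) :
    (∀ (n : ℕ) (I J : Fin n → Matrix.ProjectiveSpecialLinearGroup (Fin 2) F ⧸ H), 2 ≤ n →
        (∀ i j : Fin n, i ≠ j → ∃ g : Matrix.ProjectiveSpecialLinearGroup (Fin 2) F, g • I i = J i ∧ g • I j = J j) → ∃ g : Matrix.ProjectiveSpecialLinearGroup (Fin 2) F, ∀ i, g • I i = J i) ↔
      (H = ⊥ ∨ ((∃ a : ℕ, Fintype.card F = 2 ^ a) ∧ ∃ P : Sylow 2 (Matrix.ProjectiveSpecialLinearGroup (Fin 2) F), H = P) ∨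
        ((∃ a : ℕ, Odd a ∧ Fintype.card F = 2 ^ a) ∧ Nat.card H = 3)) := by
  haveI : Finite (Matrix.SpecialLinearGroup (Fin 2) F) := Subtype.finite
  haveI : Finite (Matrix.ProjectiveSpecialLinearGroup (Fin 2) F) := Finite.of_surjective _ H9.P2.pr_surj
  have h1 : (2 : F) = 0 → ∃ a, Fintype.card F = 2 ^ a := fun h2 => by
    haveI : CharP F 2 := CharTwo.of_one_ne_zero_of_two_eq_zero one_ne_zero h2
    obtain ⟨n, -, hn⟩ := FiniteField.card F 2
    exact ⟨n, hn⟩
  have h2 : ∀ a, Fintype.card F = 2 ^ a → (2 : F) = 0 := fun a ha => by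
    have := FiniteField.cast_card_eq_zero F
    rw [ha, Nat.cast_pow] at this
    exact_mod_cast pow_eq_zero_iff'.1 this |>.1
  have h3 : ∀ x : Matrix.ProjectiveSpecialLinearGroup (Fin 2) F ⧸ H, ∃ g, MulAction.stabilizer _ x =
      H.map (MulAut.conj g).toMonoidHom := fun x => by
    obtain ⟨g, rfl⟩ := MulAction.exists_smul_eq (Matrix.ProjectiveSpecialLinearGroup (Fin 2) F)
      ((1 : Matrix.ProjectiveSpecialLinearGroup (Fin 2) F) : _ ⧸ H) x
    exact ⟨g, by rw [MulAction.stabilizer_smul_eq_stabilizer_map_conj, MulAction.stabilizer_quotient]⟩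
  constructor
  · intro hb
    have := H9.P2.stabilizer_of_bin (x := ((1 : Matrix.ProjectiveSpecialLinearGroup (Fin 2) F) : _ ⧸ H)) hb
      (by rwa [Nat.card_eq_fintype_card]) (by rwa [Nat.card_eq_fintype_card]) (by rwa [MulAction.stabilizer_quotient])
    rw [MulAction.stabilizer_quotient] at this
    refine this.imp_right (Or.imp (And.imp_left h1) fun ⟨k1, k2, k3⟩ => ⟨?_, k3⟩)
    obtain ⟨a, ha⟩ := h1 k1
    refine ⟨a, Nat.not_even_iff_odd.1 fun ⟨b, hb⟩ => ?_, ha⟩
    haveI : Fact (Nat.Prime 3) := ⟨Nat.prime_three⟩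
    obtain ⟨w, hw⟩ := exists_prime_orderOf_dvd_card' (G := Fˣ) 3 (by
      rw [Nat.card_units, Nat.card_eq_fintype_card, ha, hb, ← two_mul, pow_mul]
      simpa using Nat.sub_dvd_pow_sub_pow 4 1 b)
    have k4 : (w : F) ^ 3 = 1 := by rw [← Units.val_pow_eq_pow_val, ← hw, pow_orderOf_eq_one, Units.val_one]
    have k5 : (w : F) - 1 ≠ 0 := fun h => by simp [Units.val_eq_one.1 (sub_eq_zero.1 h)] at hw
    exact k2 w (mul_left_cancel₀ k5 (by linear_combination k4))
  · rintro (rfl | ⟨⟨a, ha⟩, P, rfl⟩ | ⟨⟨a, ⟨b, rfl⟩, ha⟩, h⟩)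
    · exact H9.bin_bot
    · exact H9.P2.bin_of_sylow (h2 a ha) fun x => (h3 x).imp' (fun g => MulAut.conj g • P) fun _ => id
    · refine H9.P2.bin_of_three (h2 _ ha) (fun w hw => ?_) fun x => ?_
      · have k1 := FiniteField.pow_card w
        have k2 : w ^ 3 = 1 := by linear_combination (w - 1) * hw
        obtain ⟨c, hc⟩ : ∃ c, 2 ^ (2 * b + 1) = 3 * c + 2 := ⟨2 ^ (2 * b + 1) / 3, by
          have : 2 ^ (2 * b + 1) % 3 = 2 := by rw [pow_succ, pow_mul, Nat.mul_mod, Nat.pow_mod]; simp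
          omega⟩
        rw [ha, hc, pow_add, pow_mul, k2, one_pow, one_mul] at k1
        exact one_ne_zero (α := F) (by linear_combination hw - k1 - w * h2 _ ha)
      · obtain ⟨g, hg⟩ := h3 x
        rw [hg, Subgroup.card_map_of_injective (MulAut.conj g).injective, h]

end Cfsg.Agent.S5736
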