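import Cfsg.Statements.S5735
import Cfsg.Agent.BH.Top
import Cfsg.Agent.SF.Main
import Cfsg.Agent.BU.Main
import Cfsg.Agent.S5736
import Cfsg.Agent.S5737

set_option autoImplicit false
open Cfsg

namespace Cfsg.Agent.S5735

/-- Let G be a finite simple group with exactly one conjugacy class of involutions, and let H be a proper subgroup of even order. Then the action of G on the cosets of H is binary if and only if one of the following holds: G ≅ SL₂(2^a) with a ≥ 2 and H is a Sylow 2-subgroup; G is a Suzuki group Sz(2^(2a+1)) with a ≥ 1 and H is the centre of a Sylow 2-subgroup; G ≅ PSU₃(2^a) with a ≥ 2 and H is the centre of a Sylow 2-subgroup. Here an action is binary (relational complexity 2) when, for every n ≥ 2 and all n-tuples I, J of points, if for every pair of positions some group element carries the corresponding pair of entries of I to those of J, then a single group element carries I to J. -/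
theorem result {G : Type*} [Group G] [Finite G] [IsSimpleGroup G] (hinv : ∃ s : G, orderOf s = 2)
    (hone : ∀ s t : G, orderOf s = 2 → orderOf t = 2 → IsConj s t)
    (H : Subgroup G) (hH : H ≠ ⊤) (heven : Even (Nat.card H)) :
    (∀ (n : ℕ) (I J : Fin n → G ⧸ H), 2 ≤ n →
        (∀ i j : Fin n, i ≠ j → ∃ g : G, g • I i = J i ∧ g • I j = J j) → ∃ g : G, ∀ i, g • I i = J i) ↔
      (((∃ (F : Type) (_ : Field F) (_ : Fintype F) (a : ℕ), 2 ≤ a ∧ Fintype.card F = 2 ^ a ∧ Nonempty (G ≃* Matrix.SpecialLinearGroup (Fin 2) F)) ∧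
          ∃ P : Sylow 2 G, H = P) ∨
        (Cfsg.Lie.IsoSuzuki G ∧ ∃ P : Sylow 2 G, H = (Subgroup.center (P : Subgroup G)).map (P : Subgroup G).subtype) ∨
        ((∃ (F : Type) (_ : Field F) (_ : Fintype F) (a : ℕ), 2 ≤ a ∧ Fintype.card F = (2 ^ a) ^ 2 ∧ Nonempty (G ≃* Cfsg.PSU 3 F (2 ^ a))) ∧
          ∃ P : Sylow 2 G, H = (Subgroup.center (P : Subgroup G)).map (P : Subgroup G).subtype)) := by
  have ce : SE.F.CE := fun G Ω _ _ _ _ _ _ => SE.F.concl_of_elab
  have hone' : ∀ s t : G, s ≠ 1 → s * s = 1 → t ≠ 1 → t * t = 1 → ∃ c, c * s * c⁻¹ = t :=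
    fun s t h1 h2 h3 h4 => isConj_iff.1
      (hone s t (H5.Invol.orderOf_eq_two h1 h2) (H5.Invol.orderOf_eq_two h3 h4))
  have h0 : ∀ {G' : Type} [Group G'] (e : G ≃* G'), H.map e.toMonoidHom ≠ ⊥ := fun e h => by
    rw [← SE.F.card_map e, h] at heven
    simp at heven
  have e2 : ∀ {F : Type} [Field F] [Fintype F] {a : ℕ}, Fintype.card F = 2 ^ a →
      Nonempty (Matrix.SpecialLinearGroup (Fin 2) F ≃* Matrix.ProjectiveSpecialLinearGroup (Fin 2) F) :=
    fun {F} _ _ a ha => ⟨MulEquiv.ofBijective H9.P2.pr ⟨H9.P2.pr_inj (by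
      have := FiniteField.cast_card_eq_zero F
      rw [ha, Nat.cast_pow] at this
      exact_mod_cast pow_eq_zero_iff'.1 this |>.1), H9.P2.pr_surj⟩⟩
  have hL : ∀ {F : Type} [Field F] [Fintype F] {a : ℕ}, 2 ≤ a → Fintype.card F = 2 ^ a →
      (G ≃* Matrix.ProjectiveSpecialLinearGroup (Fin 2) F) →
      (H9.Bin G (G ⧸ H) ↔ ∃ P : Sylow 2 G, H = P) := fun {F} _ _ a h2 ha e => by
    rw [← SE.F.bin_map_iff e, ← SE.F.syl_iff e]
    refine (S5736.result (ha ▸ Nat.pow_le_pow_right (by norm_num) h2 :) (fun h => ?_) _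
      (SE.F.map_ne_top e H hH)).trans ⟨?_, fun h => .inr (.inl ⟨⟨a, ha⟩, h⟩)⟩
    · obtain ⟨b, rfl⟩ := Nat.exists_eq_add_of_le h2
      rw [ha, pow_add] at h
      omega
    · rintro (h | h | h)
      · exact (h0 e h).elim
      · exact h.2
      · rw [← SE.F.card_map e, h.2] at heven
        exact absurd heven (by decide)
  have hS : Cfsg.Lie.IsoSuzuki G → (H9.Bin G (G ⧸ H) ↔
      ∃ P : Sylow 2 G, H = (Subgroup.center (P : Subgroup G)).map (P : Subgroup G).subtype) := by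
    rintro ⟨F, _, _, m, h1, h2, ⟨e⟩⟩
    rw [← SE.F.bin_map_iff e, ← SE.F.cen_iff e]
    exact (S5737.result m h1 h2 _ (SE.F.map_ne_top e H hH)).trans (or_iff_right (h0 e))
  have hU : ∀ {F : Type} [Field F] [Fintype F] {a : ℕ}, 2 ≤ a → Fintype.card F = (2 ^ a) ^ 2 →
      (G ≃* Cfsg.PSU 3 F (2 ^ a)) → (H9.Bin G (G ⧸ H) ↔
      ∃ P : Sylow 2 G, H = (Subgroup.center (P : Subgroup G)).map (P : Subgroup G).subtype) :=
    fun {F} _ _ a h2 ha e => by
    rw [← SE.F.bin_map_iff e, ← SE.F.cen_iff e]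
    haveI := e.symm.isSimpleGroup
    have hone2 : ∀ s t : PSU 3 F (2 ^ a), s ≠ 1 → s * s = 1 → t ≠ 1 → t * t = 1 → ∃ c, c * s * c⁻¹ = t := fun s t h1 h3 h4 h5 => by
      obtain ⟨s, rfl⟩ := e.surjective s
      obtain ⟨t, rfl⟩ := e.surjective t
      obtain ⟨c, rfl⟩ := hone' s t (by simpa using h1) (by simpa [← map_mul] using h3)
        (by simpa using h4) (by simpa [← map_mul] using h5)
      exact ⟨e c, by simp⟩
    exact BU.psu_bin h2 ha hone2 _ (SE.F.map_ne_top e H hH) (by rwa [SE.F.card_map])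
  constructor
  · intro hb
    rcases SE.F.type_of_bin ce hone' hH heven hb with ⟨F, _, _, ⟨a, h1, h2⟩, ⟨e⟩⟩ | h | ⟨F, _, _, a, h1, h2, ⟨e⟩⟩
    · exact .inl ⟨⟨F, _, _, a, h1, h2, ⟨e.trans (e2 h2).some.symm⟩⟩, (hL h1 h2 e).1 hb⟩
    · exact .inr (.inl ⟨h, (hS h).1 hb⟩)
    · exact .inr (.inr ⟨⟨F, _, _, a, h1, h2, ⟨e⟩⟩, (hU h1 h2 e).1 hb⟩)
  · rintro (⟨⟨F, _, _, a, h1, h2, ⟨e⟩⟩, h⟩ | ⟨h1, h⟩ | ⟨⟨F, _, _, a, h1, h2, ⟨e⟩⟩, h⟩)
    · exact (hL h1 h2 (e.trans (e2 h2).some)).2 h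
    · exact (hS h1).2 h
    · exact (hU h1 h2 e).2 h

end Cfsg.Agent.S5735
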