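import Cfsg.Statements.S5747

set_option autoImplicit false
open Cfsg

namespace Cfsg.Agent.S5747

section
variable {G Ω : Type*} [Group G] [MulAction G Ω]

variable (G) in
def St (f : ℕ → Ω) (k : ℕ) : Subgroup G where
  carrier := {g | ∀ j < k, g • f j = f j}
  one_mem' := fun _ _ => one_smul _ _
  mul_mem' := fun {a b} ha hb j hj => by rw [mul_smul, hb j hj, ha j hj]
  inv_mem' := fun {a} ha j hj => by rw [inv_smul_eq_iff, ha j hj]

variable (G) in
def Irr (f : ℕ → Ω) (k : ℕ) : Prop := ∀ i < k, ∃ g ∈ St G f i, g • f i ≠ f i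

variable (G) in
def IB (f : ℕ → Ω) (k : ℕ) : Prop := St G f k = ⊥ ∧ Irr G f k

theorem St_congr {f f' : ℕ → Ω} {k : ℕ} (h : ∀ j < k, f j = f' j) : St G f k = St G f' k := by
  ext g
  exact forall₂_congr fun j hj => by rw [h j hj]

theorem Irr_congr {f f' : ℕ → Ω} {k : ℕ} (h : ∀ j < k, f j = f' j) (hf : Irr G f k) :
    Irr G f' k := by
  intro i hi
  rw [← h i hi, ← St_congr fun j hj => h j (hj.trans hi)]
  exact hf i hi

theorem St_succ (f : ℕ → Ω) (k : ℕ) :
    St G f (k + 1) = St G f k ⊓ MulAction.stabilizer G (f k) := by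
  ext g
  exact ⟨fun h => ⟨fun j hj => h j (by omega), h k (by omega)⟩, fun h j hj => by
    rcases Nat.lt_succ_iff_lt_or_eq.1 hj with h1 | rfl
    · exact h.1 j h1
    · exact h.2⟩

theorem Irr_succ {f : ℕ → Ω} {k : ℕ} :
    Irr G f (k + 1) ↔ Irr G f k ∧ ∃ g ∈ St G f k, g • f k ≠ f k :=
  ⟨fun h => ⟨fun i hi => h i (by omega), h k (by omega)⟩, fun h i hi => by
    rcases Nat.lt_succ_iff_lt_or_eq.1 hi with h1 | rfl
    · exact h.1 i h1
    · exact h.2⟩

theorem card_lt [Finite G] {f : ℕ → Ω} {k : ℕ} (h : ∃ g ∈ St G f k, g • f k ≠ f k) :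
    Nat.card (St G f (k + 1)) < Nat.card (St G f k) := by
  obtain ⟨g, hg, hg'⟩ := h
  by_contra hc
  have e := Subgroup.eq_of_le_of_card_ge (H := St G f (k + 1)) (K := St G f k)
    (by rw [St_succ]; exact inf_le_left) (not_lt.1 hc)
  apply hg'
  rw [← e] at hg
  exact hg k (by omega)

theorem extend [Finite G] (hfa : ∀ g : G, (∀ x : Ω, g • x = x) → g = 1) (n : ℕ) :
    ∀ (f : ℕ → Ω) (k : ℕ), Nat.card (St G f k) = n → Irr G f k →
      ∃ f' t, k ≤ t ∧ (∀ j < k, f' j = f j) ∧ IB G f' t := by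
  induction n using Nat.strong_induction_on with
  | _ n ih =>
    intro f k hn hf
    by_cases hb : St G f k = ⊥
    · exact ⟨f, k, le_rfl, fun _ _ => rfl, hb, hf⟩
    obtain ⟨⟨g, hg⟩, hg1⟩ := (Subgroup.ne_bot_iff_exists_ne_one).1 hb
    obtain ⟨x, hx⟩ : ∃ x : Ω, g • x ≠ x := by
      by_contra hc
      push Not at hc
      exact hg1 (Subtype.ext (hfa g hc))
    let f1 := Function.update f k x
    have e1 : ∀ j < k, f j = f1 j := fun j hj => (Function.update_of_ne hj.ne _ _).symm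
    have e2 : f1 k = x := Function.update_self _ _ _
    have h1 : ∃ g ∈ St G f1 k, g • f1 k ≠ f1 k := ⟨g, by rw [← St_congr e1]; exact hg, e2 ▸ hx⟩
    obtain ⟨f', t, h2, h3, h4⟩ := ih _ (by rw [← hn, St_congr e1]; exact card_lt h1) f1 (k + 1) rfl
      (Irr_succ.2 ⟨Irr_congr e1 hf, h1⟩)
    exact ⟨f', t, by omega, fun j hj => (h3 j (by omega)).trans (e1 j hj).symm, h4⟩

theorem same_len [Finite G] (hfa : ∀ g : G, (∀ x : Ω, g • x = x) → g = 1)
    (hsw : ∀ (f : ℕ → Ω) (t k : ℕ), k + 1 < t → IB G f t → IB G (f ∘ Equiv.swap k (k + 1)) t)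
    (n : ℕ) : ∀ (f f' : ℕ → Ω) (k s t : ℕ), Nat.card (St G f k) = n → (∀ j < k, f j = f' j) →
      k ≤ s → k ≤ t → IB G f s → IB G f' t → s = t := by
  induction n using Nat.strong_induction_on with
  | _ n ih =>
    have key : ∀ (f f' : ℕ → Ω) (k s t : ℕ), Nat.card (St G f k) = n → (∀ j < k, f j = f' j) →
      k < s → k < t → IB G f s → IB G f' t → (∃ g ∈ St G f (k + 1), g • f' k ≠ f' k) → s = t := by
      intro f f' k s t hn e hs ht hf hf' hg
      let f1 := Function.update f (k + 1) (f' k)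
      have e1 : ∀ j < k + 1, f j = f1 j := fun j hj => (Function.update_of_ne hj.ne _ _).symm
      have e2 : f1 (k + 1) = f' k := Function.update_self _ _ _
      have h1 : Irr G f1 (k + 2) := Irr_succ.2 ⟨Irr_congr e1 fun i hi => hf.2 i (by omega), by
        rw [← St_congr e1, e2]; exact hg⟩
      obtain ⟨f2, u, h2, h3, h4⟩ := extend hfa _ f1 (k + 2) rfl h1
      have a1 : s = u := ih _ (hn ▸ card_lt (hf.2 k hs)) f f2 (k + 1) s u rfl
        (fun j hj => (e1 j hj).trans (h3 j (by omega)).symm) hs (by omega) hf h4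
      have a2 : t = u := ih _ (by rw [← hn, St_congr e]; exact card_lt (hf'.2 k ht))
        f' (f2 ∘ Equiv.swap k (k + 1)) (k + 1) t u rfl (fun j hj => by
          rcases Nat.lt_succ_iff_lt_or_eq.1 hj with h1 | rfl
          · rw [Function.comp_apply, Equiv.swap_apply_of_ne_of_ne (by omega) (by omega),
              h3 j (by omega), ← e1 j hj, e j h1]
          · rw [Function.comp_apply, Equiv.swap_apply_left, h3 _ (by omega), e2])
        ht (by omega) hf' (hsw f2 u k (by omega) h4)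
      omega
    intro f f' k s t hn e hs ht hf hf'
    have triv : ∀ (f f' : ℕ → Ω) (s t : ℕ), (∀ j < s, f j = f' j) → s ≤ t → IB G f s →
        IB G f' t → s = t := by
      intro f f' s t e hst hf hf'
      by_contra hne
      obtain ⟨g, hg, hg'⟩ := hf'.2 s (by omega)
      rw [← St_congr e, hf.1, Subgroup.mem_bot] at hg
      exact hg' (by rw [hg, one_smul])
    rcases hs.eq_or_lt with rfl | hs
    · exact triv f f' _ _ e ht hf hf'
    rcases ht.eq_or_lt with rfl | ht
    · exact (triv f' f _ _ (fun j hj => (e j hj).symm) hs.le hf' hf).symm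
    by_cases c1 : ∃ g ∈ St G f (k + 1), g • f' k ≠ f' k
    · exact key f f' k s t hn e hs ht hf hf' c1
    by_cases c2 : ∃ g ∈ St G f' (k + 1), g • f k ≠ f k
    · exact (key f' f k t s (by rw [← St_congr e]; exact hn) (fun j hj => (e j hj).symm) ht hs hf' hf c2).symm
    push Not at c1 c2
    have e3 : St G f (k + 1) = St G f' (k + 1) := by
      apply le_antisymm
      · intro g hg
        have := c1 g hg
        rw [St_succ] at hg ⊢
        exact ⟨by rw [← St_congr e]; exact hg.1, this⟩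
      · intro g hg
        have := c2 g hg
        rw [St_succ] at hg ⊢
        exact ⟨by rw [St_congr e]; exact hg.1, this⟩
    let f1 := Function.update f' k (f k)
    have e1 : ∀ j < k + 1, f j = f1 j := fun j hj => by
      rcases Nat.lt_succ_iff_lt_or_eq.1 hj with h1 | rfl
      · rw [e j h1]; exact (Function.update_of_ne h1.ne _ _).symm
      · exact (Function.update_self j (f j) f').symm
    have e4 : ∀ i, St G f1 (k + 1 + i) = St G f' (k + 1 + i) := by
      intro i
      induction i with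
      | zero => rw [add_zero, ← St_congr e1, e3]
      | succ i ihi =>
        rw [← add_assoc, St_succ, St_succ, ihi]
        congr 2
        exact Function.update_of_ne (by omega) _ _
    refine ih _ (hn ▸ card_lt (hf.2 k hs)) f f1 (k + 1) s t rfl e1 hs ht hf ⟨?_, ?_⟩
    · obtain ⟨i, rfl⟩ := Nat.exists_eq_add_of_lt ht
      rw [show k + i + 1 = k + 1 + i by ring, e4, show k + 1 + i = k + i + 1 by ring]
      exact hf'.1
    · intro i hi
      by_cases h : i < k + 1
      · exact Irr_congr e1 (fun i hi => hf.2 i (by omega)) i h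
      · obtain ⟨j, rfl⟩ := Nat.exists_eq_add_of_le (not_lt.1 h)
        rw [e4, show f1 (k + 1 + j) = f' (k + 1 + j) from Function.update_of_ne (by omega) _ _]
        exact hf'.2 _ hi

theorem shrink (t : ℕ) : ∀ f : Fin t → Ω, (∀ g : G, (∀ i, g • f i = f i) → g = 1) →
    ∃ (t' : ℕ) (f' : Fin t' → Ω), t' ≤ t ∧ (∀ g : G, (∀ i, g • f' i = f' i) → g = 1) ∧
      (∀ i, ∃ g : G, (∀ j, j < i → g • f' j = f' j) ∧ g • f' i ≠ f' i) ∧
      (t' = t → ∀ i, ∃ g : G, (∀ j, j < i → g • f j = f j) ∧ g • f i ≠ f i) := by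
  induction t with
  | zero => exact fun f hf => ⟨0, f, le_rfl, hf, fun i => i.elim0, fun _ i => i.elim0⟩
  | succ t ih =>
    intro f hf
    by_cases h : ∀ i, ∃ g : G, (∀ j, j < i → g • f j = f j) ∧ g • f i ≠ f i
    · exact ⟨_, f, le_rfl, hf, h, fun _ => h⟩
    push Not at h
    obtain ⟨i, hi⟩ := h
    obtain ⟨t', f', h1, h2, h3, _⟩ := ih (f ∘ i.succAbove) (fun g hg => hf g (by
      have : ∀ j, j ≠ i → g • f j = f j := by
        intro j hj
        obtain ⟨k, rfl⟩ := Fin.exists_succAbove_eq hj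
        exact hg k
      intro j
      by_cases hj : j = i
      · rw [hj]; exact hi g fun j hj => this j hj.ne
      · exact this j hj))
    exact ⟨t', f', by omega, h2, h3, fun h => by omega⟩

theorem IB_iff (f : ℕ → Ω) (t : ℕ) (f' : Fin t → Ω) (e : ∀ i : Fin t, f i = f' i) :
    IB G f t ↔ ((∀ g : G, (∀ i, g • f' i = f' i) → g = 1) ∧
      ∀ i, ∃ g : G, (∀ j, j < i → g • f' j = f' j) ∧ g • f' i ≠ f' i) := by
  refine and_congr ?_ ?_
  · rw [Subgroup.eq_bot_iff_forall]
    refine forall_congr' fun g => imp_congr_left ⟨fun h i => ?_, fun h j hj => ?_⟩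
    · rw [← e]; exact h i i.2
    · have := h ⟨j, hj⟩
      rwa [← e] at this
  · constructor
    · intro h i
      obtain ⟨g, hg, hg'⟩ := h i i.2
      exact ⟨g, fun j hj => by rw [← e]; exact hg j hj, by rwa [← e]⟩
    · intro h i hi
      obtain ⟨g, hg, hg'⟩ := h ⟨i, hi⟩
      refine ⟨g, fun j hj => ?_, by rwa [← e] at hg'⟩
      have := hg ⟨j, hj.trans hi⟩ hj
      rwa [← e] at this

end


/-- Let a finite group G act on a finite set Ω. An irredundant base is a sequence of points ω₁, …, ω_t whose pointwise stabiliser is trivial and in which each ω_i is moved by some element fixing ω₁, …, ω_{i−1}. Then all irredundant bases have the same length if and only if every reordering of an irredundant base is again an irredundant base. -/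
theorem result {G Ω : Type*} [Group G] [Finite G] [MulAction G Ω] [Fintype Ω] :
    (∀ (t t' : ℕ) (f : Fin t → Ω) (f' : Fin t' → Ω), ((∀ g : G, (∀ i : Fin t, g • f i = f i) → g = 1) ∧ ∀ i : Fin t, ∃ g : G, (∀ j : Fin t, j < i → g • f j = f j) ∧ g • f i ≠ f i) → ((∀ g : G, (∀ i : Fin t', g • f' i = f' i) → g = 1) ∧ ∀ i : Fin t', ∃ g : G, (∀ j : Fin t', j < i → g • f' j = f' j) ∧ g • f' i ≠ f' i) → t = t') ↔
    (∀ (t : ℕ) (f : Fin t → Ω) (σ : Equiv.Perm (Fin t)), ((∀ g : G, (∀ i : Fin t, g • f i = f i) → g = 1) ∧ ∀ i : Fin t, ∃ g : G, (∀ j : Fin t, j < i → g • f j = f j) ∧ g • f i ≠ f i) → ((∀ g : G, (∀ i : Fin t, g • (f ∘ σ) i = (f ∘ σ) i) → g = 1) ∧ ∀ i : Fin t, ∃ g : G, (∀ j : Fin t, j < i → g • (f ∘ σ) j = (f ∘ σ) j) ∧ g • (f ∘ σ) i ≠ (f ∘ σ) i)) := by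
  constructor
  · intro h t f σ hf
    have h1 : ∀ g : G, (∀ i : Fin t, g • (f ∘ σ) i = (f ∘ σ) i) → g = 1 :=
      fun g hg => hf.1 g fun i => by simpa using hg (σ.symm i)
    obtain ⟨t', f', _, h2, h3, h4⟩ := shrink t (f ∘ σ) h1
    exact ⟨h1, h4 (h _ _ _ _ ⟨h2, h3⟩ hf)⟩
  · intro h t t' f f' hf hf'
    rcases isEmpty_or_nonempty Ω with hΩ | ⟨⟨x⟩⟩
    · have : ∀ s : ℕ, (Fin s → Ω) → s = 0 := by
        intro s k
        by_contra hs
        exact hΩ.false (k ⟨0, by omega⟩)
      rw [this _ f, this _ f']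
    have ext : ∀ (s : ℕ) (k : Fin s → Ω), ∃ k' : ℕ → Ω, ∀ i : Fin s, k' i = k i :=
      fun s k => ⟨fun i => if h : i < s then k ⟨i, h⟩ else x, fun i => by simp⟩
    obtain ⟨k, hk⟩ := ext t f
    obtain ⟨k', hk'⟩ := ext t' f'
    refine same_len (G := G) (Ω := Ω) (fun g hg => hf.1 g fun i => hg _) ?_ _ k k' 0 t t' rfl
      (fun j hj => by omega) (Nat.zero_le _) (Nat.zero_le _) ((IB_iff k t f hk).2 hf)
      ((IB_iff k' t' f' hk').2 hf')
    intro u s i hi hu
    rw [IB_iff u s (fun j => u j) fun _ => rfl] at hu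
    refine (IB_iff _ s _ ?_).2 (h s _ (Equiv.swap ⟨i, by omega⟩ ⟨i + 1, hi⟩) hu)
    intro j
    simp only [Function.comp_apply, Equiv.swap_apply_def, Fin.ext_iff]
    split_ifs <;> rfl

end Cfsg.Agent.S5747
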