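import Cfsg.Statements.S5748
import Cfsg.Agent.H4.CAEven2

set_option autoImplicit false
open Cfsg

namespace Cfsg.Agent.S5748

open Cfsg.Agent.H4 Cfsg.Agent.H4.CABasic

theorem comm_iff {F : Type*} [Field F] (a b : Matrix (Fin 2) (Fin 2) F) : a * b = b * a ↔
    a 0 1 * b 1 0 = b 0 1 * a 1 0 ∧ b 0 1 * (a 0 0 - a 1 1) = a 0 1 * (b 0 0 - b 1 1) ∧
      b 1 0 * (a 0 0 - a 1 1) = a 1 0 * (b 0 0 - b 1 1) := by
  rw [← Matrix.ext_iff]
  simp only [Fin.forall_fin_two, Matrix.mul_apply, Fin.sum_univ_two]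
  constructor
  · rintro ⟨⟨h1, h2⟩, h3, h4⟩
    exact ⟨by linear_combination h1, by linear_combination h2, by linear_combination -h3⟩
  · rintro ⟨h1, h2, h3⟩
    exact ⟨⟨by linear_combination h1, by linear_combination h2⟩, by linear_combination -h3,
      by linear_combination -h1⟩

theorem comm_trans {F : Type*} [Field F] (a b c : Matrix (Fin 2) (Fin 2) F)
    (hb : ¬ (b 0 1 = 0 ∧ b 1 0 = 0 ∧ b 0 0 - b 1 1 = 0)) (h1 : a * b = b * a)
    (h2 : b * c = c * b) : a * c = c * a := by
  rw [comm_iff] at h1 h2 ⊢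
  obtain ⟨h1, h3, h4⟩ := h1
  obtain ⟨h2, h5, h6⟩ := h2
  have key : ∀ x : F, b 0 1 * x = 0 → b 1 0 * x = 0 → (b 0 0 - b 1 1) * x = 0 → x = 0 := by
    intro x e1 e2 e3
    by_contra hx
    exact hb ⟨by simpa [hx] using e1, by simpa [hx] using e2, by simpa [hx] using e3⟩
  refine ⟨sub_eq_zero.1 (key _ ?_ ?_ ?_), sub_eq_zero.1 (key _ ?_ ?_ ?_),
    sub_eq_zero.1 (key _ ?_ ?_ ?_)⟩
  · linear_combination a 0 1 * h2 + c 0 1 * h1
  · linear_combination c 1 0 * h1 + a 1 0 * h2
  · linear_combination -c 1 0 * h3 + c 0 1 * h4 + (a 0 0 - a 1 1) * h2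
  · linear_combination c 0 1 * h3 + a 0 1 * h5
  · linear_combination c 0 1 * h4 + a 1 0 * h5 - (c 0 0 - c 1 1) * h1
  · linear_combination (a 0 0 - a 1 1) * h5 + (c 0 0 - c 1 1) * h3
  · linear_combination c 1 0 * h3 + a 0 1 * h6 + (c 0 0 - c 1 1) * h1
  · linear_combination c 1 0 * h4 + a 1 0 * h6
  · linear_combination (a 0 0 - a 1 1) * h6 + (c 0 0 - c 1 1) * h4

theorem ct_psl {F : Type*} [Field F] [CharP F 2] :
    CT (Matrix.ProjectiveSpecialLinearGroup (Fin 2) F) := by
  have h1 : Subgroup.center (Matrix.SpecialLinearGroup (Fin 2) F) = ⊥ := by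
    rw [eq_bot_iff]
    intro x hx
    obtain ⟨r, hr, e⟩ := Matrix.SpecialLinearGroup.mem_center_iff.1 hx
    rw [Fintype.card_fin, sq_eq_one_iff, CharTwo.neg_eq, or_self] at hr
    rw [hr, map_one] at e
    exact Subtype.ext e.symm
  have h2 : Function.Injective
      (QuotientGroup.mk' (Subgroup.center (Matrix.SpecialLinearGroup (Fin 2) F))) := by
    rw [← MonoidHom.ker_eq_bot_iff, QuotientGroup.ker_mk', h1]
  intro a b c _ hb _ hab hbc
  obtain ⟨a, rfl⟩ := QuotientGroup.mk'_surjective _ a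
  obtain ⟨b, rfl⟩ := QuotientGroup.mk'_surjective _ b
  obtain ⟨c, rfl⟩ := QuotientGroup.mk'_surjective _ c
  have h3 : a * b = b * a := h2 (by rw [map_mul, map_mul]; exact hab)
  have h4 : b * c = c * b := h2 (by rw [map_mul, map_mul]; exact hbc)
  have h5 : a * c = c * a := Subtype.ext (comm_trans a.1 b.1 c.1 ?_
    (congrArg Subtype.val h3) (congrArg Subtype.val h4))
  · exact Commute.map h5 _
  rintro ⟨e1, e2, e3⟩
  apply hb
  rw [QuotientGroup.mk'_apply, QuotientGroup.eq_one_iff, Subgroup.mem_center_iff]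
  intro g
  refine Subtype.ext ((comm_iff g.1 b.1).2 ?_)
  rw [e1, e2, e3]
  simp

/-- A finite non-abelian simple group in which commuting is a transitive relation on the non-identity elements (equivalently, every non-identity element has abelian centraliser) is isomorphic to PSL₂ over a field with 2^f elements for some f ≥ 2; conversely these groups have that property. -/
theorem result {G : Type*} [Group G] [Finite G] [IsSimpleGroup G] (hG : ¬ IsMulCommutative G) :
    (∀ a b c : G, a ≠ 1 → b ≠ 1 → c ≠ 1 → Commute a b → Commute b c → Commute a c) ↔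
    ∃ (F : Type) (_ : Field F) (_ : Fintype F) (f : ℕ), 2 ≤ f ∧ Fintype.card F = 2 ^ f ∧ Nonempty (G ≃* Matrix.ProjectiveSpecialLinearGroup (Fin 2) F) := by
  classical
  haveI := Fintype.ofFinite G
  have hna : ¬ ∀ x y : G, x * y = y * x := fun h => hG ⟨⟨h⟩⟩
  constructor
  · intro h
    rcases Nat.even_or_odd (Nat.card G) with h1 | h1
    · exact CAEven2.even_case hna h h1
    · exact (CAOdd2.no_odd hna h h1).elim
  · rintro ⟨F, _, _, f, hf, hF, ⟨e⟩⟩ a b c ha hb hc hab hbc
    haveI : CharP F 2 := by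
      haveI : Fact (Nat.Prime 2) := ⟨Nat.prime_two⟩
      exact charP_of_card_eq_prime_pow hF
    exact (ct_psl (e a) (e b) (e c) (by simpa using ha) (by simpa using hb) (by simpa using hc)
      (hab.map e) (hbc.map e)).of_map e.injective

end Cfsg.Agent.S5748
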