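import Cfsg.Statements.S5752
import Cfsg.Agent.H3.TW

set_option autoImplicit false
open Cfsg

namespace Cfsg.Agent.S5752

/-- A form of the Thompson–Wielandt Theorem on primitive permutation groups. Let G be a finite group and M₁, M₂ two distinct conjugate maximal subgroups of G with trivial core in G; define two descending sequences of subgroups by A₀ = M₁, B₀ = M₂ and, for every i, A_{i+1} = the core in M₁ of A_i ∩ B_i and B_{i+1} = the core in M₂ of A_i ∩ B_i (the core in M of a subgroup Y ≤ M is the largest normal subgroup of M contained in Y). If A₂ and B₂ are both non-trivial, then for some prime p the subgroup generated by A₂ and B₂ is a p-group, and for each j the generalized Fitting subgroups of M_j and of its first core (A₁, resp. B₁) are their largest normal p-subgroups. -/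
theorem result {G : Type*} [Group G] [Finite G] (M₁ M₂ : Subgroup G) (hmax : IsCoatom M₁) (g : G)
    (hconj : M₂ = M₁.map (MulAut.conj g).toMonoidHom) (hne : M₁ ≠ M₂) (hcore : M₁.normalCore = ⊥)
    (A B : ℕ → Subgroup G) (hA0 : A 0 = M₁) (hB0 : B 0 = M₂)
    (hA : ∀ i, A (i + 1) = ((A i ⊓ B i).subgroupOf M₁).normalCore.map M₁.subtype)
    (hB : ∀ i, B (i + 1) = ((A i ⊓ B i).subgroupOf M₂).normalCore.map M₂.subtype) (hA2 : A 2 ≠ ⊥) (hB2 : B 2 ≠ ⊥) :
    ∃ p : ℕ, p.Prime ∧ IsPGroup p ↥(A 2 ⊔ B 2) ∧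
      Cfsg.generalizedFittingSubgroup ↥M₁ = Cfsg.pCore p ↥M₁ ∧ Cfsg.generalizedFittingSubgroup ↥(A 1) = Cfsg.pCore p ↥(A 1) ∧
      Cfsg.generalizedFittingSubgroup ↥M₂ = Cfsg.pCore p ↥M₂ ∧ Cfsg.generalizedFittingSubgroup ↥(B 1) = Cfsg.pCore p ↥(B 1) := by
  have hmax2 : IsCoatom M₂ := by
    rw [hconj]
    exact (OrderIso.isCoatom_iff (MulEquiv.mapSubgroup (MulAut.conj g)) M₁).2 hmax
  have hback : M₁ = M₂.map (MulAut.conj g⁻¹).toMonoidHom := by
    rw [hconj, Subgroup.map_map]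
    convert (Subgroup.map_id M₁).symm
    ext x; simp [mul_assoc]
  have hcore2 : M₂.normalCore = ⊥ := by
    rw [eq_bot_iff, ← hcore]
    intro x hx b
    rw [hback]
    exact ⟨_, hx (g * b), by simp [mul_assoc]⟩
  obtain ⟨a1, a2, a3, a4⟩ := H3.TW.core_spec M₁ (A 0 ⊓ B 0)
  obtain ⟨b1, b2, b3, b4⟩ := H3.TW.core_spec M₂ (A 0 ⊓ B 0)
  obtain ⟨c1, -, c3, -⟩ := H3.TW.core_spec M₁ (A 1 ⊓ B 1)
  obtain ⟨d1, -, d3, -⟩ := H3.TW.core_spec M₂ (A 1 ⊓ B 1)
  rw [← hA 0] at a1 a2 a3 a4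
  rw [← hB 0] at b1 b2 b3 b4
  rw [← hA 1] at c1 c3
  rw [← hB 1] at d1 d3
  rw [hA0, hB0] at a1 a4 b1 b4
  exact H3.TW.main (M₁ := M₁) (M₂ := M₂) (A := A 1) (B := B 1) (X := A 2) (Y := B 2)
    ⟨H3.TW.loc_of_coatom hmax hcore, fun e => hne ((hmax2.le_iff_eq hmax.1).1 e), ⟨_, hback⟩,
      b1.trans inf_le_left, b2, b3, fun s hs h => b4 s hs fun m hm =>
        ⟨h m hm, H3.TW.Nm.self M₂ m hm s hs⟩, c1.trans inf_le_right, c3, hA2⟩
    ⟨H3.TW.loc_of_coatom hmax2 hcore2, fun e => hne ((hmax.le_iff_eq hmax2.1).1 e).symm, ⟨_, hconj⟩,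
      a1.trans inf_le_right, a2, a3, fun s hs h => a4 s hs fun m hm =>
        ⟨H3.TW.Nm.self M₁ m hm s hs, h m hm⟩, d1.trans inf_le_left, d3, hB2⟩

end Cfsg.Agent.S5752
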