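import Cfsg.Statements.S5753
import Cfsg.Agent.H6.Bin4

set_option autoImplicit false
open Cfsg

namespace Cfsg.Agent.S5753

/-- The binary primitive permutation groups of affine type (the known proof uses the classification of the finite simple groups). Let a finite group G act faithfully and primitively on a finite set Ω, with a non-trivial abelian normal subgroup, and suppose the action is binary: for every n ≥ 2 and all n-tuples I, J of points, if for every pair of positions some element of G carries the corresponding pair of entries of I to those of J, then a single element carries I to J. Then either Ω has a prime number of points and every point stabilizer has order at most 2, or Ω can be identified with a field E that is a quadratic extension of a subfield F in such a way that the permutations induced by G are exactly the maps x ↦ a·φ(x) + b with a ∈ E of norm 1 over F, φ an automorphism of E over F and b ∈ E (the affine group of the anisotropic plane orthogonal group). -/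
theorem result {G Ω : Type*} [Group G] [Finite G] [MulAction G Ω] [FaithfulSMul G Ω] [Fintype Ω]
    (hprim : MulAction.IsPreprimitive G Ω)
    (haff : ∃ N : Subgroup G, N.Normal ∧ N ≠ ⊥ ∧ IsMulCommutative ↥N)
    (hbin : ∀ (n : ℕ) (I J : Fin n → Ω), 2 ≤ n →
      (∀ i j : Fin n, i ≠ j → ∃ g : G, g • I i = J i ∧ g • I j = J j) → ∃ g : G, ∀ i, g • I i = J i) :
    ((Fintype.card Ω).Prime ∧ ∀ ω : Ω, Nat.card ↥(MulAction.stabilizer G ω) ≤ 2) ∨
    (∃ (F E : Type) (_ : Field F) (_ : Fintype F) (_ : Field E) (_ : Fintype E) (_ : Algebra F E) (e : Ω ≃ E),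
        Module.finrank F E = 2 ∧
        ∀ σ : Equiv.Perm Ω, σ ∈ (MulAction.toPermHom G Ω).range ↔
          ∃ (a b : E) (φ : E ≃ₐ[F] E), Algebra.norm F a = 1 ∧ ∀ ω : Ω, e (σ ω) = a * φ (e ω) + b) := by
  classical
  obtain ⟨N, hN, hN0, hc⟩ := haff
  letI : CommGroup N := { (inferInstance : Group N) with mul_comm := fun a b => hc.is_comm.comm a b }
  obtain ⟨n0, hn0, ω0, hω0⟩ : ∃ n0 ∈ N, ∃ ω0 : Ω, n0 • ω0 ≠ ω0 := by
    by_contra h
    push Not at h
    exact hN0 ((Subgroup.eq_bot_iff_forall N).2 fun x hx =>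
      eq_of_smul_eq_smul (α := Ω) fun ω => by rw [h x hx, one_smul])
  haveI : MulAction.IsPretransitive N Ω :=
    MulAction.IsQuasiPreprimitive.isPretransitive_of_normal fun h => by
      have : ω0 ∈ MulAction.fixedPoints N Ω := h ▸ Set.mem_univ _
      exact hω0 (this ⟨n0, hn0⟩)
  have reg : ∀ n : N, (n : G) • ω0 = ω0 → n = 1 := by
    intro n hn
    refine Subtype.ext (eq_of_smul_eq_smul (α := Ω) fun ω => ?_)
    obtain ⟨m, rfl⟩ := MulAction.exists_smul_eq N ω0 ω
    change (n : G) • (m : G) • ω0 = (1 : G) • (m : G) • ω0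
    rw [one_smul, ← mul_smul, ← Subgroup.coe_mul, mul_comm n m, Subgroup.coe_mul, mul_smul, hn]
  let H := MulAction.stabilizer G ω0
  let V := Additive N
  let c : V ≃ Ω := Equiv.ofBijective (fun v => (v.toMul : G) • ω0) ⟨fun u v e => by
    have e' : (u.toMul : G) • ω0 = (v.toMul : G) • ω0 := e
    have := reg (v.toMul⁻¹ * u.toMul) (by
      rw [Subgroup.coe_mul, mul_smul, e', Subgroup.coe_inv, inv_smul_smul])
    exact (Additive.toMul.injective (inv_mul_eq_one.1 this)).symm,
    fun ω => by
      obtain ⟨m, rfl⟩ := MulAction.exists_smul_eq N ω0 ω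
      exact ⟨Additive.ofMul m, rfl⟩⟩
  letI : DistribMulAction H V :=
    { smul := fun h v => Additive.ofMul ⟨h * v.toMul * (h : G)⁻¹, hN.conj_mem _ v.toMul.2 _⟩
      one_smul := fun v => Additive.toMul.injective (Subtype.ext (by
        change ((1 : H) : G) * _ * ((1 : H) : G)⁻¹ = _
        simp))
      mul_smul := fun g h v => Additive.toMul.injective (Subtype.ext (by
        change ((g * h : H) : G) * _ * ((g * h : H) : G)⁻¹ =
          (g : G) * ((h : G) * _ * (h : G)⁻¹) * (g : G)⁻¹
        simp [mul_assoc]))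
      smul_zero := fun h => Additive.toMul.injective (Subtype.ext (by
        change (h : G) * 1 * (h : G)⁻¹ = 1
        simp))
      smul_add := fun h u v => Additive.toMul.injective (Subtype.ext (by
        change (h : G) * ((u.toMul : G) * v.toMul) * (h : G)⁻¹ =
          ((h : G) * u.toMul * (h : G)⁻¹) * ((h : G) * v.toMul * (h : G)⁻¹)
        simp [mul_assoc])) }
  have c0 : c 0 = ω0 := one_smul G ω0
  have c1 : ∀ (h : H) (v : V), c (h • v) = (h : G) • c v := fun h v => by
    change ((h : G) * v.toMul * (h : G)⁻¹) • ω0 = (h : G) • (v.toMul : G) • ω0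
    rw [mul_smul, mul_smul, inv_smul_eq_iff.2 (show ω0 = (h : G) • ω0 from h.2.symm)]
  have c2 : ∀ u v : V, c (u + v) = (u.toMul : G) • c v := fun u v => mul_smul _ _ _
  have dec : ∀ g : G, ∃ (b : V) (h : H), ∀ v, g • c v = c (b + h • v) := by
    intro g
    obtain ⟨b, hb⟩ := c.surjective (g • ω0)
    refine ⟨b, ⟨(b.toMul : G)⁻¹ * g, ?_⟩, fun v => ?_⟩
    · rw [MulAction.mem_stabilizer_iff, mul_smul, ← hb, inv_smul_eq_iff]; rfl
    · rw [c2, c1, mul_smul, smul_inv_smul]
  haveI : Finite V := inferInstanceAs (Finite N)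
  haveI : Nontrivial V := ⟨Additive.ofMul ⟨n0, hn0⟩, 0, fun e => hω0 (by
    have := congrArg c e
    rw [c0] at this
    exact this)⟩
  have hb : H6.Bin.Hyp H V := by
    refine ⟨fun S f h0 f0 hS => ?_, fun h hh => ?_, fun W hW => ?_⟩
    · obtain ⟨k, ⟨e⟩⟩ := Finite.exists_equiv_fin (Option (Option S))
      let g : Fin k → S := fun i => ((e.symm i).getD none).getD ⟨0, h0⟩
      have hg : ∀ x : S, g (e (some (some x))) = x := fun x => by simp [g]
      have hk : 2 ≤ k := by
        have := Nat.card_congr e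
        rw [Finite.card_option, Finite.card_option, Nat.card_fin] at this
        omega
      obtain ⟨γ, hγ⟩ := hbin k (fun i => c (g i)) (fun i => c (f (g i))) hk fun i j _ => by
        obtain ⟨h, hh⟩ := hS _ (g i).2 _ (g j).2
        have key : ∀ x : V, (((f (g j)).toMul : G) * h * ((-(g j : V)).toMul : G)) • c x =
            c (f (g j) + h • (x - g j)) := fun x => by
          rw [mul_smul, mul_smul, ← c2, ← c1, ← c2, neg_add_eq_sub]
        exact ⟨_, by rw [key, hh, add_sub_cancel], by rw [key, sub_self, smul_zero, add_zero]⟩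
      have hγ' : ∀ x ∈ S, γ • c x = c (f x) := fun x hx => by
        have := hγ (e (some (some ⟨x, hx⟩)))
        simpa only [hg] using this
      refine ⟨⟨γ, ?_⟩, fun x hx => c.injective (by rw [c1, hγ' x hx])⟩
      have := hγ' 0 h0
      rwa [f0, c0] at this
    · refine Subtype.ext (eq_of_smul_eq_smul (α := Ω) fun ω => ?_)
      obtain ⟨v, rfl⟩ := c.surjective ω
      rw [← c1, hh]
      exact (one_smul G _).symm
    · have hB : MulAction.IsBlock G (c '' W) := by
        rw [MulAction.isBlock_iff_smul_eq_of_mem]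
        rintro g _ ⟨a, ha, rfl⟩ ⟨a', ha', e⟩
        obtain ⟨b, h, hbh⟩ := dec g
        rw [hbh, c.injective.eq_iff] at e
        have bW : b ∈ W := by
          have := sub_mem ha' (hW h a ha)
          rwa [e, add_sub_cancel_right] at this
        ext ω
        constructor
        · rintro ⟨_, ⟨x, hx, rfl⟩, rfl⟩
          exact ⟨_, add_mem bW (hW h x hx), (hbh x).symm⟩
        · rintro ⟨x, hx, rfl⟩
          refine ⟨_, ⟨h⁻¹ • (x - b), hW _ _ (sub_mem hx bW), rfl⟩, ?_⟩
          change g • _ = _
          rw [hbh, smul_inv_smul, add_sub_cancel]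
      rcases hprim.isTrivialBlock_of_isBlock hB with h | h
      · left
        rw [eq_bot_iff]
        intro x hx
        exact c.injective (h ⟨x, hx, rfl⟩ ⟨0, zero_mem _, rfl⟩)
      · right
        rw [eq_top_iff]
        intro x _
        obtain ⟨y, hy, e⟩ : c x ∈ c '' W := h ▸ Set.mem_univ _
        exact c.injective e ▸ hy
  rcases H6.Bin.core hb with ⟨h1, h2⟩ | ⟨F, E, iF, fF, iE, fE, aF, e, hr, h1, h2⟩
  · left
    refine ⟨by rwa [← Nat.card_eq_fintype_card, ← Nat.card_congr c], fun ω => ?_⟩
    obtain ⟨g, hg⟩ := MulAction.exists_smul_eq G ω0 ω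
    rwa [Nat.card_congr (MulAction.stabilizerEquivStabilizerOfOrbitRel
      (show MulAction.orbitRel G Ω ω ω0 from ⟨g, hg⟩)).toEquiv]
  · right
    refine ⟨F, E, iF, fF, iE, fE, aF, c.symm.trans e.toEquiv, hr, fun σ => ⟨?_, ?_⟩⟩
    · rintro ⟨g, rfl⟩
      obtain ⟨b, h, hbh⟩ := dec g
      obtain ⟨a, φ, ha, hφ⟩ := h1 h
      refine ⟨a, e b, φ, ha, fun ω => ?_⟩
      obtain ⟨v, rfl⟩ := c.surjective ω
      simp [hbh, hφ, add_comm]
    · rintro ⟨a, b, φ, ha, hσ⟩
      obtain ⟨h, hh⟩ := h2 a φ ha
      refine ⟨((e.symm b).toMul : G) * h, Equiv.ext fun ω => ?_⟩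
      obtain ⟨v, rfl⟩ := c.surjective ω
      apply (c.symm.trans e.toEquiv).injective
      rw [hσ, MulAction.toPermHom_apply, MulAction.toPerm_apply, mul_smul, ← c1, ← c2]
      simp [hh, add_comm]

end Cfsg.Agent.S5753
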