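import Cfsg.Statements.S5754

set_option autoImplicit false
open Cfsg

namespace Cfsg.Agent.S5754

section
variable {F V : Type*} [Field F] [AddCommGroup V] [Module F V]

open QuadraticMap

/-- reflection in an anisotropic vector -/
theorem exists_refl (Q : QuadraticForm F V) (w : V) (hw : Q w ≠ 0) :
    ∃ ρ : Q.IsometryEquiv Q, ∀ z, ρ z = z - (polar Q z w / Q w) • w := by
  let r : V →ₗ[F] V :=
    { toFun := fun z => z - (polar Q z w / Q w) • w
      map_add' := fun x y => by rw [polar_add_left, add_div, add_smul]; abel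
      map_smul' := fun a x => by
        rw [polar_smul_left, RingHom.id_apply, smul_sub, smul_smul, smul_eq_mul, mul_div_assoc] }
  have hr : ∀ z, r z = z - (polar Q z w / Q w) • w := fun _ => rfl
  have hinv : Function.Involutive r := by
    intro z
    rw [hr, hr, polar_sub_left, polar_smul_left, polar_self, sub_sub, ← add_smul, sub_eq_self]
    have : polar Q z w / Q w + (polar Q z w - (polar Q z w / Q w) • 2 • Q w) / Q w = 0 := by
      simp only [smul_eq_mul, nsmul_eq_mul]
      field_simp
      ring
    rw [this, zero_smul]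
  refine ⟨{ LinearEquiv.ofInvolutive r hinv with map_app' := fun z => ?_ }, fun z => rfl⟩
  show Q (z - (polar Q z w / Q w) • w) = Q z
  rw [sub_eq_add_neg, ← neg_smul, QuadraticMap.map_add Q, polar_smul_right, QuadraticMap.map_smul]
  simp only [smul_eq_mul]
  field_simp
  ring

theorem polar_eq (Q : QuadraticForm F V) (x y : V) : polar Q x y = Q x + Q y - Q (x - y) := by
  rw [sub_eq_add_neg x, QuadraticMap.map_add Q, polar_neg_right, QuadraticMap.map_neg]
  ring

theorem witt (Q : QuadraticForm F V) (hQ : Q.Anisotropic) {ι : Type*} (v v' : ι → V)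
    (h1 : ∀ i, Q (v i) = Q (v' i)) (h2 : ∀ i j, polar Q (v i) (v j) = polar Q (v' i) (v' j))
    (s : Finset ι) : ∃ φ : Q.IsometryEquiv Q, ∀ i ∈ s, φ (v i) = v' i := by
  classical
  induction s using Finset.induction_on with
  | empty => exact ⟨QuadraticMap.IsometryEquiv.refl Q, by simp⟩
  | insert k s hk ih =>
    obtain ⟨φ, hφ⟩ := ih
    by_cases e : φ (v k) = v' k
    · refine ⟨φ, fun i hi => ?_⟩
      rcases Finset.mem_insert.1 hi with rfl | hi
      · exact e
      · exact hφ i hi
    have hw : Q (φ (v k) - v' k) ≠ 0 := fun h => e (sub_eq_zero.1 (hQ _ h))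
    obtain ⟨ρ, hρ⟩ := exists_refl Q _ hw
    have hp : ∀ x y, polar Q (φ x) (φ y) = polar Q x y := by
      intro x y
      rw [polar_eq, polar_eq, ← map_sub, φ.map_app, φ.map_app, φ.map_app]
    refine ⟨φ.trans ρ, fun i hi => ?_⟩
    show ρ (φ (v i)) = v' i
    rcases Finset.mem_insert.1 hi with rfl | hi
    · rw [hρ]
      have : polar Q (φ (v i)) (φ (v i) - v' i) = Q (φ (v i) - v' i) := by
        rw [polar_eq, sub_sub_cancel, φ.map_app, h1]; ring
      rw [this, div_self hw, one_smul, sub_sub_cancel]
    · rw [hρ, polar_sub_right, hp, hφ i hi, h2, sub_self, zero_div, zero_smul, sub_zero]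

end


/-- Let V be a finite-dimensional vector space over a finite field F carrying an anisotropic quadratic form Q (Q(v) = 0 only for v = 0). Then the group of all maps v ↦ φ(v) + c, with φ an isometry of Q and c ∈ V, acts on V as a binary permutation group: given n ≥ 2 and two n-tuples u, u' of vectors such that every pair of corresponding entries of u is carried to that of u' by such a map, one such map carries u to u'. -/
theorem result {F V : Type*} [Field F] [Finite F] [AddCommGroup V] [Module F V] [Module.Finite F V]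
    (Q : QuadraticForm F V) (hQ : Q.Anisotropic) (n : ℕ) (hn : 2 ≤ n) (u u' : Fin n → V)
    (h2 : ∀ i j : Fin n, i ≠ j → ∃ (φ : Q.IsometryEquiv Q) (c : V), φ (u i) + c = u' i ∧ φ (u j) + c = u' j) :
    ∃ (φ : Q.IsometryEquiv Q) (c : V), ∀ i, φ (u i) + c = u' i := by
  have hd : ∀ i j, Q (u i - u j) = Q (u' i - u' j) := by
    intro i j
    by_cases e : i = j
    · simp [e]
    obtain ⟨φ, c, e1, e2⟩ := h2 i j e
    rw [← e1, ← e2, add_sub_add_right_eq_sub, ← map_sub, φ.map_app]
  let o : Fin n := ⟨0, by omega⟩
  obtain ⟨φ, hφ⟩ := witt Q hQ (fun i => u i - u o) (fun i => u' i - u' o) (fun i => hd i o)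
    (fun i j => by
      rw [polar_eq, polar_eq, sub_sub_sub_cancel_right, sub_sub_sub_cancel_right, hd, hd, hd])
    Finset.univ
  refine ⟨φ, u' o - φ (u o), fun i => ?_⟩
  have := hφ i (Finset.mem_univ _)
  simp only [map_sub] at this
  rw [← sub_add_cancel (u' i) (u' o), ← this]
  abel

end Cfsg.Agent.S5754
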