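import Cfsg.Statements.S5763
import Cfsg.Agent.H6.Wreath

set_option autoImplicit false
open Cfsg

namespace Cfsg.Agent.S5763

def cand : List ℕ := [16434817, 16434376, 16406152, 14599816, 11788826, 9925146, 11788371, 9924691, 6852524, 5017068, 6823845, 4988389, 2206526, 2177406, 371511, 342391]

def ap8 (N i : ℕ) : ℕ := Nat.land (Nat.shiftRight N (Nat.mul 3 i)) 7
def ap4 (N i : ℕ) : ℕ := Nat.land (Nat.shiftRight N (Nat.mul 2 i)) 3

noncomputable def allN (n : ℕ) (p : ℕ → Bool) : Bool := Nat.rec true (fun i r => p i && r) n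

theorem allN_iff (n : ℕ) (p : ℕ → Bool) : allN n p = true ↔ ∀ i < n, p i = true := by
  induction n with
  | zero => simp [allN]
  | succ n ih =>
    have : allN (n + 1) p = (p n && allN n p) := rfl
    rw [this, Bool.and_eq_true, ih]
    exact ⟨fun h i hi => (Nat.lt_succ_iff_lt_or_eq.1 hi).elim (h.2 i) (fun e => e ▸ h.1),
      fun h => ⟨h n (by omega), fun i hi => h i (by omega)⟩⟩

def w (C i : ℕ) : ℕ := Nat.shiftLeft 1 (Nat.mul 4 (ap4 C i))

def okC (C : ℕ) : Bool := Nat.beq (Nat.add (Nat.add (Nat.add (w C 0) (w C 1))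
  (Nat.add (w C 2) (w C 3))) (Nat.add (Nat.add (w C 4) (w C 5)) (Nat.add (w C 6) (w C 7)))) 8738

def iffB (a b : Bool) : Bool := cond a b (not b)

theorem iffB_iff (a b : Bool) : iffB a b = true ↔ (a = true ↔ b = true) := by
  cases a <;> cases b <;> simp [iffB]

noncomputable def okH (c : ℕ → ℕ) (H : ℕ) : Bool := allN 8 fun i => allN i fun j =>
  iffB (Nat.beq (c i) (c j)) (Nat.beq (c (ap8 H i)) (c (ap8 H j))) &&
    iffB (Nat.beq (Nat.div (c i) 2) (Nat.div (c j) 2))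
      (Nat.beq (Nat.div (c (ap8 H i)) 2) (Nat.div (c (ap8 H j)) 2))

theorem check1 : allN 65536 (fun C => !okC C || cand.any (okH (ap4 C))) = true := by
  decide +kernel

theorem check2 : ∀ H ∈ cand, okH (fun i => i / 2) H = true ∧ (∀ i < 8, ap8 H (ap8 H i) = i) ∧
    ∃ i < 8, ap8 H i ≠ i := by
  decide +kernel

def H0 : Subgroup (Equiv.Perm (Fin 8)) :=
  Cfsg.Agent.H6.Wreath.partStab (fun i : Fin 8 => i.1 / 2) ⊓
    Cfsg.Agent.H6.Wreath.partStab (fun i : Fin 8 => i.1 / 2 / 2)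

theorem H0_pgroup : IsPGroup 2 H0 := by
  rintro ⟨g, hg⟩
  refine ⟨3, Subtype.ext ?_⟩
  have h2 := mul_mem hg hg
  have h4 := mul_mem h2 h2
  have a1 : ∀ x, ((g * g) x).1 / 2 / 2 = x.1 / 2 / 2 := by
    intro x
    have := hg.2 x (g x)
    simp only [Equiv.Perm.mul_apply] at this ⊢
    omega
  have a2 : ∀ x, ((g * g * (g * g)) x).1 / 2 = x.1 / 2 := by
    intro x
    have := h2.1 x ((g * g) x)
    have b1 := a1 x
    have b2 := a1 ((g * g) x)
    rw [Equiv.Perm.mul_apply (g * g)]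
    simp only at this
    omega
  have a3 : ∀ x, ((g * g * (g * g)) * (g * g * (g * g))) x = x := by
    intro x
    have := (g * g * (g * g)).injective.eq_iff (a := x) (b := (g * g * (g * g)) x)
    have b1 := a2 x
    have b2 := a2 ((g * g * (g * g)) x)
    rw [Equiv.Perm.mul_apply (g * g * (g * g))]
    simp only [Fin.ext_iff] at this ⊢
    omega
  show g ^ 2 ^ 3 = 1
  rw [show g ^ 2 ^ 3 = ((g * g * (g * g)) * (g * g * (g * g))) by
    simp only [pow_succ, pow_zero, one_mul, mul_assoc, show 2 ^ 3 = 8 from rfl]]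
  exact Equiv.ext a3

theorem mem_H0 (y h : Equiv.Perm (Fin 8)) (c : ℕ → ℕ) (H : ℕ) (hc : ∀ i : Fin 8, c i = (y i).1 / 2)
    (hH : ∀ i : Fin 8, ap8 H i = h i) (ok : okH c H = true) : y * h * y⁻¹ ∈ H0 := by
  simp only [okH, allN_iff, Bool.and_eq_true, iffB_iff, Nat.beq_eq] at ok
  have ok' : ∀ i j : Fin 8, (c i = c j ↔ c (ap8 H i) = c (ap8 H j)) ∧
      (c i / 2 = c j / 2 ↔ c (ap8 H i) / 2 = c (ap8 H j) / 2) := by
    intro i j
    rcases lt_trichotomy i j with e | rfl | e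
    · have := ok j j.2 i e
      exact ⟨eq_comm.trans (this.1.trans eq_comm), eq_comm.trans (this.2.trans eq_comm)⟩
    · simp
    · exact ok i i.2 j e
  constructor
  · intro u v
    obtain ⟨i, rfl⟩ := y.surjective u
    obtain ⟨j, rfl⟩ := y.surjective v
    have := (ok' i j).1
    rw [hH, hH, hc, hc, hc, hc] at this
    simpa using this
  · intro u v
    obtain ⟨i, rfl⟩ := y.surjective u
    obtain ⟨j, rfl⟩ := y.surjective v
    have := (ok' i j).2
    rw [hH, hH, hc, hc, hc, hc] at this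
    simpa using this

theorem key (y : Equiv.Perm (Fin 8)) : ∃ h ∈ H0, h ≠ 1 ∧ y * h * y⁻¹ ∈ H0 := by
  let C : ℕ := (y 0).1 / 2 + 4 * ((y 1).1 / 2) + 16 * ((y 2).1 / 2) + 64 * ((y 3).1 / 2) +
    256 * ((y 4).1 / 2) + 1024 * ((y 5).1 / 2) + 4096 * ((y 6).1 / 2) + 16384 * ((y 7).1 / 2)
  have hC : C < 65536 := by omega
  have hc : ∀ i : Fin 8, ap4 C i = (y i).1 / 2 := by
    intro i
    have : ap4 C i = C / 2 ^ (2 * i.1) % 2 ^ 2 := by
      rw [← Nat.shiftRight_eq_div_pow, ← Nat.and_two_pow_sub_one_eq_mod]; rfl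
    rw [this]
    fin_cases i <;> simp [C] <;> omega
  have h1 : okC C = true := by
    have e : ∀ i : Fin 8, w C i = 1 <<< (4 * ((y i).1 / 2)) := fun i => by rw [← hc]; rfl
    have := Equiv.sum_comp y (fun i : Fin 8 => 1 <<< (4 * (i.1 / 2)))
    rw [Fin.sum_univ_eight, show ∑ i : Fin 8, 1 <<< (4 * (i.1 / 2)) = 8738 by decide] at this
    simp only [← e] at this
    rw [okC, Nat.beq_eq]
    simp only [Nat.add_eq]
    refine Eq.trans ?_ this
    show _ = w C 0 + w C 1 + w C 2 + w C 3 + w C 4 + w C 5 + w C 6 + w C 7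
    ring
  have h2 := (allN_iff _ _).1 check1 C hC
  rw [h1] at h2
  obtain ⟨H, hH, ok⟩ := List.any_eq_true.1 h2
  obtain ⟨b1, b2, i, hi, b3⟩ := check2 H hH
  let f : Fin 8 → Fin 8 := fun i => ⟨ap8 H i, Nat.lt_succ_of_le Nat.and_le_right⟩
  have hf : Function.Involutive f := fun i => Fin.ext (b2 i i.2)
  refine ⟨hf.toPerm, ?_, fun h => b3 ?_, mem_H0 y hf.toPerm _ H hc (fun _ => rfl) ok⟩
  · simpa using mem_H0 1 hf.toPerm _ H (fun _ => rfl) (fun _ => rfl) b1
  · exact congrArg (fun s : Equiv.Perm (Fin 8) => (s ⟨i, hi⟩).1) h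


/-- In the symmetric group on 8 letters any two Sylow 2-subgroups have non-trivial intersection: for a Sylow 2-subgroup H and every element x, H ∩ xHx⁻¹ ≠ 1. -/
theorem result (H : Sylow 2 (Equiv.Perm (Fin 8))) (x : Equiv.Perm (Fin 8)) :
    (H : Subgroup (Equiv.Perm (Fin 8))) ⊓ (H : Subgroup (Equiv.Perm (Fin 8))).map (MulAut.conj x).toMonoidHom ≠ ⊥ := by
  obtain ⟨P, hP⟩ := H0_pgroup.exists_le_sylow
  obtain ⟨a, rfl⟩ := MulAction.exists_smul_eq (Equiv.Perm (Fin 8)) P H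
  obtain ⟨h, h1, h2, h3⟩ := key (a⁻¹ * x * a)
  have hm : ∀ k ∈ H0, a * k * a⁻¹ ∈ ((a • P : Sylow 2 _) : Subgroup (Equiv.Perm (Fin 8))) :=
    fun k hk => ⟨k, hP hk, rfl⟩
  rw [Subgroup.ne_bot_iff_exists_ne_one]
  refine ⟨⟨x * (a * h * a⁻¹) * x⁻¹, ?_, ⟨_, hm h h1, rfl⟩⟩, fun e => h2 ?_⟩
  · have := hm _ h3
    rwa [show a * (a⁻¹ * x * a * h * (a⁻¹ * x * a)⁻¹) * a⁻¹ = x * (a * h * a⁻¹) * x⁻¹ by group]
      at this
  · have : x * (a * h * a⁻¹) * x⁻¹ = 1 := congrArg Subtype.val e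
    simpa [mul_eq_one_iff_eq_inv] using this

end Cfsg.Agent.S5763
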