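import Cfsg.Statements.S5769
import Cfsg.Agent.H5.Ch.Elt

set_option autoImplicit false
open Cfsg

namespace Cfsg.Agent.S5769

/-- The Chevalley group of type E₇ over the field with two elements (generated by its root elements in the adjoint representation) has no subgroup isomorphic to any of PSL₂(64), PSp₄(8), PSL₄(8), PSU₄(8) or PSp₆(8). Here F₈ and F₆₄ denote fields with 8 and 64 elements. -/
theorem result {F₈ F₆₄ : Type*} [Field F₈] [Fintype F₈] (h8 : Fintype.card F₈ = 8) [Field F₆₄] [Fintype F₆₄] (h64 : Fintype.card F₆₄ = 64)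
    (H : Subgroup ↥(Cfsg.Lie.chevE7.group (ZMod 2))) :
    IsEmpty (↥H ≃* Matrix.ProjectiveSpecialLinearGroup (Fin 2) F₆₄) ∧ IsEmpty (↥H ≃* Cfsg.PSp 2 F₈) ∧
    IsEmpty (↥H ≃* Matrix.ProjectiveSpecialLinearGroup (Fin 4) F₈) ∧ IsEmpty (↥H ≃* Cfsg.PSU 4 F₆₄ 8) ∧ IsEmpty (↥H ≃* Cfsg.PSp 3 F₈) := by
----
  obtain φ := (FiniteField.ringEquivOfCardEq (H5.Ch.card_K8.trans h8.symm)).toRingHom
  obtain ψ := (FiniteField.ringEquivOfCardEq (H5.Ch.card_K64.trans h64.symm)).toRingHom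
  exact ⟨H5.Ch.noL2 H ψ, H5.Ch.noS4 H φ, H5.Ch.noL4 H φ, H5.Ch.noU4 H ψ, H5.Ch.noS6 H φ⟩

end Cfsg.Agent.S5769
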