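import Cfsg.Statements.S5777
import Cfsg.Agent.H6.T12

set_option autoImplicit false
open Cfsg

namespace Cfsg.Agent.S5777

/-- Maximal subgroups of SU_3(q) of geometric type, q ≥ 3. Let F be the field with q² elements, f the standard unitary form Σ u_i v_i^q on F^3, and SU_3(q) the determinant-one isometries of f. Each of the following, intersected with SU_3(q), is a maximal subgroup of SU_3(q): (1) the stabiliser of any non-zero subspace on which f vanishes identically (an isotropic 1-space); (2) the stabiliser of any non-degenerate 1-space; (3) for q ≠ 5, the stabiliser of any decomposition of F^3 into three mutually orthogonal non-degenerate 1-spaces; (4) for q ≠ 3, 5, the normaliser of any degree-3 subfield of the matrix algebra that is closed under taking adjoints for f; (5) every subfield group for a subfield F₀ of odd prime index r in F whose F₀-structure carries f; (6) for q odd with q ≥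 7, every subfield group for the subfield F₀ of index 2 whose F₀-structure carries f (the orthogonal type); (7) for q = p prime with p ≡ 2 mod 3 and p ≥ 11, the normaliser of any absolutely irreducible subgroup R of order 27 with centre of order 3, of exponent 3 with every characteristic abelian subgroup cyclic, contained in the similarity group of f. -/
theorem result {F : Type*} [Field F] [Fintype F] (q : ℕ) (hF : Fintype.card F = q ^ 2) (hq : 3 ≤ q) :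
    (∀ W : Submodule F (Fin 3 → F), W ≠ ⊥ → Cfsg.Geo.IsTotallySingularFor (Cfsg.hermForm 3 F q) W → Cfsg.Geo.IsMaximalIn (Cfsg.GU 3 F q ⊓ Cfsg.Geo.specialLinear (Fin 3) F) (Cfsg.Geo.subspaceStabilizer W ⊓ (Cfsg.GU 3 F q ⊓ Cfsg.Geo.specialLinear (Fin 3) F))) ∧
    (∀ W : Submodule F (Fin 3 → F), W ≠ ⊥ → Cfsg.Geo.IsNondegenerateOn (Cfsg.hermForm 3 F q) W → 2 * Module.finrank F W < 3 → Cfsg.Geo.IsMaximalIn (Cfsg.GU 3 F q ⊓ Cfsg.Geo.specialLinear (Fin 3) F) (Cfsg.Geo.subspaceStabilizer W ⊓ (Cfsg.GU 3 F q ⊓ Cfsg.Geo.specialLinear (Fin 3) F))) ∧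
    (q ≠ 5 → ∀ D : Fin 3 → Submodule F (Fin 3 → F), Cfsg.Geo.IsNondegenerateMDecomposition (Cfsg.hermForm 3 F q) 1 D → Cfsg.Geo.IsMaximalIn (Cfsg.GU 3 F q ⊓ Cfsg.Geo.specialLinear (Fin 3) F) (Cfsg.Geo.decompositionStabilizer D ⊓ (Cfsg.GU 3 F q ⊓ Cfsg.Geo.specialLinear (Fin 3) F))) ∧
    (q ≠ 3 → q ≠ 5 → ∀ K : Subalgebra F (Matrix (Fin 3) (Fin 3) F), Cfsg.Geo.IsFieldSubalgebra 3 K → Cfsg.Geo.IsAdjointClosedFor (Cfsg.hermForm 3 F q) K → Cfsg.Geo.IsMaximalIn (Cfsg.GU 3 F q ⊓ Cfsg.Geo.specialLinear (Fin 3) F) (Cfsg.Geo.subalgebraNormalizer K ⊓ (Cfsg.GU 3 F q ⊓ Cfsg.Geo.specialLinear (Fin 3) F))) ∧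
    (∀ (F₀ : Subfield F) (r : ℕ) (P : Matrix.GeneralLinearGroup (Fin 3) F), r.Prime → Odd r → Fintype.card F = Nat.card F₀ ^ r → Cfsg.Geo.IsFormRationalStructure (Cfsg.hermForm 3 F q) F₀ 1 P → Cfsg.Geo.IsMaximalIn (Cfsg.GU 3 F q ⊓ Cfsg.Geo.specialLinear (Fin 3) F) (Cfsg.Geo.subfieldSubgroup F₀ P ⊓ (Cfsg.GU 3 F q ⊓ Cfsg.Geo.specialLinear (Fin 3) F))) ∧
    (Odd q → 7 ≤ q → ∀ (F₀ : Subfield F) (P : Matrix.GeneralLinearGroup (Fin 3) F), Fintype.card F = Nat.card F₀ ^ 2 → Cfsg.Geo.IsFormRationalStructure (Cfsg.hermForm 3 F q) F₀ 1 P → Cfsg.Geo.IsMaximalIn (Cfsg.GU 3 F q ⊓ Cfsg.Geo.specialLinear (Fin 3) F) (Cfsg.Geo.subfieldSubgroup F₀ P ⊓ (Cfsg.GU 3 F q ⊓ Cfsg.Geo.specialLinear (Fin 3) F))) ∧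
    (∀ (p : ℕ) (R : Subgroup (Matrix.GeneralLinearGroup (Fin 3) F)), p.Prime → q = p → p % 3 = 2 → 11 ≤ p → Cfsg.Geo.IsSymplecticTypeGroup 3 R → Cfsg.Geo.ActsAbsolutelyIrreducibly (Cfsg.Geo.matrixSet R) → R ≤ Cfsg.Geo.similarityGroup (Cfsg.hermForm 3 F q) → Nat.card R = 27 → Nat.card (Subgroup.center R) = 3 → Cfsg.Geo.IsMaximalIn (Cfsg.GU 3 F q ⊓ Cfsg.Geo.specialLinear (Fin 3) F) (Cfsg.Geo.subgroupNormalizer R ⊓ (Cfsg.GU 3 F q ⊓ Cfsg.Geo.specialLinear (Fin 3) F))) := by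
  obtain ⟨p, n, hp, _, rfl⟩ := H6.M3.exists_pn hF
  haveI := Fact.mk hp
  let ι := algebraMap F (AlgebraicClosure F)
  refine ⟨fun W h1 h2 => H6.M3.su_iso p ι hF hq h1 h2, fun W h1 _ h2 => H6.M3.su_nd p ι hF hq h1 h2,
    fun h D hD => H6.M3.su_dec _ ι p hF hq h hD,
    fun h3 h5 K h1 h2 => H6.M3.su_singer ι p hF hq h3 h5 h1 h2,
    fun F₀ r P hr ho h hP => H6.M3.su_sub _ ι p hF hr ho h P hP,
    fun ho h7 F₀ P h hP => H6.M3.su_orth _ ι p hF ?_ h7 h P hP,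
    fun r R hr e h1 h2 hR ha hs _ _ => ?_⟩
  · rintro rfl
    exact Nat.not_even_iff_odd.2 ho (Nat.even_pow.2 ⟨even_two, by rintro rfl; simp at h7⟩)
  obtain rfl : n = 1 := (Nat.Prime.eq_one_of_pow (e ▸ hr))
  obtain rfl : p = r := (pow_one p).symm.trans e
  exact H6.M3.su_he ι p hF h1 h2 hR ha hs

end Cfsg.Agent.S5777
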