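import Cfsg.Statements.S5788
import Cfsg.Agent.O5.B8
import Cfsg.Agent.O5.G1
import Cfsg.Agent.O5.G4b
import Cfsg.Agent.O5.G7

set_option autoImplicit false
open Cfsg

namespace Cfsg.Agent.S5788


/-- The maximal subgroups of Sp_4(q), q odd, in the residual class. Let F be a finite field of odd order q and characteristic p, and H a maximal subgroup of Sp_4(F) (isometries of the standard alternating form on F^4) lying in the residual class of the symplectic case. Then the perfect socle preimage P of H satisfies one of: P modulo scalars is isomorphic to A_6 and q = p with p ≥ 5 and p ≠ 7; or P modulo scalars is isomorphic to A_7 and q = 7; or P modulo scalars is isomorphic to PSL_2(F) itself, with p ≥ 5 and q > 7. -/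
theorem result {F : Type*} [Field F] [Fintype F] (hodd : Odd (Fintype.card F)) (H : Subgroup (Matrix.GeneralLinearGroup (Fin 2 ⊕ Fin 2) F)) (hH : Cfsg.Geo.IsMaximalIn (Cfsg.spGL 2 F) H) (hS : Cfsg.Geo.InSymplecticResidualClass H) :
    ∃ (P : Subgroup (Matrix.GeneralLinearGroup (Fin 2 ⊕ Fin 2) F)) (p : ℕ), Cfsg.Geo.IsResidualCore H P ∧ p.Prime ∧ CharP F p ∧
    ((Nonempty ((P ⧸ (Cfsg.Geo.scalars (Fin 2 ⊕ Fin 2) F).subgroupOf P) ≃* alternatingGroup (Fin 6)) ∧ Fintype.card F = p ∧ 5 ≤ p ∧ p ≠ 7) ∨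
     (Nonempty ((P ⧸ (Cfsg.Geo.scalars (Fin 2 ⊕ Fin 2) F).subgroupOf P) ≃* alternatingGroup (Fin 7)) ∧ Fintype.card F = 7) ∨
     (Nonempty ((P ⧸ (Cfsg.Geo.scalars (Fin 2 ⊕ Fin 2) F).subgroupOf P) ≃* Matrix.ProjectiveSpecialLinearGroup (Fin 2) F) ∧ 5 ≤ p ∧ 7 < Fintype.card F)) := by
  obtain ⟨P, hc, -⟩ := hS
  obtain ⟨p, hp⟩ := CharP.exists F
  have pp := CharP.char_is_prime F p
  have h2 : p ≠ 2 := by
    rintro rfl
    exact H7.two_ne_zero_of_odd_card hodd (by exact_mod_cast CharP.cast_eq_zero F 2)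
  obtain ⟨⟨ρ, N, h⟩, G, st, nl, ⟨e⟩⟩ := O5.exists_cx hc hH pp h2
  have := hc.simple
  refine ⟨P, p, hc, pp, hp, ?_⟩
  rcases O5.caseB' st nl with c | ⟨⟨a⟩⟩ | ⟨⟨a⟩⟩ | ⟨E, _, _, _, h5, ⟨a⟩⟩
  · exact (h.no60 (by rw [← c, Nat.card_congr e.toEquiv])).elim
  · exact Or.inl ⟨⟨e.trans a⟩, h.a6 (e.trans a)⟩
  · exact Or.inr (Or.inl ⟨⟨e.trans a⟩, h.a7 (e.trans a)⟩)
  have k := h.psl (by omega) (e.trans a)
  obtain ⟨b⟩ := O5.psl_congr k
  refine Or.inr (Or.inr ⟨⟨(e.trans a).trans b⟩, h5, ?_⟩)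
  have k1 := h.p_le
  have k2 := O5.card_psl (E := F) (by omega) hodd
  rw [← Nat.card_congr ((e.trans a).trans b).toEquiv] at k2
  by_contra! c
  obtain ⟨m, hm⟩ := hodd
  rcases (by omega : Fintype.card F = 5 ∨ Fintype.card F = 7) with c | c <;> rw [c] at k2
  · exact h.no60 (by omega)
  · exact h.no168 c (by omega)

end Cfsg.Agent.S5788
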