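import Cfsg.Statements.S5883
import Cfsg.Agent.H9.FiMain

set_option autoImplicit false
open Cfsg

namespace Cfsg.Agent.S5883

/-- The constant 10 in the statement that H⁽¹⁰⁾ is perfect for every maximal subgroup H of a finite almost simple group cannot be lowered to 9: there exist a finite almost simple group G (with a non-abelian simple normal subgroup of trivial centralizer) and a maximal subgroup H of G whose ninth derived subgroup H⁽⁹⁾ is not perfect, i.e. H⁽¹⁰⁾ ≠ H⁽⁹⁾. (A solvable maximal subgroup of derived length 10 in the Fischer group Fi₂₃ is such an example.) -/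
theorem result :
    ∃ (G : Type) (_ : Group G) (_ : Finite G) (S H : Subgroup G), S.Normal ∧ IsSimpleGroup S ∧ ¬ IsMulCommutative S ∧
      Subgroup.centralizer (S : Set G) = ⊥ ∧ IsCoatom H ∧ derivedSeries H 10 ≠ derivedSeries H 9 := by
  have := Cfsg.Agent.H9.Fi.isSimpleGroup_GG
  refine ⟨Cfsg.Agent.H9.Fi.GG, inferInstance, inferInstance, ⊤, Cfsg.Agent.H9.Fi.HH, inferInstance,
    Subgroup.topEquiv.isSimpleGroup, fun h => Cfsg.Agent.H9.Fi.not_comm ?_, ?_,
    Cfsg.Agent.H9.Fi.isCoatom_HH, Cfsg.Agent.H9.Fi.derived_ne⟩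
  · exact congrArg Subtype.val (h.is_comm.comm (⟨_, trivial⟩ : (⊤ : Subgroup _)) ⟨_, trivial⟩)
  · rw [Subgroup.coe_top, Subgroup.centralizer_univ, Cfsg.Agent.H9.Fi.center_GG]

end Cfsg.Agent.S5883
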