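import Cfsg.Statements.S5885


set_option autoImplicit false
open Cfsg

namespace Cfsg.Agent.S5885

/-- Let n be an odd positive integer such that every primitive permutation group of degree n contains the alternating group (so the symmetric and alternating groups are the only primitive groups of degree n). Let G be a finite group, M a maximal subgroup of G of index n, and H a maximal subgroup of M. Then H is a second maximal subgroup of G: H is maximal in every maximal subgroup K of G containing H. -/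
theorem result {G : Type*} [Group G]
    [Finite G] (n : ℕ) (hodd : Odd n)
    (hA : ∀ P : Subgroup (Equiv.Perm (Fin n)), MulAction.IsPreprimitive P (Fin n) → alternatingGroup (Fin n) ≤ P)
    (M : Subgroup G) (hM : IsCoatom M) (hn : M.index = n) (H : Subgroup G) (hHM : H ≤ M)
    (hmax : IsCoatom (H.subgroupOf M)) (K : Subgroup G) (hK : IsCoatom K) (hHK : H ≤ K) :
    IsCoatom (H.subgroupOf K) := by
  classical
  open MulAction Pointwise in
  have hnt : Nontrivial (G ⧸ M) := by
    rw [← Finite.one_lt_card_iff_nontrivial]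
    exact Subgroup.one_lt_index_of_ne_top hM.1
  let a : G ⧸ M := ((1 : G) : G ⧸ M)
  have hstab : stabilizer G a = M := stabilizer_quotient M
  have hmemM : ∀ g : G, g ∈ M ↔ g • a = a := fun g => by rw [← mem_stabilizer_iff, hstab]
  have hprim : IsPreprimitive G (G ⧸ M) := by
    rw [← isCoatom_stabilizer_iff_preprimitive G a, hstab]; exact hM
  have hcard : Nat.card (G ⧸ M) = n := hn
  have h3 : ∀ c c' e : G ⧸ M, c ≠ c' → c ≠ e → c' ≠ e →
      ∃ g : G, g • c = c' ∧ g • c' = e ∧ ∀ x, x ≠ c → x ≠ c' → x ≠ e → g • x = x := by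
    intro c c' e h1 h2 h3
    let ε : G ⧸ M ≃ Fin n := Finite.equivFinOfCardEq hcard
    let ψ : G →* Equiv.Perm (Fin n) := ε.permCongrHom.toMonoidHom.comp (toPermHom G (G ⧸ M))
    have hψ : ∀ (g : G) (x : G ⧸ M), ψ g (ε x) = ε (g • x) := fun g x => by
      simp [ψ]
    let f : (G ⧸ M) →ₑ[ψ.rangeRestrict] Fin n :=
      { toFun := ε
        map_smul' := fun g x => (hψ g x).symm }
    have hP : IsPreprimitive ψ.range (Fin n) := IsPreprimitive.of_surjective (f := f) ε.surjective
    have hσ : Equiv.swap (ε c) (ε e) * Equiv.swap (ε c) (ε c') ∈ alternatingGroup (Fin n) := by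
      rw [Equiv.Perm.mem_alternatingGroup, Equiv.Perm.sign_mul,
        Equiv.Perm.sign_swap (ε.injective.ne h2), Equiv.Perm.sign_swap (ε.injective.ne h1)]
      rfl
    obtain ⟨g, hg⟩ := hA _ hP hσ
    refine ⟨g, ε.injective ?_, ε.injective ?_, fun x x1 x2 x3 => ε.injective ?_⟩
    · rw [← hψ, hg, Equiv.Perm.mul_apply, Equiv.swap_apply_left,
        Equiv.swap_apply_of_ne_of_ne (ε.injective.ne h1.symm) (ε.injective.ne h3)]
    · rw [← hψ, hg, Equiv.Perm.mul_apply, Equiv.swap_apply_right, Equiv.swap_apply_left]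
    · rw [← hψ, hg, Equiv.Perm.mul_apply,
        Equiv.swap_apply_of_ne_of_ne (ε.injective.ne x1) (ε.injective.ne x2),
        Equiv.swap_apply_of_ne_of_ne (ε.injective.ne x1) (ε.injective.ne x3)]
  have hHmax : ∀ L : Subgroup G, H ≤ L → M ≤ L ∨ ∀ g ∈ M, g ∈ L → g ∈ H := by
    intro L hL
    rcases (Subgroup.subgroupOf_mono M hL).eq_or_lt with h | h
    · right
      intro g hg hgL
      have : (⟨g, hg⟩ : M) ∈ L.subgroupOf M := hgL
      rw [← h] at this
      exact this
    · left
      exact Subgroup.subgroupOf_eq_top.mp (hmax.2 _ h)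
  by_cases hKM : K = M
  · rw [hKM]; exact hmax
  have hKMH : ∀ g ∈ M, g ∈ K → g ∈ H := by
    refine (hHmax K hHK).resolve_left fun h => hKM ?_
    exact (hM.le_iff.mp h).resolve_left hK.1
  constructor
  · intro h
    apply hKM
    exact ((hK.le_iff.mp ((Subgroup.subgroupOf_eq_top.mp h).trans hHM)).resolve_left hM.1).symm
  intro X hX
  by_contra hXtop
  obtain ⟨k, hk⟩ : ∃ k : K, k ∉ X := by
    by_contra h
    push Not at h
    exact hXtop (eq_top_iff.mpr fun k _ => h k)
  obtain ⟨u, huX, huH⟩ := SetLike.exists_of_lt hX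
  have huM : (u : G) • a ≠ a := fun h => huH (hKMH u ((hmemM _).mpr h) u.2)
  set B : Set (G ⧸ M) := orbit X a with hB
  have haB : a ∈ B := mem_orbit_self a
  have hXB : ∀ v ∈ X, ∀ x ∈ B, (v : G) • x ∈ B := by
    rintro v hv _ ⟨w, rfl⟩
    exact ⟨⟨v, hv⟩ * w, mul_smul _ _ _⟩
  have hblock : ∀ v : K, ∀ x ∈ B, (v : G) • x ∈ B → v ∈ X := by
    rintro v _ ⟨w, rfl⟩ ⟨w', hw'⟩
    have h1 : ((w' : K)⁻¹ * v * (w : K) : K) ∈ H.subgroupOf K := by
      refine hKMH _ ((hmemM (((w' : K)⁻¹ * v * (w : K) : K) : G)).mpr ?_)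
        ((w' : K)⁻¹ * v * (w : K) : K).2
      rw [Subgroup.coe_mul, Subgroup.coe_mul, mul_smul, mul_smul, Subgroup.coe_inv,
        inv_smul_eq_iff]
      exact hw'.symm
    have h2 := hX.le h1
    rwa [X.mul_mem_cancel_right w.2, X.mul_mem_cancel_left (X.inv_mem w'.2)] at h2
  have hXS : ∀ v ∈ X, (v : G) ∈ stabilizer G B := by
    intro v hv
    exact smul_orbit (⟨v, hv⟩ : X) a
  have hS : ∀ g ∈ M, g ∈ stabilizer G B → g ∈ H := by
    refine (hHmax (stabilizer G B) fun h hh => hXS ⟨h, hHK hh⟩ (hX.le hh)).resolve_left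
      fun h => ?_
    rcases hM.le_iff.mp h with h1 | h1
    · apply hk
      apply hblock k a haB
      have : (k : G) ∈ stabilizer G B := h1 ▸ Subgroup.mem_top _
      rw [← mem_stabilizer_iff.mp this]
      exact Set.smul_mem_smul_set haB
    · exact huM ((hmemM _).mp (h1 ▸ hXS u huX))
  have hdisj : ∀ x ∈ B, (k : G) • x ∉ B := fun x hx h => hk (hblock k x hx h)
  obtain ⟨e, he1, he2⟩ : ∃ e, e ∉ B ∧ e ∉ (k : G) • B := by
    by_contra h
    push Not at h
    have h1 : B ∪ (k : G) • B = Set.univ := by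
      rw [Set.eq_univ_iff_forall]
      intro e
      by_cases he : e ∈ B
      · exact Or.inl he
      · exact Or.inr (h e he)
    have h2 : Disjoint B ((k : G) • B) := by
      rw [Set.disjoint_right]
      rintro _ ⟨x, hx, rfl⟩
      exact hdisj x hx
    have h4 := Set.ncard_union_eq h2
    rw [h1, Set.ncard_univ, hcard, Set.ncard_smul_set] at h4
    obtain ⟨m, hm⟩ := hodd
    omega
  have huB : (u : G) • a ∈ B := hXB u huX a haB
  obtain ⟨g, g1, g2, g3⟩ := h3 ((k : G) • a) ((k : G) • (u : G) • a) e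
    (by rw [Ne, smul_left_cancel_iff]; exact huM.symm)
    (fun h => he2 (h ▸ Set.smul_mem_smul_set haB))
    (fun h => he2 (h ▸ Set.smul_mem_smul_set huB))
  have hgB : ∀ x ∈ B, g • x = x := fun x hx => g3 x (fun h => hdisj a haB (h ▸ hx))
    (fun h => hdisj _ huB (h ▸ hx)) (fun h => he1 (h ▸ hx))
  have hgH : g ∈ H := hS g ((hmemM g).mpr (hgB a haB)) (by
    rw [mem_stabilizer_iff]
    ext x
    constructor
    · rintro ⟨y, hy, rfl⟩
      simp only [hgB y hy, hy]
    · intro hx
      exact ⟨x, hx, hgB x hx⟩)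
  have h5 : k⁻¹ * ⟨g, hHK hgH⟩ * k ∈ X := hblock _ a haB (by
    rw [Subgroup.coe_mul, Subgroup.coe_mul, mul_smul, mul_smul, g1, Subgroup.coe_inv,
      inv_smul_smul]
    exact huB)
  have h6 := hXB _ h5 _ huB
  rw [Subgroup.coe_mul, Subgroup.coe_mul, mul_smul, mul_smul, g2, Subgroup.coe_inv] at h6
  exact he2 (Set.mem_smul_set_iff_inv_smul_mem.mpr h6)

end Cfsg.Agent.S5885
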