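import Cfsg.Statements.S5887
import Cfsg.Agent.H7.FieldTv

set_option autoImplicit false
open Cfsg

namespace Cfsg.Agent.S5887

/-- Let F be a finite field, n a positive integer and r a composite number (r > 1, not prime) that divides n with r < n. Let K be a subalgebra of the algebra of n × n matrices over F which is a field of degree r over F (commutative, every non-zero element invertible, of dimension r over F). Then the normaliser N of K in GL_n(F) (a group of type ΓL_{n/r}(F_{q^r})) is not a maximal subgroup of GL_n(F), and N ∩ SL_n(F) is not a maximal subgroup of SL_n(F): both lie properly inside the normaliser of an intermediate subfield of prime degree over F. -/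
theorem result {F : Type*} [Field F]
    [Fintype F] (n r : ℕ) (hr1 : 1 < r) (hrp : ¬ r.Prime) (hrn : r ∣ n) (hlt : r < n)
    (K : Subalgebra F (Matrix (Fin n) (Fin n) F)) (hK : Cfsg.Geo.IsFieldSubalgebra r K) :
    ¬ IsCoatom (Cfsg.Geo.subalgebraNormalizer K) ∧
      ¬ Cfsg.Geo.IsMaximalIn (Cfsg.Geo.specialLinear (Fin n) F)
        (Cfsg.Geo.subalgebraNormalizer K ⊓ Cfsg.Geo.specialLinear (Fin n) F) := by
  obtain ⟨M, hle, ⟨g, hg, hg1, hg2⟩, g', hg1', hg2'⟩ :=
    H7.exists_between_field hr1 hrp (by simpa using hlt) hK
  refine ⟨fun h => hg2' ?_, fun h => ?_⟩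
  · rw [h.2 M (lt_of_le_of_ne hle fun h => hg2 (h ▸ hg))]
    trivial
  · rcases h.2 (M ⊓ _) (inf_le_inf_right _ hle) inf_le_right with h | h
    · exact hg2 (h.le ⟨hg, hg1⟩).1
    · exact hg2' (h.ge hg1').1

end Cfsg.Agent.S5887
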