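import Cfsg.Statements.S5890
import Cfsg.Agent.H6.Max

set_option autoImplicit false
open Cfsg

namespace Cfsg.Agent.S5890

open Cfsg.Agent.H6 Cfsg.Agent.H6.Pg


/-- Let F be a finite field with q ≥ 4 elements, let L ≤ PGL₂(F) be the image of SL₂(F) (a copy of PSL₂(F), of index gcd(2, q − 1)), and let M be a maximal subgroup of PGL₂(F) that does not contain L. Suppose q ∉ {7, 9, 11} and that q is not a prime congruent to ±11 or ±19 modulo 40. Then M ∩ L is a maximal subgroup of L. (For the excluded q there are maximal subgroups of PGL₂(q) — dihedral groups of order 12 and 16 at q = 7, of order 20 and 16 at q = 9, of order 20 at q = 11, and S₄ at the excluded primes — whose intersection with L is not maximal in L.) -/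
theorem result {F : Type*} [Field F]
    [Fintype F] (h4 : 4 ≤ Fintype.card F) (h7 : Fintype.card F ≠ 7) (h9 : Fintype.card F ≠ 9) (h11 : Fintype.card F ≠ 11)
    (h40 : (Fintype.card F).Prime → Fintype.card F % 40 ∉ ({11, 19, 21, 29} : Finset ℕ))
    (M : Subgroup (Matrix.ProjGenLinGroup (Fin 2) F)) (hM : IsCoatom M)
    (hML : ¬ (Matrix.ProjGenLinGroup.mk.comp Matrix.SpecialLinearGroup.toGL).range ≤ M) :
    IsCoatom ((M ⊓ (Matrix.ProjGenLinGroup.mk.comp Matrix.SpecialLinearGroup.toGL).range).subgroupOf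
      (Matrix.ProjGenLinGroup.mk.comp Matrix.SpecialLinearGroup.toGL).range) := by
  simp only [← Nat.card_eq_fintype_card] at h4 h7 h9 h11 h40
  rw [isCoatom_iff_map _ (Subgroup.subtype_injective _), Subgroup.subgroupOf_map_subtype,
    Subgroup.range_subtype, inf_assoc, inf_idem]
  change M ⊓ S F ⋖ S F
  have hM' := covBy_top_iff.2 hM
  by_cases hodd : Odd (Nat.card F)
  swap
  · rwa [S_eq_top hodd, inf_top_eq]
  obtain ⟨p, _⟩ := CharP.exists F
  have hp := Fact.mk (CharP.char_is_prime F p)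
  have h3 : 3 ≤ Nat.card F := by omega
  have hε := card_S h3 hodd
  have hε' : 1 * Nat.card (⊤ : Subgroup (Matrix.ProjGenLinGroup (Fin 2) F)) = _ :=
    (one_mul _).trans (card_top h3)
  have hnS : ¬ M ≤ S F := fun h =>
    hML ((hM'.eq_or_eq h le_top).resolve_right (S_ne_top hodd)).le
  obtain ⟨k, hk⟩ := id hodd
  rcases classify p le_top h3 hM' hML with ⟨x, rfl⟩ | ⟨x, y, hxy, rfl⟩ |
    ⟨y, y', a, b, c, d, rfl⟩ | ⟨-, -, e⟩ | ⟨a, h5, e⟩ | ⟨-, -, -, e⟩ | ⟨h, L, r, hr, a, b, c⟩
  · rw [top_inf_eq, inf_comm]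
    exact covBy_point le_rfl h3 x
  · rw [top_inf_eq, inf_comm]
    obtain ⟨s, hs, s1, s2⟩ := exists_two le_rfl h3 hxy hxy.symm
    have := eps_two le_rfl h3 hε hxy
    have h5 : Nat.card F ≠ 5 := fun h => not_two_top h hxy hM'
    exact covBy_pair p (rat_inj.ne.2 hxy) hs s1 s2 rfl (Or.inl (by omega))
  · rw [top_inf_eq, inf_comm]
    have b' : S F ⊓ MulAction.stabilizer _ y ≠ ⊥ := fun e => by
      have h1 := eps_out le_top h3 hε' a b d
      obtain ⟨⟨r, r0⟩, hr⟩ := ((mobF F p).cyc y y' c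
        (⊤ ⊓ (MulAction.stabilizer _ y ⊓ MulAction.stabilizer _ y')) inferInstance
        (inf_le_right.trans inf_le_left) (inf_le_right.trans inf_le_right)).exists_ofOrder_eq_natCard
      rw [Subgroup.orderOf_mk] at hr
      exact pow_ne_one_of_lt_orderOf (x := r) two_ne_zero (by omega)
        ((pow_two r).trans (e.le ⟨sq_mem_S r, (MulAction.stabilizer _ y).mul_mem r0.2.1 r0.2.1⟩))
    have d' : S F ⊓ MulAction.stabilizer _ y ≤ MulAction.stabilizer _ y' :=
      (inf_le_inf_right _ le_top).trans d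
    obtain ⟨s, hs, s1, s2⟩ := swap_out le_rfl h3 a b' c d'
    have := eps_out le_rfl h3 hε a b' d'
    exact covBy_pair p c hs s1 s2 rfl (by omega)
  · exact absurd (A4_le_S e) hnS
  · have h8 : p % 8 = 3 ∨ p % 8 = 5 := by
      by_contra hc
      exact hnS (S4_le_S (FF.two_ne_zero hodd) (FF.isSquare_two_iff.2 (by omega)) e)
    have := h40 (a ▸ hp.1)
    simp only [Finset.mem_insert, Finset.mem_singleton] at this
    obtain ⟨f, hf, rfl⟩ := exists_hom e
    have hA := s4d.map f hf
    exact (covBy_of inf_le_right (fun h => hML (h.trans inf_le_left)) fun N hN hN' =>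
      A4_or p a h8 (by omega) hA (hN ⟨⟨_, rfl⟩, hA.mem_S.1⟩) (hN ⟨⟨_, rfl⟩, mem_S_of_cube (by
        rw [← map_pow, show s4b ^ 3 = 1 by decide, map_one])⟩) hN').1
  · exact absurd (A5_le_S e) hnS
  · rw [← cj_covBy (h := h), cj_inf, cj_eq le_rfl, c, inf_top_eq]
    exact covBy_subfield hr a b

end Cfsg.Agent.S5890
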