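import Cfsg.Statements.S5891
import Cfsg.Agent.H6.Max

set_option autoImplicit false
open Cfsg

namespace Cfsg.Agent.S5891

open Cfsg.Agent.H6 Cfsg.Agent.H6.Pg


/-- Let F be a finite field of odd order q > 3 and characteristic p, and let M be a maximal subgroup of PGL₂(F) not containing the image L of SL₂(F) (a copy of PSL₂(F) of index 2). Then one of the following holds: |M| = q(q − 1) (M is the stabiliser of a point of the projective line); q ≠ 5 and M is dihedral of order 2(q − 1); M is dihedral of order 2(q + 1); q = p ≡ ±3 (mod 8) and M ≅ S₄; or q = q₀^r for an odd prime r and M ≅ PGL₂(F₀) with |F₀| = q₀. -/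
theorem result {F : Type*} [Field F] [Fintype F]
    (hodd : Odd (Fintype.card F)) (h3 : 3 < Fintype.card F) (M : Subgroup (Matrix.ProjGenLinGroup (Fin 2) F)) (hM : IsCoatom M)
    (hML : ¬ (Matrix.ProjGenLinGroup.mk.comp Matrix.SpecialLinearGroup.toGL).range ≤ M) :
    Nat.card M = Fintype.card F * (Fintype.card F - 1) ∨
    (Fintype.card F ≠ 5 ∧ Nonempty (M ≃* DihedralGroup (Fintype.card F - 1))) ∨
    Nonempty (M ≃* DihedralGroup (Fintype.card F + 1)) ∨
    ((Fintype.card F).Prime ∧ (Fintype.card F % 8 = 3 ∨ Fintype.card F % 8 = 5) ∧ Nonempty (M ≃* Equiv.Perm (Fin 4))) ∨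
    (∃ (F₀ : Type) (_ : Field F₀) (_ : Fintype F₀) (r : ℕ), r.Prime ∧ Odd r ∧ Fintype.card F = Fintype.card F₀ ^ r ∧
        Nonempty (M ≃* Matrix.ProjGenLinGroup (Fin 2) F₀)) := by
  simp only [← Nat.card_eq_fintype_card] at hodd h3 ⊢
  obtain ⟨p, _⟩ := CharP.exists F
  have hp := Fact.mk (CharP.char_is_prime F p)
  have hM' := covBy_top_iff.2 hM
  have hε : 1 * Nat.card (⊤ : Subgroup (Matrix.ProjGenLinGroup (Fin 2) F)) = _ :=
    (one_mul _).trans (card_top h3.le)
  have hnS : ¬ M ≤ S F := fun h =>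
    hML ((hM'.eq_or_eq h le_top).resolve_right (S_ne_top hodd)).le
  rcases classify p le_top h3.le hM' hML with ⟨x, rfl⟩ | ⟨x, y, hxy, rfl⟩ |
    ⟨y, y', a, b, c, d, rfl⟩ | ⟨-, -, e⟩ | ⟨a, -, e⟩ | ⟨-, -, -, e⟩ | ⟨h, L, r, hr, a, b, c⟩
  · exact Or.inl ((one_mul _).symm.trans (eps_point le_top hε x))
  · obtain ⟨k, hk, e⟩ := dihedral_two le_top h3.le hε hxy
    rw [one_mul] at hk
    exact Or.inr (Or.inl ⟨fun h => not_two_top h hxy hM', by rwa [← Nat.card_eq_fintype_card, ← hk]⟩)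
  · obtain ⟨k, hk, e⟩ := dihedral_out le_top h3.le hε a b c d
    rw [one_mul] at hk
    exact Or.inr (Or.inr (Or.inl (by rwa [← Nat.card_eq_fintype_card, ← hk])))
  · exact absurd (A4_le_S e) hnS
  · refine Or.inr (Or.inr (Or.inr (Or.inl ⟨a ▸ hp.1, ?_, e⟩)))
    by_contra hc
    exact hnS (S4_le_S (FF.two_ne_zero hodd) (FF.isSquare_two_iff.2 (by omega)) e)
  · exact absurd (A5_le_S e) hnS
  · rw [inf_top_eq] at c
    obtain ⟨K, _, _, f, rfl, hf⟩ := FF.exists_model L
    refine Or.inr (Or.inr (Or.inr (Or.inr ⟨K, inferInstance, inferInstance, r, hr,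
      hr.odd_of_ne_two ?_, by rwa [Nat.card_eq_fintype_card (α := K), hf],
      trans_equiv ⟨cjEquiv h M⟩ (c ▸ equiv_PG f)⟩)))
    rintro rfl
    exact hnS (cj_le_cj.1 ((c.le.trans (PG_le_S a)).trans (cj_eq le_rfl h).ge))

end Cfsg.Agent.S5891
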