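import Cfsg.Statements.S5892
import Cfsg.Agent.H6.Max

set_option autoImplicit false
open Cfsg

namespace Cfsg.Agent.S5892

open Cfsg.Agent.H6 Cfsg.Agent.H6.Pg


/-- Let F be a finite field of odd order q ≥ 5 and characteristic p, and let M be a maximal subgroup of PSL₂(F). Then one of the following holds: |M| = q(q − 1)/2 (the stabiliser of a point of the projective line); q ≥ 13 and M is dihedral of order q − 1; q ∉ {7, 9} and M is dihedral of order q + 1; q = q₀² and M ≅ PGL₂(F₀) with |F₀| = q₀; q = q₀^r for an odd prime r and M ≅ PSL₂(F₀) with |F₀| = q₀; q ≡ ±1 (mod 10) with q = p or q = p², p ≡ ±3 (mod 10), and M ≅ A₅; q = p ≡ ±3 (mod 8), q ≢ ±1 (mod 10), and M ≅ A₄; or q = p ≡ ±1 (mod 8) and M ≅ S₄. -/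
theorem result {F : Type*} [Field F] [Fintype F] (p : ℕ)
    [Fact p.Prime] [CharP F p] (hodd : Odd (Fintype.card F)) (h5 : 5 ≤ Fintype.card F)
    (M : Subgroup (Matrix.ProjectiveSpecialLinearGroup (Fin 2) F)) (hM : IsCoatom M) :
    2 * Nat.card M = Fintype.card F * (Fintype.card F - 1) ∨
    (13 ≤ Fintype.card F ∧ (∃ k : ℕ, 2 * k = Fintype.card F - 1 ∧ Nonempty (M ≃* DihedralGroup k))) ∨
    (Fintype.card F ≠ 7 ∧ Fintype.card F ≠ 9 ∧ (∃ k : ℕ, 2 * k = Fintype.card F + 1 ∧ Nonempty (M ≃* DihedralGroup k))) ∨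
    (∃ (F₀ : Type) (_ : Field F₀) (_ : Fintype F₀), Fintype.card F = Fintype.card F₀ ^ 2 ∧
        Nonempty (M ≃* Matrix.ProjGenLinGroup (Fin 2) F₀)) ∨
    (∃ (F₀ : Type) (_ : Field F₀) (_ : Fintype F₀) (r : ℕ), r.Prime ∧ Odd r ∧ Fintype.card F = Fintype.card F₀ ^ r ∧
        Nonempty (M ≃* Matrix.ProjectiveSpecialLinearGroup (Fin 2) F₀)) ∨
    ((Fintype.card F % 10 = 1 ∨ Fintype.card F % 10 = 9) ∧
        (Fintype.card F = p ∨ (Fintype.card F = p ^ 2 ∧ (p % 10 = 3 ∨ p % 10 = 7))) ∧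
        Nonempty (M ≃* alternatingGroup (Fin 5))) ∨
    (Fintype.card F = p ∧ (p % 8 = 3 ∨ p % 8 = 5) ∧ ¬ (p % 10 = 1 ∨ p % 10 = 9) ∧
        Nonempty (M ≃* alternatingGroup (Fin 4))) ∨
    (Fintype.card F = p ∧ (p % 8 = 1 ∨ p % 8 = 7) ∧ Nonempty (M ≃* Equiv.Perm (Fin 4))) := by
  simp only [← Nat.card_eq_fintype_card] at hodd h5 ⊢
  have hM' := (psl_coatom_iff M).1 hM
  have e0 := psl_equiv M
  have h3 : 3 ≤ Nat.card F := by omega
  have hε := card_S h3 hodd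
  rw [card_of_equiv e0]
  generalize M.map Matrix.ProjectiveSpecialLinearGroup.toPGL = N at hM' e0
  rcases classify p le_rfl h3 hM' hM'.lt.not_ge with ⟨x, rfl⟩ | ⟨x, y, hxy, rfl⟩ |
    ⟨y, y', a, b, c, d, rfl⟩ | ⟨a, -, e⟩ | ⟨a, -, e⟩ | ⟨a, b, c, e⟩ | ⟨h, L, r, hr, a, b, c⟩
  · exact Or.inl (eps_point le_rfl hε x)
  · obtain ⟨k, hk, e⟩ := dihedral_two le_rfl h3 hε hxy
    exact Or.inr (Or.inl ⟨not_lt.1 fun h => not_two_S hodd h5 h hxy hM', k, hk, trans_equiv e0 e⟩)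
  · obtain ⟨k, hk, e⟩ := dihedral_out le_rfl h3 hε a b c d
    exact Or.inr (Or.inr (Or.inl ⟨fun h => not_out_S (Or.inl h) a b c d hM',
      fun h => not_out_S (Or.inr h) a b c d hM', k, hk, trans_equiv e0 e⟩))
  · obtain ⟨h1, h2⟩ := A4_cond hodd h5 hM' e
    exact Or.inr (Or.inr (Or.inr (Or.inr (Or.inr (Or.inr (Or.inl
      ⟨a, a ▸ h1, a ▸ h2, trans_equiv e0 e⟩))))))
  · obtain ⟨g, hg, h4⟩ := exists_four e
    have := FF.isSquare_two_iff.1 ((mem_S_iff_of_four (FF.two_ne_zero hodd) h4).1 (hM'.le hg))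
    obtain ⟨k, hk⟩ := hodd
    exact Or.inr (Or.inr (Or.inr (Or.inr (Or.inr (Or.inr (Or.inr
      ⟨a, by omega, trans_equiv e0 e⟩))))))
  · have h1 := five_dvd p a hM'.le e
    have h2 := (Nat.prime_dvd_prime_iff_eq Nat.prime_five (Fact.out : p.Prime)).not.2 b.symm
    obtain ⟨k, hk⟩ := hodd
    obtain ⟨j, hj⟩ := (Fact.out : p.Prime).odd_of_ne_two a
    rw [Nat.prime_five.dvd_mul, Nat.prime_five.dvd_mul] at h1
    refine Or.inr (Or.inr (Or.inr (Or.inr (Or.inr (Or.inl ⟨?_, c.imp_right fun c => ⟨c.1, ?_⟩,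
      trans_equiv e0 e⟩)))))
    · have : ¬ 5 ∣ Nat.card F := by
        rcases c with c | ⟨c, -⟩ <;> rw [c]
        exacts [h2, fun h => h2 (Nat.prime_five.dvd_of_dvd_pow h)]
      omega
    · have := c.2
      rw [Nat.prime_five.dvd_mul, Nat.prime_five.dvd_mul] at this
      omega
  · obtain ⟨K, _, _, f, rfl, hf⟩ := FF.exists_model L
    have e1 := trans_equiv e0 ⟨cjEquiv h N⟩
    rcases hr.eq_two_or_odd' with rfl | ho
    · rw [inf_of_le_left (PG_le_S a)] at c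
      exact Or.inr (Or.inr (Or.inr (Or.inl ⟨K, inferInstance, inferInstance,
        by rwa [Nat.card_eq_fintype_card (α := K), hf], trans_equiv e1 (c ▸ equiv_PG f)⟩)))
    · rw [PG_inf_S ho a] at c
      exact Or.inr (Or.inr (Or.inr (Or.inr (Or.inl ⟨K, inferInstance, inferInstance, r, hr, ho,
        by rwa [Nat.card_eq_fintype_card (α := K), hf], trans_equiv e1 (c ▸ equiv_PS f)⟩))))

end Cfsg.Agent.S5892
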