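import Cfsg.Statements.S5893
import Cfsg.Agent.H6.Max

set_option autoImplicit false
open Cfsg

namespace Cfsg.Agent.S5893

open Cfsg.Agent.H6 Cfsg.Agent.H6.Pg


/-- Let F be a finite field of even order q ≥ 4 and let M be a maximal subgroup of PSL₂(F) (= SL₂(F) = PGL₂(F)). Then one of the following holds: |M| = q(q − 1) (the stabiliser of a point of the projective line, elementary abelian of order q extended by a cyclic group of order q − 1); M is dihedral of order 2(q − 1); M is dihedral of order 2(q + 1); or q = q₀^r for a prime r with q₀ ≠ 2 and M ≅ PSL₂(F₀) with |F₀| = q₀. -/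
theorem result {F : Type*} [Field F] [Fintype F]
    (heven : Even (Fintype.card F)) (h4 : 4 ≤ Fintype.card F) (M : Subgroup (Matrix.ProjectiveSpecialLinearGroup (Fin 2) F)) (hM : IsCoatom M) :
    Nat.card M = Fintype.card F * (Fintype.card F - 1) ∨
    Nonempty (M ≃* DihedralGroup (Fintype.card F - 1)) ∨
    Nonempty (M ≃* DihedralGroup (Fintype.card F + 1)) ∨
    (∃ (F₀ : Type) (_ : Field F₀) (_ : Fintype F₀) (r : ℕ), r.Prime ∧ Fintype.card F₀ ≠ 2 ∧
        Fintype.card F = Fintype.card F₀ ^ r ∧ Nonempty (M ≃* Matrix.ProjectiveSpecialLinearGroup (Fin 2) F₀)) := by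
  simp only [← Nat.card_eq_fintype_card] at heven h4 ⊢
  obtain ⟨p, _⟩ := CharP.exists F
  have hp := Fact.mk (CharP.char_is_prime F p)
  have ho := Nat.not_odd_iff_even.2 heven
  have hp2 : p = 2 := not_not.1 ((FF.odd_iff p).not.1 ho)
  have hM' := (psl_coatom_iff M).1 hM
  have e0 := psl_equiv M
  have h3 : 3 ≤ Nat.card F := by omega
  have hε : 1 * Nat.card (S F) = (Nat.card F + 1) * (Nat.card F * (Nat.card F - 1)) := by
    rw [one_mul, S_eq_top ho, card_top h3]
  rw [card_of_equiv e0]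
  generalize M.map Matrix.ProjectiveSpecialLinearGroup.toPGL = N at hM' e0
  rcases classify p le_rfl h3 hM' hM'.lt.not_ge with ⟨x, rfl⟩ | ⟨x, y, hxy, rfl⟩ |
    ⟨y, y', a, b, c, d, rfl⟩ | ⟨-, a, -⟩ | ⟨-, a, -⟩ | ⟨a, -⟩ | ⟨h, L, r, hr, a, b, c⟩
  · exact Or.inl ((one_mul _).symm.trans (eps_point le_rfl hε x))
  · obtain ⟨k, hk, e⟩ := dihedral_two le_rfl h3 hε hxy
    rw [one_mul] at hk
    exact Or.inr (Or.inl (by rw [← Nat.card_eq_fintype_card, ← hk]; exact trans_equiv e0 e))
  · obtain ⟨k, hk, e⟩ := dihedral_out le_rfl h3 hε a b c d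
    rw [one_mul] at hk
    exact Or.inr (Or.inr (Or.inl (by rw [← Nat.card_eq_fintype_card, ← hk]; exact trans_equiv e0 e)))
  · omega
  · omega
  · omega
  · obtain ⟨K, _, _, f, rfl, hf⟩ := FF.exists_model L
    rw [← PS_eq_PG (fun h => ho (a ▸ h.pow)), inf_of_le_left (PS_le_S _)] at c
    exact Or.inr (Or.inr (Or.inr ⟨K, inferInstance, inferInstance, r, hr,
      by rw [Nat.card_eq_fintype_card (α := K), hf]; omega,
      by rwa [Nat.card_eq_fintype_card (α := K), hf],
      trans_equiv (trans_equiv e0 ⟨cjEquiv h N⟩) (c ▸ equiv_PS f)⟩))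

end Cfsg.Agent.S5893
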