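import Cfsg.Statements.S5894
import Cfsg.Agent.H6.SymIndex
import Cfsg.Agent.H6.Wreath

set_option autoImplicit false
open Cfsg

namespace Cfsg.Agent.S5894

/-- For every m ≥ 2 the symmetric group on 2m letters has a maximal subgroup M of index 2m together with a maximal subgroup H of M that is not second maximal: some maximal subgroup K of the symmetric group contains H without H being maximal in K. (One may take M the stabiliser of a letter, H ≅ S_m × S_{m−1} inside it, and K ≅ S_m ≀ S₂ the stabiliser of a partition into two m-sets, with H < S_m × S_m < K.) So the prime-index hypothesis in the second-maximality criterion cannot be relaxed to any even index ≥ 4. -/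
theorem result (m : ℕ) (hm : 2 ≤ m) :
    ∃ M H K : Subgroup (Equiv.Perm (Fin (2 * m))), IsCoatom M ∧ M.index = 2 * m ∧ H ≤ M ∧ IsCoatom (H.subgroupOf M) ∧
      IsCoatom K ∧ H ≤ K ∧ ¬ IsCoatom (H.subgroupOf K) := by
  classical
  let a : Fin (2 * m) := ⟨0, by omega⟩
  let O : Set (Fin (2 * m)) := {x | x.1 < m}
  let f : Fin (2 * m) → Prop := fun x => x ∈ O
  have hO : Nat.card O = m := by
    have : O ≃ Fin m := ⟨fun x => ⟨x.1.1, x.2⟩, fun y => ⟨⟨y.1, by omega⟩, y.2⟩,
      fun _ => rfl, fun _ => rfl⟩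
    rw [Nat.card_congr this]; simp
  have hcard : Nat.card O + Nat.card ↥Oᶜ = 2 * m := by
    rw [Nat.card_coe_set_eq, Nat.card_coe_set_eq, Set.ncard_add_ncard_compl]; simp
  have hf : ∀ i : Prop, Nat.card {x : Fin (2 * m) // f x = i} = m := by
    intro i
    by_cases hi : i
    · refine Eq.trans ?_ hO
      exact Nat.card_congr (Equiv.subtypeEquivRight fun x => by simp [f, hi])
    · have : Nat.card ↥Oᶜ = m := by omega
      refine Eq.trans ?_ this
      exact Nat.card_congr (Equiv.subtypeEquivRight fun x => by simp [f, hi])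
  let L : Subgroup (Equiv.Perm (Fin (2 * m))) :=
    { carrier := {g | ∀ x, g x ∈ O ↔ x ∈ O}
      one_mem' := fun _ => Iff.rfl
      mul_mem' := fun {g h} hg hh x => (hg (h x)).trans (hh x)
      inv_mem' := fun {g} hg x => by simpa using (hg (g⁻¹ x)).symm }
  have hLK : L ≤ Cfsg.Agent.H6.Wreath.partStab f := by
    intro g hg x y
    have hg' : ∀ x, g x ∈ O ↔ x ∈ O := hg
    simp only [f, hg']
  let b : Fin (2 * m) := ⟨1, by omega⟩
  let c : Fin (2 * m) := ⟨m, by omega⟩
  have haO : a ∈ O := by show 0 < m; omega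
  have hbO : b ∈ O := by show 1 < m; omega
  have hcO : c ∉ O := by show ¬ m < m; omega
  have hab : a ≠ b := by simp [a, b]
  have hca : c ≠ a := by simp [a, c, Fin.ext_iff]; omega
  refine ⟨MulAction.stabilizer _ a, MulAction.stabilizer _ a ⊓ L,
    Cfsg.Agent.H6.Wreath.partStab f, ?_, ?_, inf_le_left, ?_,
    Cfsg.Agent.H6.Wreath.isCoatom_partStab hf hm, inf_le_right.trans hLK, ?_⟩
  · have : Nontrivial (Fin (2 * m)) := ⟨a, b, hab⟩
    exact MulAction.IsPreprimitive.isCoatom_stabilizer_of_isPreprimitive _ a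
  · rw [Cfsg.Agent.H6.SymIndex.index_stab]; simp
  · let s : Set {x : Fin (2 * m) // x ≠ a} := {x | x.1 ∉ O}
    have hs : s.ncard = m := by
      have : Nat.card ↥Oᶜ = m := by omega
      refine Eq.trans ?_ this
      rw [← Nat.card_coe_set_eq]
      exact Nat.card_congr ⟨fun x => ⟨x.1.1, x.2⟩,
        fun y => ⟨⟨y.1, fun h => y.2 (h ▸ haO)⟩, y.2⟩, fun _ => rfl, fun _ => rfl⟩
    have h1 := Equiv.Perm.isCoatom_stabilizer (s := s) ⟨⟨c, hca⟩, hcO⟩
      ⟨⟨b, hab.symm⟩, fun h => h hbO⟩ (by
        rw [hs, Nat.card_eq_fintype_card, Fintype.card_subtype_compl, Fintype.card_subtype_eq]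
        simp; omega)
    let e := Cfsg.Agent.H6.SymIndex.stabEquiv a
    rw [← (e.comapSubgroup).isCoatom_iff]
    convert h1
    ext g
    have hg : ∀ x : {x : Fin (2 * m) // x ≠ a}, (e g : Equiv.Perm (Fin (2 * m))) x = g x :=
      fun x => Equiv.Perm.ofSubtype_apply_coe g x
    have hga : (e g : Equiv.Perm (Fin (2 * m))) a = a := (e g).2
    have : g ∈ e.comapSubgroup ((MulAction.stabilizer _ a ⊓ L).subgroupOf (MulAction.stabilizer _ a))
        ↔ ∀ x, (e g : Equiv.Perm (Fin (2 * m))) x ∈ O ↔ x ∈ O :=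
      ⟨fun h => h.2, fun h => ⟨(e g).2, h⟩⟩
    rw [this, MulAction.mem_stabilizer_set]
    constructor
    · intro h x
      have := h x
      rw [hg] at this
      exact not_congr this
    · intro h x
      by_cases hx : x = a
      · rw [hx, hga]
      · have := h ⟨x, hx⟩
        rw [show x = (⟨x, hx⟩ : {x : Fin (2 * m) // x ≠ a}).1 from rfl, hg]
        exact not_iff_not.1 this
  · intro hco
    have h1 : (MulAction.stabilizer _ a ⊓ L).subgroupOf (Cfsg.Agent.H6.Wreath.partStab f) <
        L.subgroupOf (Cfsg.Agent.H6.Wreath.partStab f) := by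
      refine lt_of_le_of_ne (Subgroup.subgroupOf_mono _ inf_le_right) fun h => ?_
      have hs : Equiv.swap a b ∈ L := by
        intro x
        rw [Equiv.swap_apply_def]
        split_ifs with h1 h2
        · simp [h1, haO, hbO]
        · simp [h2, haO, hbO]
        · rfl
      have : (⟨Equiv.swap a b, hLK hs⟩ : Cfsg.Agent.H6.Wreath.partStab f) ∈
        L.subgroupOf (Cfsg.Agent.H6.Wreath.partStab f) := hs
      rw [← h] at this
      have h2 : Equiv.swap a b a = a := this.1
      rw [Equiv.swap_apply_left] at h2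
      exact hab h2.symm
    have h2 := Subgroup.subgroupOf_eq_top.1 (hco.2 _ h1)
    have huv : f a ≠ f c := by simp [f, haO, hcO]
    obtain ⟨w, hw, h3, _⟩ := Cfsg.Agent.H6.Wreath.exists_map_two hf huv huv.symm
    have := h2 hw a
    rw [h3] at this
    exact hcO (this.2 haO)

end Cfsg.Agent.S5894
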