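import Cfsg.Statements.S5895

set_option autoImplicit false
open Cfsg

namespace Cfsg.Agent.S5895

open scoped LinearAlgebra.Projectivization

theorem main {k V : Type} [Field k] [AddCommGroup V] [Module k V] [Finite V] (e0 e1 : V)
    (h0 : e0 ≠ 0) (h1 : e1 ∉ Submodule.span k {e0}) :
    ∃ (G : Type) (_ : Group G) (_ : Finite G) (M H K : Subgroup G), IsCoatom M ∧
      M.index = Nat.card V ∧ H ≤ M ∧
      IsCoatom (H.subgroupOf M) ∧ IsCoatom K ∧ H ≤ K ∧ ¬ IsCoatom (H.subgroupOf K) := by
  letI : MulAction (V ≃ᵃ[k] V) V :=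
    { smul := fun g v => g v
      one_smul := fun _ => rfl
      mul_smul := fun _ _ _ => rfl }
  have hfin : Finite (V ≃ᵃ[k] V) := Finite.of_injective _ DFunLike.coe_injective
  have htr : MulAction.IsPretransitive (V ≃ᵃ[k] V) V :=
    ⟨fun x y => ⟨AffineEquiv.constVAdd k V (y - x), by
      show (y - x) +ᵥ x = y
      simp⟩⟩
  have h1' : e1 ≠ 0 := fun h => h1 (h ▸ zero_mem _)
  have hnt : Nontrivial (ℙ k V) := ⟨Projectivization.mk k e1 h1', Projectivization.mk k e0 h0,
    fun h => by
      obtain ⟨a, ha⟩ := (Projectivization.mk_eq_mk_iff' k _ _ _ _).1 h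
      exact h1 (Submodule.mem_span_singleton.2 ⟨a, ha⟩)⟩
  have hpr : MulAction.IsPreprimitive (V ≃ₗ[k] V) (ℙ k V) :=
    MulAction.isPreprimitive_of_is_two_pretransitive inferInstance
  have hlin : ∀ v w : V, v ≠ 0 → w ≠ 0 → ∃ A : V ≃ₗ[k] V, A v = w := by
    intro v w hv hw
    obtain ⟨g, hg⟩ := MulAction.exists_smul_eq (V ≃ₗ[k] V) (Projectivization.mk k v hv)
      (Projectivization.mk k w hw)
    rw [Projectivization.smul_mk, Projectivization.mk_eq_mk_iff] at hg
    obtain ⟨a, ha⟩ := hg
    refine ⟨g.trans (LinearEquiv.smulOfUnit a⁻¹), ?_⟩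
    show a⁻¹ • (g • v) = w
    rw [← ha, inv_smul_smul]
  let M := MulAction.stabilizer (V ≃ᵃ[k] V) (0 : V)
  have hM : ∀ g, g ∈ M ↔ g 0 = 0 := fun _ => Iff.rfl
  let H' := MulAction.stabilizer (V ≃ₗ[k] V) (Projectivization.mk k e0 h0)
  have hH' : IsCoatom H' := MulAction.IsPreprimitive.isCoatom_stabilizer_of_isPreprimitive _ _
  let K : Subgroup (V ≃ᵃ[k] V) := H'.comap AffineEquiv.linearHom
  have hsurj : Function.Surjective ((AffineEquiv.linearHom (k := k) (P₁ := V)).comp M.subtype) :=
    fun A => ⟨⟨A.toAffineEquiv, map_zero A⟩, rfl⟩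
  have htrans : ∀ v, AffineEquiv.constVAdd k V v ∈ K := fun v => H'.one_mem
  refine ⟨V ≃ᵃ[k] V, inferInstance, hfin, M, M ⊓ K, K, ⟨?_, ?_⟩,
    MulAction.index_stabilizer_of_transitive _ _, inf_le_left, ?_,
    Subgroup.isCoatom_comap_of_surjective (fun A => ⟨A.toAffineEquiv, rfl⟩) hH', inf_le_right, ?_⟩
  · intro h
    have : AffineEquiv.constVAdd k V e0 ∈ M := h ▸ Subgroup.mem_top _
    rw [hM] at this
    exact h0 (by simpa using this)
  · intro L hL
    obtain ⟨g, hg, hg'⟩ := SetLike.exists_of_lt hL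
    rw [eq_top_iff]
    intro h _
    by_cases hh : h ∈ M
    · exact hL.le hh
    obtain ⟨A, hA⟩ := hlin _ _ hg' hh
    have e1 : A.toAffineEquiv * g ∈ L := mul_mem (hL.le (map_zero A)) hg
    have e2 : (A.toAffineEquiv * g)⁻¹ * h ∈ M := by
      show ((A.toAffineEquiv * g)⁻¹ * h) • (0 : V) = 0
      rw [mul_smul, inv_smul_eq_iff]
      exact hA.symm
    have := mul_mem e1 (hL.le e2)
    rwa [mul_inv_cancel_left] at this
  · convert Subgroup.isCoatom_comap_of_surjective hsurj hH'
    ext g
    exact ⟨fun h => h.2, fun h => ⟨g.2, h⟩⟩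
  · intro hco
    let L : Subgroup (V ≃ᵃ[k] V) :=
      { carrier := {g | ∀ x, g x ∈ Submodule.span k {e0} ↔ x ∈ Submodule.span k {e0}}
        one_mem' := fun _ => Iff.rfl
        mul_mem' := fun {g h} hg hh x => (hg (h x)).trans (hh x)
        inv_mem' := fun {g} hg x => by
          have := (hg (g⁻¹ x)).symm
          rwa [show g (g⁻¹ x) = x from g.apply_symm_apply x] at this }
    have hlt : (M ⊓ K).subgroupOf K < L.subgroupOf K := by
      refine lt_of_le_of_ne (Subgroup.subgroupOf_mono _ ?_) fun h => ?_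
      · rintro g ⟨g1, g2⟩ x
        have e : g x = g.linear x := by
          have := g.map_vadd 0 x
          rwa [(hM g).1 g1, vadd_eq_add, vadd_eq_add, add_zero, add_zero] at this
        have g3 : g.linear • Projectivization.mk k e0 h0 = Projectivization.mk k e0 h0 := g2
        rw [Projectivization.smul_mk, Projectivization.mk_eq_mk_iff] at g3
        obtain ⟨a, ha⟩ := g3
        have ha' : g.linear e0 = (a : k) • e0 := ha.symm
        rw [e, Submodule.mem_span_singleton, Submodule.mem_span_singleton]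
        constructor
        · rintro ⟨c, hc⟩
          refine ⟨c * (a : k)⁻¹, g.linear.injective ?_⟩
          rw [map_smul, ha', smul_smul, ← hc]
          simp
        · rintro ⟨c, rfl⟩
          exact ⟨c * a, by rw [map_smul, ha', smul_smul]⟩
      · have : (⟨_, htrans e0⟩ : K) ∈ L.subgroupOf K := by
          intro x
          show e0 + x ∈ _ ↔ _
          exact Submodule.add_mem_iff_right _ (Submodule.mem_span_singleton_self _)
        rw [← h] at this
        have := (hM _).1 this.1
        exact h0 (by simpa using this)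
    have := Subgroup.subgroupOf_eq_top.1 (hco.2 _ hlt) (htrans e1) 0
    exact h1 (by simpa using this)


/-- For every prime p and every d ≥ 2 there is a finite group G with a maximal subgroup M of index p^d and a maximal subgroup H of M that is not second maximal in G: some maximal subgroup K of G contains H without H being maximal in K. (One may take G the affine group V ⋊ GL(V) of V = 𝔽_p^d, M = GL(V), H the stabiliser in M of a line W of V, and K = V ⋊ H, with H < W ⋊ H < K.) So the prime-index hypothesis in the second-maximality criterion cannot be relaxed to prime-power index. -/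
theorem result (p d : ℕ) (hp : p.Prime)
    (hd : 2 ≤ d) :
    ∃ (G : Type) (_ : Group G) (_ : Finite G) (M H K : Subgroup G), IsCoatom M ∧ M.index = p ^ d ∧ H ≤ M ∧
      IsCoatom (H.subgroupOf M) ∧ IsCoatom K ∧ H ≤ K ∧ ¬ IsCoatom (H.subgroupOf K) := by
  have := Fact.mk hp
  obtain ⟨G, _, _, M, H, K, h⟩ := main (k := ZMod p) (V := Fin d → ZMod p)
    (Pi.single ⟨0, by omega⟩ 1) (Pi.single ⟨1, by omega⟩ 1) (by simp) (by
      rw [Submodule.mem_span_singleton]
      rintro ⟨a, ha⟩
      have := congrFun ha ⟨1, by omega⟩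
      simp at this)
  refine ⟨G, _, inferInstance, M, H, K, ?_⟩
  simpa using h

end Cfsg.Agent.S5895
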