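import Cfsg.Statements.S5896
import Cfsg.Agent.H6.SymIndex

set_option autoImplicit false
open Cfsg

namespace Cfsg.Agent.S5896

open RegularWreathProduct
open scoped commutatorElement

theorem der_ne_bot {D Q : Type} [Group D] [Group Q] (A : Subgroup (D ≀ᵣ Q))
    (hA : ∀ x : D, ∃ a ∈ A, a.right = 1 ∧ a.left 1 = x) {d : ℕ} (hd : derivedSeries D d ≠ ⊥) :
    derivedSeries A d ≠ ⊥ := by
  let B : Subgroup A := (rightHom.comp A.subtype).ker
  let π : B →* D :=
    { toFun := fun b => b.1.1.left 1
      map_one' := rfl
      map_mul' := fun a b => by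
        have : a.1.1.right = 1 := a.2
        simp [this] }
  have hπ : Function.Surjective π := fun x => by
    obtain ⟨a, ha, h1, h2⟩ := hA x
    exact ⟨⟨⟨a, ha⟩, h1⟩, h2⟩
  intro h
  apply hd
  have h1 := map_derivedSeries_le_derivedSeries B.subtype d
  rw [h, le_bot_iff, Subgroup.map_eq_bot_iff_of_injective _ B.subtype_injective] at h1
  rw [← map_derivedSeries_eq hπ, h1, Subgroup.map_bot]

theorem comm_elt {D Q : Type} [Group D] [Group Q] {q : Q} (hq : q ≠ 1) (x : D) :
    ∃ s : D ≀ᵣ Q, ⁅s, (inl q : D ≀ᵣ Q)⁆.right = 1 ∧ ⁅s, (inl q : D ≀ᵣ Q)⁆.left 1 = x := by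
  classical
  refine ⟨⟨Pi.mulSingle 1 x, 1⟩, by simp [commutatorElement_def], ?_⟩
  simp [commutatorElement_def, Pi.mulSingle_apply, hq]

theorem solv_ker {D Q : Type} [Group D] [Group Q] [Group.IsSolvable D] :
    Group.IsSolvable (rightHom : D ≀ᵣ Q →* Q).ker := by
  obtain ⟨n, hn⟩ := (inferInstance : Group.IsSolvable D)
  refine ⟨n, ?_⟩
  rw [eq_bot_iff]
  intro g hg
  rw [Subgroup.mem_bot]
  have hr : g.1.right = 1 := g.2
  ext x
  · let π : (rightHom : D ≀ᵣ Q →* Q).ker →* D :=
      { toFun := fun b => b.1.left x
        map_one' := rfl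
        map_mul' := fun a b => by
          have : a.1.right = 1 := a.2
          simp [this] }
    have := map_derivedSeries_le_derivedSeries π n ⟨g, hg, rfl⟩
    rw [hn, Subgroup.mem_bot] at this
    exact this
  · exact hr

theorem solv_sub {D Q : Type} [Group D] [Group Q] [Group.IsSolvable D] (A : Subgroup (D ≀ᵣ Q))
    (K : Subgroup Q) [Group.IsSolvable K] (h : ∀ a ∈ A, a.right ∈ K) : Group.IsSolvable A := by
  have := @solv_ker D Q _ _ _
  let g : A →* K := (rightHom.comp A.subtype).codRestrict K fun a => h a a.2
  have : Group.IsSolvable g.ker := by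
    refine Group.isSolvable_of_isSolvable_injective (G' := (rightHom : D ≀ᵣ Q →* Q).ker)
      (f := (A.subtype.comp g.ker.subtype).codRestrict _ fun a => congrArg Subtype.val a.2) ?_
    intro a b hab
    have h := congrArg Subtype.val hab
    exact Subtype.ext (Subtype.ext h)
  exact Group.isSolvable_of_ker_le_range g.ker.subtype g (by simp)

theorem der_succ {G : Type} [Group G] (d : ℕ) :
    (derivedSeries (commutator G) d).map (commutator G).subtype ≤ derivedSeries G (d + 1) := by
  induction d with
  | zero => exact Subgroup.map_subtype_le _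
  | succ d ih =>
    rw [derivedSeries_succ, Subgroup.map_commutator, derivedSeries_succ G (d + 1)]
    exact Subgroup.commutator_mono ih ih

theorem exists_solv (d : ℕ) : ∃ (S : Type) (_ : Group S) (_ : Finite S),
    Group.IsSolvable S ∧ derivedSeries S d ≠ ⊥ := by
  induction d with
  | zero => exact ⟨Multiplicative (ZMod 2), inferInstance, inferInstance, inferInstance, by simp⟩
  | succ d ih =>
    obtain ⟨S, _, _, h1, h2⟩ := ih
    refine ⟨S ≀ᵣ Multiplicative (ZMod 2), inferInstance, inferInstance, ?_, ?_⟩
    · have := solv_sub (⊤ : Subgroup (S ≀ᵣ Multiplicative (ZMod 2))) ⊤ (fun _ _ => trivial)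
      exact Group.isSolvable_of_surjective (f := Subgroup.subtype ⊤) fun x => ⟨⟨x, trivial⟩, rfl⟩
    · intro h
      have h3 := der_succ (G := S ≀ᵣ Multiplicative (ZMod 2)) d
      rw [h, le_bot_iff, Subgroup.map_eq_bot_iff_of_injective _ (Subgroup.subtype_injective _)]
        at h3
      refine der_ne_bot _ (fun x => ?_) h2 h3
      obtain ⟨s, e1, e2⟩ := comm_elt (Q := Multiplicative (ZMod 2))
        (q := Multiplicative.ofAdd 1) (by decide) x
      exact ⟨_, Subgroup.commutator_mem_commutator (Subgroup.mem_top _) (Subgroup.mem_top _),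
        e1, e2⟩

theorem solv_perm {X : Type} [Fintype X] [DecidableEq X] (h : Nat.card X = 4) :
    Group.IsSolvable (Equiv.Perm X) := by
  have := alternatingGroup.kleinFour_isKleinFour h
  have : Group.IsSolvable (alternatingGroup.kleinFour X) :=
    Group.isSolvable_of_comm fun a b => IsKleinFour.isMulCommutative.is_comm.comm a b
  have : Group.IsSolvable (alternatingGroup X) :=
    Group.isSolvable_of_ker_le_range (alternatingGroup.kleinFour X).subtype Abelianization.of (by
      rw [Abelianization.ker_of, alternatingGroup.kleinFour_eq_commutator h]; simp)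
  exact Group.isSolvable_of_ker_le_range (alternatingGroup X).subtype Equiv.Perm.sign (by
    rw [← alternatingGroup_eq_sign_ker]; simp)

theorem solv_stab : Group.IsSolvable (MulAction.stabilizer (alternatingGroup (Fin 5)) (0 : Fin 5)) := by
  have := solv_perm (X := {x : Fin 5 // x ≠ 0}) (by rw [Nat.card_eq_fintype_card]; decide)
  have : Group.IsSolvable (MulAction.stabilizer (Equiv.Perm (Fin 5)) (0 : Fin 5)) :=
    Group.isSolvable_of_surjective (f := (Cfsg.Agent.H6.SymIndex.stabEquiv 0).toMonoidHom)
      (MulEquiv.surjective _)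
  refine Group.isSolvable_of_isSolvable_injective
    (G' := MulAction.stabilizer (Equiv.Perm (Fin 5)) (0 : Fin 5))
    (f := ((alternatingGroup (Fin 5)).subtype.comp (Subgroup.subtype _)).codRestrict _
      fun a => a.2) ?_
  intro a b hab
  have h := congrArg Subtype.val hab
  exact Subtype.ext (Subtype.ext h)


/-- Finite perfect groups have solvable maximal subgroups of unbounded derived length: for every d there is a finite perfect group G (equal to its commutator subgroup) with a solvable maximal subgroup H whose derived length exceeds d, i.e. the d-th term of the derived series of H is non-trivial. (Take the derived subgroup of a wreath product S ≀ A₅ with S solvable of large derived length, and H the preimage of a maximal subgroup of A₅.) -/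
theorem result (d : ℕ) :
    ∃ (G : Type) (_ : Group G) (_ : Finite G) (H : Subgroup G), commutator G = ⊤ ∧ IsCoatom H ∧ Group.IsSolvable H ∧
      derivedSeries H d ≠ ⊥ := by
  obtain ⟨S, _, _, h1, h2⟩ := exists_solv d
  let Q := alternatingGroup (Fin 5)
  let G : Subgroup (S ≀ᵣ Q) := Subgroup.normalClosure (Set.range (inl : Q →* S ≀ᵣ Q))
  have hin : ∀ q : Q, inl q ∈ G := fun q => Subgroup.subset_normalClosure ⟨q, rfl⟩
  let ρ : G →* Q := rightHom.comp G.subtype
  have hρ : Function.Surjective ρ := fun q => ⟨⟨inl q, hin q⟩, rfl⟩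
  let K : Subgroup Q := MulAction.stabilizer Q (0 : Fin 5)
  have hK : IsCoatom K := by
    have := alternatingGroup.isPreprimitive_of_three_le_card (Fin 5) (by simp)
    exact MulAction.IsPreprimitive.isCoatom_stabilizer_of_isPreprimitive _ _
  have hKs : Group.IsSolvable K := solv_stab
  let e := Subgroup.equivMapOfInjective (K.comap ρ) G.subtype G.subtype_injective
  refine ⟨G, inferInstance, inferInstance, K.comap ρ, ?_,
    Subgroup.isCoatom_comap_of_surjective hρ hK, ?_, ?_⟩
  · rw [← Group.isPerfect_def, Subgroup.isPerfect_iff]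
    refine le_antisymm (Subgroup.commutator_le_left _ _) ?_
    apply Subgroup.normalClosure_le_normal
    rintro _ ⟨q, rfl⟩
    have hq : q ∈ commutator Q := by
      rw [commutator_alternatingGroup_eq_top (by simp)]; trivial
    have := Subgroup.mem_map_of_mem (inl : Q →* S ≀ᵣ Q) hq
    rw [commutator_def, Subgroup.map_commutator] at this
    refine Subgroup.commutator_mono ?_ ?_ this <;>
    · rintro _ ⟨q, _, rfl⟩
      exact hin q
  · have := solv_sub ((K.comap ρ).map G.subtype) K (by
      rintro _ ⟨a, ha, rfl⟩
      exact ha)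
    exact Group.isSolvable_of_isSolvable_injective (f := e.toMonoidHom) e.injective
  · intro h
    obtain ⟨q, hq⟩ := exists_ne (1 : Q)
    refine der_ne_bot ((K.comap ρ).map G.subtype) (fun x => ?_) h2 ?_
    · obtain ⟨s, e1, e2⟩ := comm_elt hq x
      have hs : ⁅s, (inl q : S ≀ᵣ Q)⁆ ∈ G :=
        Subgroup.commutator_le_right ⊤ G
          (Subgroup.commutator_mem_commutator (Subgroup.mem_top _) (hin q))
      refine ⟨_, ⟨⟨_, hs⟩, ?_, rfl⟩, e1, e2⟩
      show ⁅s, (inl q : S ≀ᵣ Q)⁆.right ∈ K
      rw [e1]
      exact K.one_mem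
    · rw [← map_derivedSeries_eq (f := e.toMonoidHom) e.surjective, h, Subgroup.map_bot]

end Cfsg.Agent.S5896
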