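import Cfsg.Statements.S5902
import Cfsg.Agent.S5901

set_option autoImplicit false
open Cfsg

namespace Cfsg.Agent.S5902

/-- Let G be a finite group, X a subgroup whose own subgroup lattice is complemented, and suppose X lies in exactly one maximal subgroup M of G. Then every subgroup H of G not contained in the normal core of M has a complement in the subgroup lattice of G (some C with H ⊔ C = G and H ⊓ C = 1); in particular the subgroup lattice of G modulo the normal core of M is complemented. -/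
theorem result {G : Type*} [Group G] [Finite G] (X M : Subgroup G)
    (hK : ComplementedLattice (Subgroup X))
    (hM : IsCoatom M) (hXM : X ≤ M) (huniq : ∀ M' : Subgroup G, IsCoatom M' → X ≤ M' → M' = M) :
    (∀ H : Subgroup G, ¬ H ≤ M.normalCore → ∃ C : Subgroup G, H ⊔ C = ⊤ ∧ H ⊓ C = ⊥) ∧
    ComplementedLattice (Subgroup (G ⧸ M.normalCore)) := by
  have key : ∀ H : Subgroup G, ¬ H ≤ M.normalCore → ∃ C : Subgroup G, H ⊔ C = ⊤ ∧ H ⊓ C = ⊥ := by
    intro H hH
    have hint : ∀ Y : Subgroup G, ⊥ ≤ Y → Y ≤ X →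
        ∃ C : Subgroup G, ⊥ ≤ C ∧ C ≤ X ∧ Y ⊔ C = X ∧ Y ⊓ C = ⊥ := by
      intro Y _ hY
      obtain ⟨C, hC⟩ := exists_isCompl (Y.subgroupOf X)
      refine ⟨C.map X.subtype, bot_le, Subgroup.map_subtype_le _, ?_, ?_⟩
      · have := congrArg (Subgroup.map X.subtype) hC.sup_eq_top
        rw [Subgroup.map_sup, Subgroup.subgroupOf_map_subtype, inf_eq_left.2 hY,
          ← MonoidHom.range_eq_map, Subgroup.range_subtype] at this
        exact this
      · have := congrArg (Subgroup.map X.subtype) hC.inf_eq_bot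
        rw [Subgroup.map_inf _ _ _ X.subtype_injective, Subgroup.subgroupOf_map_subtype,
          inf_eq_left.2 hY, Subgroup.map_bot] at this
        exact this
    obtain ⟨h, hh, hh'⟩ := SetLike.not_le_iff_exists.1 hH
    have : ∃ g : G, g * h * g⁻¹ ∉ M := by
      by_contra hc
      push Not at hc
      exact hh' hc
    obtain ⟨g, hg⟩ := this
    let e : Subgroup G ≃o Subgroup G := (MulAut.conj g).mapSubgroup
    have hH' : ¬ e H ≤ M := by
      intro hle
      apply hg
      apply hle
      exact ⟨h, hh, rfl⟩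
    obtain ⟨C, h1, h2⟩ := Cfsg.Agent.S5901.result ⊥ X M bot_le
      (fun h => hM.1 (top_le_iff.1 (h ▸ hXM))) hint hM hXM huniq (e H) hH' (inf_bot_eq _)
    refine ⟨e.symm C, ?_, ?_⟩
    · apply e.injective
      rw [e.map_sup, e.apply_symm_apply, h1, e.map_top]
    · apply e.injective
      rw [e.map_inf, e.apply_symm_apply, h2, e.map_bot]
  refine ⟨key, ⟨fun K => ?_⟩⟩
  set N := M.normalCore with hN
  by_cases hK0 : K = ⊥
  · exact ⟨⊤, hK0 ▸ isCompl_bot_top⟩
  have hsurj := QuotientGroup.mk'_surjective N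
  have hH : ¬ K.comap (QuotientGroup.mk' N) ≤ N := by
    intro hle
    apply hK0
    rw [eq_bot_iff]
    intro x hx
    obtain ⟨y, rfl⟩ := hsurj x
    have : y ∈ N := hle hx
    rw [Subgroup.mem_bot]
    exact (QuotientGroup.eq_one_iff y).2 this
  obtain ⟨C, h1, h2⟩ := key _ hH
  refine ⟨C.map (QuotientGroup.mk' N), ⟨?_, ?_⟩⟩
  · rw [disjoint_iff, eq_bot_iff]
    rintro x ⟨hx, c, hc, rfl⟩
    have : c ∈ K.comap (QuotientGroup.mk' N) ⊓ C := ⟨hx, hc⟩
    rw [h2, Subgroup.mem_bot] at this
    rw [this, map_one]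
    exact Subgroup.one_mem _
  · rw [codisjoint_iff]
    have := congrArg (Subgroup.map (QuotientGroup.mk' N)) h1
    rw [Subgroup.map_sup, Subgroup.map_comap_eq_self_of_surjective hsurj,
      Subgroup.map_top_of_surjective _ hsurj] at this
    exact this

end Cfsg.Agent.S5902
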