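import Cfsg.Statements.S5903
import Cfsg.Agent.S5901

set_option autoImplicit false
open Cfsg

namespace Cfsg.Agent.S5903

/-- Let G be a finite simple group, X a subgroup lying in exactly one maximal subgroup M of G, and N a subgroup of prime order with N ≤ X that is central in M. If the subgroup lattice of X/N is complemented, then the subgroup lattice of G is complemented. -/
theorem result {G : Type*} [Group G] [Finite G] [IsSimpleGroup G] (X M N : Subgroup G)
    (hM : IsCoatom M) (hXM : X ≤ M) (huniq : ∀ M' : Subgroup G, IsCoatom M' → X ≤ M' → M' = M)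
    (hNX : N ≤ X) (hN : (Nat.card N).Prime) (hcen : ∀ n ∈ N, ∀ m ∈ M, m * n = n * m)
    [(N.subgroupOf X).Normal] (hK : ComplementedLattice (Subgroup (X ⧸ N.subgroupOf X))) :
    ComplementedLattice (Subgroup G) := by
  refine ⟨fun H => ?_⟩
  by_cases hH0 : H = ⊥
  · exact ⟨⊤, hH0 ▸ isCompl_bot_top⟩
  by_cases hH1 : H = ⊤
  · exact ⟨⊥, hH1 ▸ isCompl_top_bot⟩
  have hN0 : N ≠ ⊥ := by
    rintro rfl
    simp at hN
    exact Nat.not_prime_one hN
  have hint : ∀ Y : Subgroup G, N ≤ Y → Y ≤ X →
      ∃ C : Subgroup G, N ≤ C ∧ C ≤ X ∧ Y ⊔ C = X ∧ Y ⊓ C = N := by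
    intro Y hNY hY
    have hsurj := QuotientGroup.mk'_surjective (N.subgroupOf X)
    obtain ⟨C, hC⟩ := exists_isCompl ((Y.subgroupOf X).map (QuotientGroup.mk' (N.subgroupOf X)))
    have hNC : N ≤ (C.comap (QuotientGroup.mk' (N.subgroupOf X))).map X.subtype := by
      intro n hn
      refine ⟨⟨n, hNX hn⟩, ?_, rfl⟩
      have : (QuotientGroup.mk' (N.subgroupOf X)) ⟨n, hNX hn⟩ = 1 :=
        (QuotientGroup.eq_one_iff _).2 hn
      show (QuotientGroup.mk' (N.subgroupOf X)) ⟨n, hNX hn⟩ ∈ C
      rw [this]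
      exact C.one_mem
    refine ⟨(C.comap (QuotientGroup.mk' (N.subgroupOf X))).map X.subtype, hNC,
      Subgroup.map_subtype_le _, ?_, ?_⟩
    · have h1 := congrArg (Subgroup.comap (QuotientGroup.mk' (N.subgroupOf X))) hC.sup_eq_top
      rw [← Subgroup.comap_sup_eq _ _ _ hsurj, Subgroup.comap_map_eq, QuotientGroup.ker_mk',
        sup_eq_left.2 (Subgroup.subgroupOf_mono X hNY), Subgroup.comap_top] at h1
      have := congrArg (Subgroup.map X.subtype) h1
      rw [Subgroup.map_sup, Subgroup.subgroupOf_map_subtype, inf_eq_left.2 hY,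
          ← MonoidHom.range_eq_map, Subgroup.range_subtype] at this
      exact this
    · refine le_antisymm ?_ (le_inf hNY hNC)
      rintro x ⟨hx, c, hc, rfl⟩
      have : (QuotientGroup.mk' (N.subgroupOf X)) c ∈
          (Y.subgroupOf X).map (QuotientGroup.mk' (N.subgroupOf X)) ⊓ C :=
        ⟨⟨c, hx, rfl⟩, hc⟩
      rw [hC.inf_eq_bot, Subgroup.mem_bot] at this
      exact (QuotientGroup.eq_one_iff (N := N.subgroupOf X) c).1 this
  by_contra hcon
  have hall : ∀ g : G, ∀ n ∈ N, g⁻¹ * n * g ∈ Subgroup.normalizer (H : Set G) := by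
    intro g n hn
    let e : Subgroup G ≃o Subgroup G := (MulAut.conj g).mapSubgroup
    by_cases h1 : e H ≤ M
    · apply Subgroup.centralizer_le_normalizer
      intro h hh
      have := hcen n hn (g * h * g⁻¹) (h1 ⟨h, hh, rfl⟩)
      calc h * (g⁻¹ * n * g) = g⁻¹ * (g * h * g⁻¹ * n) * g := by group
        _ = g⁻¹ * n * g * h := by rw [this]; group
    by_cases h2 : e H ⊓ N = ⊥
    · exfalso
      obtain ⟨C, h3, h4⟩ := Cfsg.Agent.S5901.result N X M hNX
        (fun h => hM.1 (top_le_iff.1 (h ▸ hXM))) hint hM hXM huniq (e H) h1 h2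
      apply hcon
      refine ⟨e.symm C, ⟨?_, ?_⟩⟩
      · rw [disjoint_iff]
        apply e.injective
        rw [e.map_inf, e.apply_symm_apply, h4, e.map_bot]
      · rw [codisjoint_iff]
        apply e.injective
        rw [e.map_sup, e.apply_symm_apply, h3, e.map_top]
    · have hle : N ≤ e H := by
        have := Fact.mk hN
        rcases ((e H).subgroupOf N).eq_bot_or_eq_top_of_prime_card with h | h
        · exfalso; apply h2
          rw [Subgroup.subgroupOf_eq_bot, disjoint_iff] at h
          exact h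
        · exact Subgroup.subgroupOf_eq_top.1 h
      obtain ⟨h, hh, rfl⟩ := hle hn
      apply Subgroup.le_normalizer
      simpa [mul_assoc] using hh
  have hcore : N ≤ (Subgroup.normalizer (H : Set G)).normalCore := by
    intro n hn g
    simpa using hall g⁻¹ n hn
  rcases (Subgroup.normalCore_normal (Subgroup.normalizer (H : Set G))).eq_bot_or_eq_top with h | h
  · exact hN0 (le_bot_iff.1 (h ▸ hcore))
  · have : Subgroup.normalizer (H : Set G) = ⊤ := top_le_iff.1 (h ▸ Subgroup.normalCore_le _)
    rcases (Subgroup.normalizer_eq_top_iff.1 this).eq_bot_or_eq_top with h | h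
    · exact hH0 h
    · exact hH1 h

end Cfsg.Agent.S5903
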