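import Cfsg.Statements.S5904
import Cfsg.Agent.H6.Wreath

set_option autoImplicit false
open scoped Pointwise
open Cfsg

namespace Cfsg.Agent.S5904

/-- Let Ω be a finite set with more than two elements and O ⊆ Ω a subset with exactly as many elements as its complement. Then the setwise stabilizer of O in the symmetric group on Ω is not a maximal subgroup (it is properly contained in the stabilizer of the partition {O, Ω ∖ O}, which is proper). -/
theorem result {Ω : Type*} [Fintype Ω] [DecidableEq Ω] (hΩ : 2 < Fintype.card Ω)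
    (O : Set Ω) (hO : Nat.card O = Nat.card ↥Oᶜ) :
    ¬ IsCoatom (MulAction.stabilizer (Equiv.Perm Ω) O) := by
  classical
  intro hco
  let f : Ω → Prop := fun x => x ∈ O
  have hcard : Nat.card O + Nat.card ↥Oᶜ = Fintype.card Ω := by
    rw [Nat.card_coe_set_eq, Nat.card_coe_set_eq, Set.ncard_add_ncard_compl,
      Nat.card_eq_fintype_card]
  have hf : ∀ i : Prop, Nat.card {x : Ω // f x = i} = Nat.card O := by
    intro i
    by_cases hi : i
    · exact Nat.card_congr (Equiv.subtypeEquivRight fun x => by simp [f, hi])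
    · rw [hO]
      exact Nat.card_congr (Equiv.subtypeEquivRight fun x => by simp [f, hi])
  have ha : 2 ≤ Nat.card O := by omega
  have hne := Cfsg.Agent.H6.Wreath.partStab_ne_top hf ha
  apply hne
  apply hco.2
  have hmem : ∀ g ∈ MulAction.stabilizer (Equiv.Perm Ω) O, ∀ x, g x ∈ O ↔ x ∈ O := by
    intro g hg x
    rw [MulAction.mem_stabilizer_iff] at hg
    conv_lhs => rw [← hg]
    exact Set.smul_mem_smul_set_iff (a := g)
  refine lt_of_le_of_ne ?_ ?_
  · intro g hg x y
    simp only [f, hmem g hg]
  · intro h
    obtain ⟨u, _, _, hu, _⟩ := Cfsg.Agent.H6.Wreath.exists_two hf ha True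
    obtain ⟨v, _, _, hv, _⟩ := Cfsg.Agent.H6.Wreath.exists_two hf ha False
    have huv : f u ≠ f v := by rw [hu, hv]; simp
    obtain ⟨w, hw, h1, _⟩ := Cfsg.Agent.H6.Wreath.exists_map_two hf huv huv.symm
    rw [← h] at hw
    have := hmem w hw u
    rw [h1] at this
    exact huv (propext this.symm)

end Cfsg.Agent.S5904
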