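import Cfsg.Statements.S5908

set_option autoImplicit false
open Cfsg

namespace Cfsg.Agent.S5908

abbrev K := QuadraticAlgebra (ZMod 2) 1 1

instance instFintypeK : Fintype K := Fintype.ofEquiv _ (QuadraticAlgebra.equivProd 1 1).symm

def mono {R : Type*} [CommRing R] (a b c : R) : Prop := a * b = 0 ∧ a * c = 0 ∧ b * c = 0

instance instDecMono (a b c : K) : Decidable (mono a b c) := by unfold mono; infer_instance

set_option synthInstance.maxSize 2000 in
theorem fact1 : ∀ a d g : K, a * (a * a) + d * (d * d) + g * (g * g) = 1 →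
    ∀ b e h : K, b * (b * b) + e * (e * e) + h * (h * h) = 1 →
    a * (b * b) + d * (e * e) + g * (h * h) = 0 →
    ∀ c f i : K, c * (c * c) + f * (f * f) + i * (i * i) = 1 →
    a * (c * c) + d * (f * f) + g * (i * i) = 0 →
    b * (c * c) + e * (f * f) + h * (i * i) = 0 →
    (a * e * i - a * f * h - b * d * i + b * f * g + c * d * h - c * e * g = 1 →
      mono (a * a + b * d + c * g) (a * b + b * e + c * h) (a * c + b * f + c * i) ∧
      mono (d * a + e * d + f * g) (d * b + e * e + f * h) (d * c + e * f + f * i) ∧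
      mono (g * a + h * d + i * g) (g * b + h * e + i * h) (g * c + h * f + i * i)) ∧
    (a * b + b * e + c * h = 0 ∧ a * c + b * f + c * i = 0 ∧ d * c + e * f + f * i = 0 →
      mono a b c ∧ mono d e f ∧ mono g h i) := by
  decide +kernel

theorem exists_hom {F : Type*} [Field F] [Fintype F] (hF : Fintype.card F = 4) :
    ∃ φ : K →+* F, Function.Bijective φ := by
  classical
  have h2 : CharP F 2 := by
    obtain ⟨p, hp, n, hpp, hn⟩ := FiniteField.card' F
    have : p ∣ 2 ^ 2 := by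
      rw [show 2 ^ 2 = Fintype.card F from hF.symm, hn]
      exact dvd_pow_self p n.ne_zero
    have := (Nat.prime_dvd_prime_iff_eq hpp Nat.prime_two).1 (hpp.dvd_of_dvd_pow this)
    exact this ▸ hp
  obtain ⟨w, h0, h1⟩ : ∃ w : F, w ≠ 0 ∧ w ≠ 1 := by
    obtain ⟨x, y, z, h1, h2, h3⟩ := Fintype.two_lt_card_iff.1 (show 2 < Fintype.card F by omega)
    by_cases hx : x ≠ 0 ∧ x ≠ 1
    · exact ⟨x, hx⟩
    by_cases hy : y ≠ 0 ∧ y ≠ 1
    · exact ⟨y, hy⟩
    refine ⟨z, ?_, ?_⟩ <;> grind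
  have h3 : w ^ 3 = 1 := by
    have := FiniteField.pow_card_sub_one_eq_one w h0
    rwa [hF] at this
  have h4 : w * w = 1 + w := by
    have : (w - 1) * (w * w + w + 1) = 0 := by linear_combination h3
    have h5 := (mul_eq_zero.1 this).resolve_left (sub_ne_zero.2 h1)
    have h6 : (2 : F) = 0 := CharP.cast_eq_zero F 2
    linear_combination h5 - (w + 1) * h6
  letI := ZMod.algebra F 2
  let φ : K →ₐ[ZMod 2] F := QuadraticAlgebra.lift ⟨w, by simpa using h4⟩
  refine ⟨φ.toRingHom, (Fintype.bijective_iff_injective_and_card _).2 ⟨?_, by rw [hF]; rfl⟩⟩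
  rw [injective_iff_map_eq_zero]
  intro z hz
  by_contra hne
  have : ∀ z : K, z ≠ 0 → z * z * z = 1 := by decide
  have := congrArg φ.toRingHom (this z hne)
  simp only [map_mul, hz, map_one] at this
  simp at this

theorem mono_map {F : Type*} [Field F] (φ : K →+* F) {a b c : K} (h : mono a b c) :
    mono (φ a) (φ b) (φ c) := by
  refine ⟨?_, ?_, ?_⟩ <;> rw [← map_mul]
  · rw [h.1, map_zero]
  · rw [h.2.1, map_zero]
  · rw [h.2.2, map_zero]

def Mono {F : Type*} [Field F] (A : Matrix (Fin 3) (Fin 3) F) : Prop :=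
  ∀ i, mono (A i 0) (A i 1) (A i 2)

theorem Mono.mul {F : Type*} [Field F] {A B : Matrix (Fin 3) (Fin 3) F} (hA : Mono A)
    (hB : Mono B) : Mono (A * B) := by
  intro i
  obtain ⟨a1, a2, a3⟩ := hA i
  obtain ⟨b1, b2, b3⟩ := hB 0
  obtain ⟨c1, c2, c3⟩ := hB 1
  obtain ⟨d1, d2, d3⟩ := hB 2
  simp only [mono, Matrix.mul_apply, Fin.sum_univ_three]
  refine ⟨?_, ?_, ?_⟩
  · linear_combination A i 0 ^ 2 * b1 + A i 1 ^ 2 * c1 + A i 2 ^ 2 * d1
      + (B 0 0 * B 1 1 + B 1 0 * B 0 1) * a1 + (B 0 0 * B 2 1 + B 2 0 * B 0 1) * a2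
      + (B 1 0 * B 2 1 + B 2 0 * B 1 1) * a3
  · linear_combination A i 0 ^ 2 * b2 + A i 1 ^ 2 * c2 + A i 2 ^ 2 * d2
      + (B 0 0 * B 1 2 + B 1 0 * B 0 2) * a1 + (B 0 0 * B 2 2 + B 2 0 * B 0 2) * a2
      + (B 1 0 * B 2 2 + B 2 0 * B 1 2) * a3
  · linear_combination A i 0 ^ 2 * b3 + A i 1 ^ 2 * c3 + A i 2 ^ 2 * d3
      + (B 0 1 * B 1 2 + B 1 1 * B 0 2) * a1 + (B 0 1 * B 2 2 + B 2 1 * B 0 2) * a2
      + (B 1 1 * B 2 2 + B 2 1 * B 1 2) * a3

theorem fact2 {F : Type*} [Field F] [Fintype F] (hF : Fintype.card F = 4) (g : Cfsg.SU 3 F 2) :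
    Mono (g.1.1 * g.1.1) ∧ ((g.1.1 * g.1.1) 0 1 = 0 → (g.1.1 * g.1.1) 0 2 = 0 →
      (g.1.1 * g.1.1) 1 2 = 0 → Mono g.1.1) := by
  obtain ⟨φ, hφ⟩ := exists_hom hF
  obtain ⟨⟨A, hA⟩, hg⟩ := g
  have hu : ∀ j k : Fin 3, A 0 j * (A 0 k * A 0 k) + A 1 j * (A 1 k * A 1 k) +
      A 2 j * (A 2 k * A 2 k) = if j = k then 1 else 0 := by
    intro j k
    have : hermForm 3 F 2 (A.mulVec (Pi.single j 1)) (A.mulVec (Pi.single k 1)) = _ :=
      hg (Pi.single j 1) (Pi.single k 1)
    simp only [hermForm, Fin.sum_univ_three, sq, Matrix.mulVec_single_one, Matrix.col_apply] at this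
    rw [this]
    fin_cases j <;> fin_cases k <;> simp
  rw [Matrix.det_fin_three] at hA
  choose B hB using fun i j => hφ.2 (A i j)
  have key := fact1 (B 0 0) (B 1 0) (B 2 0) (hφ.1 (by simpa [hB] using hu 0 0))
    (B 0 1) (B 1 1) (B 2 1) (hφ.1 (by simpa [hB] using hu 1 1))
    (hφ.1 (by simpa [hB] using hu 0 1)) (B 0 2) (B 1 2) (B 2 2)
    (hφ.1 (by simpa [hB] using hu 2 2)) (hφ.1 (by simpa [hB] using hu 0 2))
    (hφ.1 (by simpa [hB] using hu 1 2))
  constructor
  · obtain ⟨h1, h2, h3⟩ := key.1 (hφ.1 (by simpa [hB] using hA))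
    intro i
    simp only [Matrix.mul_apply, Fin.sum_univ_three]
    fin_cases i
    · simpa [hB] using mono_map φ h1
    · simpa [hB] using mono_map φ h2
    · simpa [hB] using mono_map φ h3
  · intro e1 e2 e3
    simp only [Matrix.mul_apply, Fin.sum_univ_three] at e1 e2 e3
    obtain ⟨h1, h2, h3⟩ := key.2 ⟨hφ.1 (by simpa [hB] using e1), hφ.1 (by simpa [hB] using e2),
      hφ.1 (by simpa [hB] using e3)⟩
    intro i
    fin_cases i
    · simpa [hB] using mono_map φ h1
    · simpa [hB] using mono_map φ h2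
    · simpa [hB] using mono_map φ h3

theorem mem_SU {F : Type*} [Field F] (h6 : (2 : F) = 0) (A : Matrix.SpecialLinearGroup (Fin 3) F)
    (hu : ∀ j k : Fin 3, A.1 0 j * (A.1 0 k * A.1 0 k) + A.1 1 j * (A.1 1 k * A.1 1 k) +
      A.1 2 j * (A.1 2 k * A.1 2 k) = if j = k then 1 else 0) : A ∈ Cfsg.SU 3 F 2 := by
  intro u v
  show hermForm 3 F 2 (A.1.mulVec u) (A.1.mulVec v) = _
  have hs : ∀ x y z : F, (x + y + z) ^ 2 = x ^ 2 + y ^ 2 + z ^ 2 := fun x y z => by
    linear_combination (x * y + x * z + y * z) * h6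
  have h00 := hu 0 0
  have h01 := hu 0 1
  have h02 := hu 0 2
  have h10 := hu 1 0
  have h11 := hu 1 1
  have h12 := hu 1 2
  have h20 := hu 2 0
  have h21 := hu 2 1
  have h22 := hu 2 2
  simp at h00 h01 h02 h10 h11 h12 h20 h21 h22
  simp only [hermForm, Fin.sum_univ_three, Matrix.mulVec, dotProduct, hs]
  linear_combination u 0 * v 0 ^ 2 * h00 + u 0 * v 1 ^ 2 * h01 + u 0 * v 2 ^ 2 * h02
    + u 1 * v 0 ^ 2 * h10 + u 1 * v 1 ^ 2 * h11 + u 1 * v 2 ^ 2 * h12
    + u 2 * v 0 ^ 2 * h20 + u 2 * v 1 ^ 2 * h21 + u 2 * v 2 ^ 2 * h22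


/-- The subgroup lattice of PSU₃(2) (the solvable group of order 72, realised over the field with 4 elements) is not complemented: some subgroup H has no subgroup X with H ⊔ X = ⊤ and H ⊓ X = ⊥. -/
theorem result {F : Type*} [Field F] [Fintype F] (hF : Fintype.card F = 4) :
    ¬ ComplementedLattice (Subgroup (Cfsg.PSU 3 F 2)) := by
  intro hc
  obtain ⟨φ, hφ⟩ := exists_hom hF
  let w : F := φ ⟨0, 1⟩
  have h4 : w * w = 1 + w := by
    have : (⟨0, 1⟩ : K) * ⟨0, 1⟩ = 1 + ⟨0, 1⟩ := by decide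
    have := congrArg φ this
    rwa [map_mul, map_add, map_one] at this
  have h6 : (2 : F) = 0 := by
    have : (1 : K) + 1 = 0 := by decide
    have := congrArg φ this
    rw [map_add, map_one, map_zero] at this
    linear_combination this
  let M : Subgroup (Cfsg.SU 3 F 2) :=
    { carrier := {g | Mono g.1.1}
      one_mem' := fun i => by fin_cases i <;> simp [mono]
      mul_mem' := fun {a b} ha hb => Mono.mul ha hb
      inv_mem' := fun {a} ha => by
        have : ∀ n : ℕ, Mono (a ^ n).1.1 := by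
          intro n
          induction n with
          | zero => intro i; fin_cases i <;> simp [mono]
          | succ n ih => rw [pow_succ]; exact Mono.mul ih ha
        have h1 : a⁻¹ = a ^ (orderOf a - 1) := by
          rw [inv_eq_iff_mul_eq_one, ← pow_succ', Nat.sub_add_cancel (orderOf_pos a),
            pow_orderOf_eq_one]
        rw [h1]
        exact this _ }
  let D : Cfsg.SU 3 F 2 := ⟨⟨!![1, 0, 0; 0, w, 0; 0, 0, 1 + w], by
      simp [Matrix.det_fin_three]
      linear_combination h4 + w * h6⟩, mem_SU h6 _ fun j k => by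
      fin_cases j <;> fin_cases k <;> simp <;> grind⟩
  let E : Cfsg.SU 3 F 2 := ⟨⟨!![1, 1, 1; 1, w, 1 + w; 1, 1 + w, w], by
      simp [Matrix.det_fin_three]
      grind⟩, mem_SU h6 _ fun j k => by
      fin_cases j <;> fin_cases k <;> simp <;> grind⟩
  have hsq : ∀ g : Cfsg.SU 3 F 2, g * g ∈ Subgroup.center _ → g ∈ M := by
    intro g hg
    have h1 := congrArg (fun x : Cfsg.SU 3 F 2 => x.1.1) (Subgroup.mem_center_iff.1 hg D)
    have w0 : w ≠ 0 := fun h => by rw [h] at h4; simp at h4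
    have w1 : w - 1 ≠ 0 := fun h => by
      have : (1 : F) = 0 := by linear_combination h4 - w * h + h6
      simp at this
    refine (fact2 hF g).2 ?_ ?_ ?_
    · have := congrFun (congrFun h1 0) 1
      change (D.1.1 * (g.1.1 * g.1.1)) 0 1 = (g.1.1 * g.1.1 * D.1.1) 0 1 at this
      generalize g.1.1 * g.1.1 = X at this ⊢
      simp [D, Matrix.mul_apply, Fin.sum_univ_three] at this
      apply mul_right_cancel₀ w1
      linear_combination -this
    · have := congrFun (congrFun h1 0) 2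
      change (D.1.1 * (g.1.1 * g.1.1)) 0 2 = (g.1.1 * g.1.1 * D.1.1) 0 2 at this
      generalize g.1.1 * g.1.1 = X at this ⊢
      simp [D, Matrix.mul_apply, Fin.sum_univ_three] at this
      apply mul_right_cancel₀ w0
      linear_combination -this
    · have := congrFun (congrFun h1 1) 2
      change (D.1.1 * (g.1.1 * g.1.1)) 1 2 = (g.1.1 * g.1.1 * D.1.1) 1 2 at this
      generalize g.1.1 * g.1.1 = X at this ⊢
      simp [D, Matrix.mul_apply, Fin.sum_univ_three] at this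
      linear_combination -this
  obtain ⟨C, hC⟩ := exists_isCompl (M.map (QuotientGroup.mk' (Subgroup.center (Cfsg.SU 3 F 2))))
  have hC0 : C ≤ M.map (QuotientGroup.mk' (Subgroup.center (Cfsg.SU 3 F 2))) := by
    intro c hc
    obtain ⟨g, rfl⟩ := QuotientGroup.mk'_surjective _ c
    refine ⟨g, hsq g ?_, rfl⟩
    have : QuotientGroup.mk' (Subgroup.center (Cfsg.SU 3 F 2)) (g * g) ∈
        M.map (QuotientGroup.mk' (Subgroup.center (Cfsg.SU 3 F 2))) ⊓ C :=
      ⟨⟨g * g, (fact2 hF g).1, rfl⟩, by rw [map_mul]; exact mul_mem hc hc⟩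
    rw [hC.inf_eq_bot, Subgroup.mem_bot] at this
    exact (QuotientGroup.eq_one_iff _).1 this
  have h1 := hC.sup_eq_top
  rw [sup_eq_left.2 hC0] at h1
  have h2 : QuotientGroup.mk' (Subgroup.center (Cfsg.SU 3 F 2)) E ∈
    M.map (QuotientGroup.mk' (Subgroup.center (Cfsg.SU 3 F 2))) := by rw [h1]; trivial
  obtain ⟨g, hg, e⟩ := h2
  have h3 : g⁻¹ * E ∈ Subgroup.center _ := QuotientGroup.eq.1 e
  have h5 : E ∈ M := by
    have := mul_mem hg (hsq _ (mul_mem h3 h3))
    simpa using this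
  have := (h5 0).1
  simp [E] at this

end Cfsg.Agent.S5908
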