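import Cfsg.Statements.S5909
import Cfsg.Agent.H6.WreathAlt

set_option autoImplicit false
open Cfsg

namespace Cfsg.Agent.S5909

/-- Let Ω be a finite set whose size is not 8, and f : Ω → Fin b a labelling with b ≥ 2 whose fibres all have the same size a ≥ 2 (a partition into b blocks of size a). Then the even permutations preserving the partition — the intersection of the imprimitive wreath product S_a ≀ S_b with the alternating group — form a maximal subgroup of the alternating group on Ω. -/
theorem result {Ω : Type*} [Fintype Ω] [DecidableEq Ω] (h8 : Fintype.card Ω ≠ 8) (a b : ℕ) (ha : 2 ≤ a) (hb : 2 ≤ b)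
    (f : Ω → Fin b) (hf : ∀ i : Fin b, Nat.card {x : Ω // f x = i} = a) :
    IsCoatom ((Subgroup.closure {g : Equiv.Perm Ω | ∀ x y : Ω, f x = f y ↔ f (g x) = f (g y)} ⊓ alternatingGroup Ω).subgroupOf (alternatingGroup Ω)) := by
  rw [Cfsg.Agent.H6.Wreath.closure_eq]
  have hc := Cfsg.Agent.H6.Wreath.card_eq_mul hf
  rw [Nat.card_eq_fintype_card, Nat.card_fin] at hc
  by_cases h22 : a = 2 ∧ b = 2
  swap
  · apply Cfsg.Agent.H6.Wreath.isCoatom_partStab_alt hf ha (by simpa using hb)
    rw [Nat.card_fin]
    by_cases h : 3 ≤ a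
    · exact Or.inl h
    · right
      obtain rfl : a = 2 := by omega
      omega
  obtain ⟨rfl, rfl⟩ := h22
  have e0 : ∀ c : Fin 2, {x : Ω // f x = c} ≃ {x : Fin 2 × Fin 2 // x.1 = c} := by
    intro c
    refine (Finite.card_eq.1 ?_).some
    rw [hf, Nat.card_eq_fintype_card]
    revert c; decide
  let e : Ω ≃ Fin 2 × Fin 2 := Equiv.ofFiberEquiv e0
  have he : ∀ x, (e x).1 = f x := fun x => Equiv.ofFiberEquiv_map e0 x
  set K := (Cfsg.Agent.H6.Wreath.partStab f ⊓ alternatingGroup Ω).subgroupOf (alternatingGroup Ω)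
    with hK
  have hKc : Nat.card K = 4 := by
    have h1 : Nat.card {g : Equiv.Perm (Fin 2 × Fin 2) //
      (∀ x y, x.1 = y.1 ↔ (g x).1 = (g y).1) ∧ Equiv.Perm.sign g = 1} = 4 := by
      rw [Nat.card_eq_fintype_card]
      decide
    rw [← h1, hK, Nat.card_congr (Subgroup.subgroupOfEquivOfLe inf_le_right).toEquiv]
    refine Nat.card_congr (Equiv.subtypeEquiv e.permCongr fun g => ?_)
    rw [Equiv.Perm.sign_permCongr]
    refine and_congr ?_ Iff.rfl
    constructor
    · intro h x y
      have := h (e.symm x) (e.symm y)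
      simpa [← he] using this
    · intro h x y
      have := h (e x) (e y)
      simpa [← he] using this
  have hA : Nat.card (alternatingGroup Ω) = 12 := by
    have : Nontrivial Ω := Fintype.one_lt_card_iff_nontrivial.1 (by omega)
    rw [nat_card_alternatingGroup, Nat.card_eq_fintype_card, hc]; rfl
  have hi : K.index = 3 := by
    have := K.index_mul_card
    rw [hKc, hA] at this
    omega
  refine ⟨fun h => by rw [h] at hi; simp at hi, fun G hG => ?_⟩
  have h1 := Subgroup.index_dvd_of_le hG.le
  rw [hi] at h1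
  rcases (Nat.dvd_prime Nat.prime_three).1 h1 with h | h
  · exact Subgroup.index_eq_one.1 h
  · have := Subgroup.index_strictAnti hG
    omega

end Cfsg.Agent.S5909
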