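import Cfsg.Statements.S5910
import Cfsg.Agent.H6.Wreath

set_option autoImplicit false
open Cfsg

namespace Cfsg.Agent.S5910

abbrev V := (ZMod 2 × ZMod 2) × ZMod 2

def K0 : Subgroup (Equiv.Perm V) where
  carrier := {g | ∀ x y z, g (x + y + z) = g x + g y + g z}
  one_mem' := fun _ _ _ => rfl
  mul_mem' := fun {a b} ha hb x y z => by
    rw [Equiv.Perm.mul_apply, hb, ha]; rfl
  inv_mem' := fun {a} ha x y z => by
    apply a.injective
    rw [ha]; simp

theorem aff1 : ∀ π : Equiv.Perm (ZMod 2 × ZMod 2), ∀ x y z, π (x + y + z) = π x + π y + π z := by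
  decide +kernel

theorem aff2 : ∀ ε : ZMod 2 × ZMod 2 → ZMod 2,
    ∏ i, Equiv.Perm.sign (Equiv.addRight (ε i)) = 1 →
    ∀ x y z, ε (x + y + z) = ε x + ε y + ε z := by
  decide +kernel

theorem le_K0 {g : Equiv.Perm V} (hg : g ∈ Cfsg.Agent.H6.Wreath.partStab (Prod.fst : V → _))
    (hs : Equiv.Perm.sign g = 1) : g ∈ K0 := by
  let π0 : ZMod 2 × ZMod 2 → ZMod 2 × ZMod 2 := fun i => (g (i, 0)).1
  let ε : ZMod 2 × ZMod 2 → ZMod 2 := fun i => (g (i, 0)).2
  have hinj : Function.Injective π0 := fun i j h => (hg (i, 0) (j, 0)).2 h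
  let π : Equiv.Perm (ZMod 2 × ZMod 2) := Equiv.ofBijective π0 (Finite.injective_iff_bijective.1 hinj)
  have hform : ∀ i s, g (i, s) = (π i, s + ε i) := by
    intro i s
    have h0 : g (i, 0) = (π i, ε i) := rfl
    have h2 : ∀ s : ZMod 2, s = 0 ∨ s = 1 := by decide
    rcases h2 s with rfl | rfl
    · rw [h0, zero_add]
    · have h1 : (g (i, 1)).1 = π i := (hg (i, 1) (i, 0)).1 rfl
      have h3 : (g (i, 1)).2 ≠ ε i := by
        intro h
        have : g (i, 1) = g (i, 0) := Prod.ext h1 h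
        have := g.injective this
        simp at this
      have h4 : ∀ a b : ZMod 2, a ≠ b → a = 1 + b := by decide
      exact Prod.ext h1 (h4 _ _ h3)
  have hg2 : g = (Equiv.prodCongrLeft (fun _ : ZMod 2 => π) : Equiv.Perm V) *
      (Equiv.prodCongrRight (fun i => Equiv.addRight (ε i)) : Equiv.Perm V) := by
    ext1 ⟨i, s⟩
    rw [hform]; rfl
  have hs2 : ∏ i, Equiv.Perm.sign (Equiv.addRight (ε i)) = 1 := by
    rw [hg2, map_mul, Equiv.Perm.sign_prodCongrLeft, Equiv.Perm.sign_prodCongrRight] at hs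
    simpa [Int.units_sq] using hs
  rintro ⟨i, s⟩ ⟨j, t⟩ ⟨k, u⟩
  simp only [Prod.mk_add_mk, hform, aff1, aff2 ε hs2]
  congr 1
  ring

def k1 : Equiv.Perm V := ⟨fun x => ((x.2, x.1.2), x.1.1), fun x => ((x.2, x.1.2), x.1.1),
  fun _ => rfl, fun _ => rfl⟩

def k2 : Equiv.Perm V := Equiv.swap ((0, 0), 0) ((0, 0), 1) * Equiv.swap ((0, 0), 0) ((0, 1), 0)

theorem k1_sign : Equiv.Perm.sign k1 = 1 := by decide +kernel
theorem k2_sign : Equiv.Perm.sign k2 = 1 := by decide +kernel
theorem k1_mem : k1 ∈ K0 := fun _ _ _ => rfl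
theorem k2_mem : k2 ∉ K0 := fun h => absurd (h ((0, 0), 0) ((1, 0), 0) ((1, 1), 0)) (by decide)
theorem k1_notMem : k1 ∉ Cfsg.Agent.H6.Wreath.partStab (Prod.fst : V → _) :=
  fun h => absurd (h ((0, 0), 0) ((0, 0), 1)) (by decide)


/-- Let Ω be a set with 8 elements and f : Ω → Fin 4 a labelling whose four fibres all have size 2 (a partition of the 8 points into 4 pairs). Then the group of even permutations preserving this partition, (S₂ ≀ S₄) ∩ A₈, is not a maximal subgroup of the alternating group A₈ (it lies in a subgroup isomorphic to the affine group AGL₃(2)). -/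
theorem result {Ω : Type*} [Fintype Ω] [DecidableEq Ω] (h8 : Fintype.card Ω = 8)
    (f : Ω → Fin 4) (hf : ∀ i : Fin 4, Nat.card {x : Ω // f x = i} = 2) :
    ¬ IsCoatom ((Subgroup.closure {g : Equiv.Perm Ω | ∀ x y : Ω, f x = f y ↔ f (g x) = f (g y)} ⊓ alternatingGroup Ω).subgroupOf (alternatingGroup Ω)) := by
  rw [Cfsg.Agent.H6.Wreath.closure_eq]
  let d : Fin 4 ≃ ZMod 2 × ZMod 2 := (finProdFinEquiv (m := 2) (n := 2)).symm
  have e0 : ∀ c : ZMod 2 × ZMod 2, {x : Ω // d (f x) = c} ≃ {x : V // x.1 = c} := by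
    intro c
    refine (Finite.card_eq.1 ?_).some
    have : Nat.card {x : V // x.1 = c} = 2 := by
      rw [Nat.card_eq_fintype_card]
      revert c; decide
    rw [this]
    refine Eq.trans ?_ (hf (d.symm c))
    exact Nat.card_congr (Equiv.subtypeEquivRight fun x => by rw [Equiv.eq_symm_apply])
  let e : Ω ≃ V := Equiv.ofFiberEquiv (f := fun x => d (f x)) e0
  have he : ∀ x, (e x).1 = d (f x) := fun x => Equiv.ofFiberEquiv_map e0 x
  have hW : ∀ g : Equiv.Perm Ω, g ∈ Cfsg.Agent.H6.Wreath.partStab f ↔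
      e.permCongr g ∈ Cfsg.Agent.H6.Wreath.partStab (Prod.fst : V → _) := by
    intro g
    constructor
    · intro h x y
      have := h (e.symm x) (e.symm y)
      rw [← d.injective.eq_iff, ← d.injective.eq_iff (a := f (g _))] at this
      simpa [← he] using this
    · intro h x y
      have := h (e x) (e y)
      rw [← d.injective.eq_iff, ← d.injective.eq_iff (a := f (g _))]
      simpa [← he] using this
  intro hco
  let K : Subgroup (alternatingGroup Ω) :=
    (K0.comap e.permCongrHom.toMonoidHom).subgroupOf (alternatingGroup Ω)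
  have hK : ∀ g : alternatingGroup Ω, g ∈ K ↔ e.permCongr g ∈ K0 := fun g => Iff.rfl
  have h1 : (Cfsg.Agent.H6.Wreath.partStab f ⊓ alternatingGroup Ω).subgroupOf (alternatingGroup Ω)
      < K := by
    refine lt_of_le_of_ne ?_ ?_
    · intro g hg
      rw [hK]
      exact le_K0 ((hW _).1 hg.1) (by rw [Equiv.Perm.sign_permCongr]; exact g.2)
    · intro h
      have h2 : (⟨e.symm.permCongr k1, by
          rw [Equiv.Perm.mem_alternatingGroup, Equiv.Perm.sign_permCongr, k1_sign]⟩ :
          alternatingGroup Ω) ∈ K := by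
        rw [hK]
        convert k1_mem
        ext1; simp
      rw [← h] at h2
      apply k1_notMem
      convert (hW _).1 h2.1
      ext1; simp
  have h2 : (⟨e.symm.permCongr k2, by
      rw [Equiv.Perm.mem_alternatingGroup, Equiv.Perm.sign_permCongr, k2_sign]⟩ :
      alternatingGroup Ω) ∈ K := by
    rw [hco.2 K h1]; trivial
  rw [hK] at h2
  apply k2_mem
  convert h2
  ext1; simp

end Cfsg.Agent.S5910
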