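import Cfsg.Statements.S5912
import Cfsg.Agent.H6.SymIndex

set_option autoImplicit false
open Cfsg

namespace Cfsg.Agent.S5912

/-- The symmetric group on a 6-element set Ω has exactly two conjugacy classes of subgroups of index 6: there are two non-conjugate subgroups of index 6 (a point stabilizer and a transitive subgroup isomorphic to S₅), and every subgroup of index 6 is conjugate to one of them. -/
theorem result {Ω : Type*} [Fintype Ω] [DecidableEq Ω] (h6 : Fintype.card Ω = 6) :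
    ∃ H₁ H₂ : Subgroup (Equiv.Perm Ω), H₁.index = 6 ∧ H₂.index = 6 ∧
      (¬ ∃ g : Equiv.Perm Ω, Subgroup.map (MulAut.conj g).toMonoidHom H₁ = H₂) ∧
      ∀ H : Subgroup (Equiv.Perm Ω), H.index = 6 →
        ∃ g : Equiv.Perm Ω, Subgroup.map (MulAut.conj g).toMonoidHom H₁ = H ∨ Subgroup.map (MulAut.conj g).toMonoidHom H₂ = H := by
  rw [← Nat.card_eq_fintype_card] at h6
  have : Nontrivial Ω := Finite.one_lt_card_iff_nontrivial.1 (by omega)
  obtain ⟨T, hT, hT'⟩ := Cfsg.Agent.H6.SymIndex.exists_transitive_index_six h6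
  have hT2 := Cfsg.Agent.H6.SymIndex.not_stab_of_transitive hT'
  obtain ⟨x⟩ : Nonempty Ω := inferInstance
  have key : ∀ {X : Type _} [MulAction (Equiv.Perm Ω) X] (g : Equiv.Perm Ω) (c : X),
      Subgroup.map (MulAut.conj g).toMonoidHom (MulAction.stabilizer (Equiv.Perm Ω) c)
        = MulAction.stabilizer (Equiv.Perm Ω) (g • c) := by
    intro X _ g c
    rw [MulAction.stabilizer_smul_eq_stabilizer_map_conj]
  refine ⟨T, MulAction.stabilizer _ x, hT, by rw [Cfsg.Agent.H6.SymIndex.index_stab, h6], ?_, ?_⟩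
  · rintro ⟨g, hg⟩
    apply hT2
    refine ⟨g⁻¹ • x, ?_⟩
    rw [← key, ← hg, Subgroup.map_map]
    ext y
    simp [mul_assoc]
  · intro H hH
    by_cases hH' : ∃ x : Ω, H = MulAction.stabilizer (Equiv.Perm Ω) x
    · obtain ⟨y, rfl⟩ := hH'
      obtain ⟨g, rfl⟩ := MulAction.exists_smul_eq (Equiv.Perm Ω) x y
      exact ⟨g, Or.inr (key g x)⟩
    · obtain ⟨c, rfl⟩ := Cfsg.Agent.H6.SymIndex.eq_stab_coset h6 hT hT2 hH hH'
      obtain ⟨g, rfl⟩ := MulAction.exists_smul_eq (Equiv.Perm Ω)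
        (((1 : Equiv.Perm Ω) : Equiv.Perm Ω ⧸ T)) c
      refine ⟨g, Or.inl ?_⟩
      rw [← key, MulAction.stabilizer_quotient]

end Cfsg.Agent.S5912
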